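import Mathlib

set_option autoImplicit false
open Equiv Subgroup MulAction

namespace H12.AbSym

variable {α : Type*} [Fintype α] [DecidableEq α]

/-- `A` fixes every point outside `s`. -/
def Supp (A : Subgroup (Perm α)) (s : Finset α) : Prop := ∀ a ∈ A, ∀ x ∉ s, a x = x

theorem step {A : Subgroup (Perm α)} (hA : IsMulCommutative A) {s : Finset α} (hs : Supp A s)
    {x : α} (hx : x ∈ s) :
    ∃ (B : Subgroup (Perm α)) (t : Finset α), B ≤ A ∧ Supp B t ∧ 0 < Nat.card (orbit A x) ∧
      Nat.card A = Nat.card (orbit A x) * Nat.card B ∧ t.card + Nat.card (orbit A x) = s.card := by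
  classical
  have hO : (orbit A x).toFinset ⊆ s := by
    intro y hy
    rw [Set.mem_toFinset] at hy
    obtain ⟨a, rfl⟩ := hy
    by_contra h
    have h1 : (a : Perm α) ((a : Perm α) x) = (a : Perm α) x := hs a a.2 _ h
    have h2 := (a : Perm α).injective h1
    exact h (by change (a : Perm α) x ∈ s; rwa [h2])
  refine ⟨(stabilizer A x).map A.subtype, s \ (orbit A x).toFinset, map_subtype_le _, ?_,
    Nat.card_pos_iff.2 ⟨⟨⟨x, mem_orbit_self x⟩⟩, inferInstance⟩, ?_, ?_⟩
  · rintro _ ⟨a, ha, rfl⟩ y hy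
    by_cases h : y ∈ s
    · have : y ∈ orbit A x := by
        by_contra h'
        exact hy (Finset.mem_sdiff.2 ⟨h, by rwa [Set.mem_toFinset]⟩)
      obtain ⟨b, rfl⟩ := this
      change a • b • x = b • x
      rw [← mul_smul, hA.is_comm.comm, mul_smul, mem_stabilizer_iff.1 ha]
    · exact hs _ a.2 _ h
  · rw [card_map_of_injective A.subtype_injective, Nat.card_coe_set_eq, ← index_stabilizer,
      index_mul_card]
  · rw [Finset.card_sdiff_of_subset hO, Nat.card_eq_card_toFinset]
    exact Nat.sub_add_cancel (Finset.card_le_card hO)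

/-- Three times the bound. -/
def F : ℕ → ℕ
  | 0 => 3
  | 1 => 4
  | 2 => 6
  | n + 3 => 3 * F n

theorem F_add (k r : ℕ) : F (3 * k + r) = 3 ^ k * F r := by
  induction k with
  | zero => simp
  | succ k ih =>
    rw [show 3 * (k + 1) + r = (3 * k + r) + 3 by ring, F, ih]; ring

theorem mul_F_le (m r : ℕ) : m * F r ≤ F (r + m) := by
  obtain ⟨k, r, hr, rfl⟩ : ∃ k r', r' < 3 ∧ r = 3 * k + r' :=
    ⟨r / 3, r % 3, Nat.mod_lt _ (by norm_num), (Nat.div_add_mod r 3).symm⟩
  rw [add_assoc, F_add, F_add, mul_left_comm]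
  refine Nat.mul_le_mul_left _ ?_
  induction m using Nat.strong_induction_on with
  | _ m ih =>
    by_cases hm : m < 5
    · interval_cases m <;> interval_cases r <;> decide
    · obtain ⟨j, rfl⟩ : ∃ j, m = j + 3 := ⟨m - 3, by omega⟩
      have := ih j (by omega)
      rw [← add_assoc, F]
      nlinarith [Nat.zero_le (F r)]

theorem mul_F_le' (m r k : ℕ) (h : r + m = 3 * k + 2) (h2 : m ≠ 2) (h3 : m ≠ 3) :
    3 * (m * F r) ≤ 16 * 3 ^ k := by
  obtain ⟨j, r, hr, rfl⟩ : ∃ k r', r' < 3 ∧ r = 3 * k + r' :=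
    ⟨r / 3, r % 3, Nat.mod_lt _ (by norm_num), (Nat.div_add_mod r 3).symm⟩
  obtain ⟨i, rfl⟩ : ∃ i, k = j + i := ⟨k - j, by omega⟩
  rw [F_add, pow_add]
  suffices 3 * (m * F r) ≤ 16 * 3 ^ i by nlinarith [Nat.zero_le (3 ^ j)]
  have hm : m = 3 * i + 2 - r := by omega
  have hF : F r ≤ 6 := by interval_cases r <;> decide
  by_cases hi : i < 3
  · interval_cases i <;> interval_cases r <;> subst hm <;> first | decide | omega
  · have : ∀ i, 3 ≤ i → 18 * (3 * i + 2) ≤ 16 * 3 ^ i := by
      intro i hi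
      induction i, hi using Nat.le_induction with
      | base => norm_num
      | succ i hi ih => rw [pow_succ]; omega
    have h1 := this i (by omega)
    have h2 : m * F r ≤ (3 * i + 2) * 6 := Nat.mul_le_mul (by omega) hF
    omega

theorem comm_of_le {G : Type*} [Group G] {A B : Subgroup G} (hA : IsMulCommutative A)
    (h : B ≤ A) : IsMulCommutative B :=
  ⟨⟨fun a b => Subtype.ext (congrArg Subtype.val (hA.is_comm.comm ⟨a, h a.2⟩ ⟨b, h b.2⟩) :)⟩⟩

theorem card_le (n : ℕ) : ∀ (A : Subgroup (Perm α)) (s : Finset α), IsMulCommutative A →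
    Supp A s → s.card = n → 3 * Nat.card A ≤ F n := by
  induction n using Nat.strong_induction_on with
  | _ n ih =>
    intro A s hA hs hn
    rcases s.eq_empty_or_nonempty with rfl | ⟨x, hx⟩
    · have : A = ⊥ := eq_bot_iff.2 fun a ha => mem_bot.2 (Equiv.ext fun y => hs a ha y (by simp))
      subst this
      rw [← hn]; simp [F]
    · obtain ⟨B, t, hBA, hB, h0, h1, h2⟩ := step hA hs hx
      have := ih t.card (by omega) B t (comm_of_le hA hBA) hB rfl
      rw [h1, ← hn, ← h2, mul_left_comm]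
      exact (Nat.mul_le_mul_left _ this).trans (mul_F_le _ _)

theorem card_le_alt (k : ℕ) : ∀ (A : Subgroup (Perm α)) (s : Finset α), IsMulCommutative A →
    A ≤ alternatingGroup α → Supp A s → s.card = 3 * k + 2 → 9 * Nat.card A ≤ 16 * 3 ^ k := by
  induction k with
  | zero =>
    intro A s _ hA hs hn
    have : A = ⊥ := by
      refine eq_bot_iff.2 fun a ha => mem_bot.2 ?_
      have h1 : a.support ⊆ s := fun y hy => by
        by_contra h; exact Perm.mem_support.1 hy (hs a ha y h)
      have h2 := Finset.card_le_card h1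
      by_contra h
      have h3 : a.support.card = 2 := by
        have := Perm.two_le_card_support_of_ne_one h; omega
      have h4 := (Perm.card_support_eq_two.1 h3).sign_eq
      rw [Perm.mem_alternatingGroup.1 (hA ha)] at h4
      exact absurd h4 (by decide)
    subst this
    simp
  | succ k ih =>
    intro A s hA hA' hs hn
    by_cases h : ∃ x ∈ s, Nat.card (orbit A x) ≠ 2
    · obtain ⟨x, hx, h2⟩ := h
      obtain ⟨B, t, hBA, hB, h0, h1, ht⟩ := step hA hs hx
      by_cases h3 : Nat.card (orbit A x) = 3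
      · have := ih B t (comm_of_le hA hBA) (hBA.trans hA') hB (by omega)
        rw [h1, h3, pow_succ]; omega
      · have h4 := card_le _ B t (comm_of_le hA hBA) hB rfl
        have h5 := mul_F_le' _ _ (k + 1) (ht.trans hn) h2 h3
        rw [h1]; nlinarith
    · push Not at h
      obtain ⟨x, hx⟩ := Finset.card_pos.1 (show 0 < s.card by omega)
      obtain ⟨B, t, hBA, hB, -, h1, ht⟩ := step hA hs hx
      rw [h x hx] at h1 ht
      obtain ⟨y, hy⟩ := Finset.card_pos.1 (show 0 < t.card by omega)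
      obtain ⟨C, u, hCB, hC, h0, h2, hu⟩ := step (comm_of_le hA hBA) hB hy
      have h4 := card_le _ C u (comm_of_le hA (hCB.trans hBA)) hC rfl
      have h5 : Nat.card (orbit B y) ≤ 2 := by
        have hsub : orbit B y ⊆ orbit A y := by
          rintro _ ⟨b, rfl⟩; exact ⟨⟨b, hBA b.2⟩, rfl⟩
        refine (Nat.card_mono (Set.toFinite _) hsub).trans ?_
        by_cases hys : y ∈ s
        · exact (h y hys).le
        · have : orbit A y = {y} := by
            ext z; constructor
            · rintro ⟨a, rfl⟩; exact hs a a.2 y hys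
            · rintro rfl; exact mem_orbit_self _
          rw [this]; simp
      rw [h1, h2, pow_succ]
      generalize Nat.card (orbit B y) = m at *
      interval_cases m
      · rw [show u.card = 3 * k + 2 by omega, F_add] at h4
        simp only [F] at h4; omega
      · rw [show u.card = 3 * k + 1 by omega, F_add] at h4
        simp only [F] at h4; omega

/-- Existence of an abelian subgroup of order `c` (inside the alternating group if `ev`). -/
def Gd (ev : Prop) (n c : ℕ) : Prop :=
  ∃ A : Subgroup (Perm (Fin n)), IsMulCommutative A ∧ Nat.card A = c ∧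
    (ev → A ≤ alternatingGroup (Fin n))

theorem Gd.add {ev : Prop} {n m c d : ℕ} (h : Gd ev n c) (h' : Gd ev m d) :
    Gd ev (n + m) (c * d) := by
  obtain ⟨A, hA, rfl, hA'⟩ := h
  obtain ⟨B, hB, rfl, hB'⟩ := h'
  let f := (finSumFinEquiv (m := n) (n := m)).permCongrHom.toMonoidHom.comp
    (Perm.sumCongrHom (Fin n) (Fin m))
  have hf : Function.Injective f :=
    (finSumFinEquiv.permCongrHom).injective.comp Perm.sumCongrHom_injective
  refine ⟨(A.prod B).map f, ⟨⟨?_⟩⟩, ?_, ?_⟩
  · rintro ⟨_, a, ha, rfl⟩ ⟨_, b, hb, rfl⟩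
    apply Subtype.ext
    change f a * f b = f b * f a
    rw [← map_mul, ← map_mul]
    congr 1
    exact Prod.ext (congrArg Subtype.val (hA.is_comm.comm ⟨_, ha.1⟩ ⟨_, hb.1⟩))
      (congrArg Subtype.val (hB.is_comm.comm ⟨_, ha.2⟩ ⟨_, hb.2⟩))
  · rw [card_map_of_injective hf, Nat.card_congr (A.prodEquiv B).toEquiv, Nat.card_prod]
  · rintro he _ ⟨a, ha, rfl⟩
    rw [Perm.mem_alternatingGroup]
    change Perm.sign (finSumFinEquiv.permCongr (Perm.sumCongr a.1 a.2)) = 1
    rw [Perm.sign_permCongr, Perm.sign_sumCongr, Perm.mem_alternatingGroup.1 (hA' he ha.1),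
      Perm.mem_alternatingGroup.1 (hB' he ha.2), one_mul]

theorem gd_zero (ev : Prop) : Gd ev 0 1 := ⟨⊥, inferInstance, card_bot, fun _ => bot_le⟩

theorem gd_two : Gd False 2 2 :=
  ⟨zpowers (swap 0 1), inferInstance, by
    rw [Nat.card_zpowers]; exact orderOf_eq_prime (by decide) (by decide), False.elim⟩

theorem gd_three (ev : Prop) : Gd ev 3 3 :=
  ⟨zpowers (finRotate 3), inferInstance, by
    haveI : Fact (Nat.Prime 3) := ⟨by norm_num⟩
    rw [Nat.card_zpowers]; exact orderOf_eq_prime (by decide) (by decide),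
    fun _ => zpowers_le.2 (Perm.mem_alternatingGroup.2 (by decide))⟩

theorem gd_four (ev : Prop) : Gd ev 4 4 := by
  let A : Subgroup (Perm (Fin 4)) :=
    { carrier := {a | a ^ 2 = 1 ∧ Perm.sign a = 1}
      one_mem' := by simp
      mul_mem' := by
        have : ∀ a b : Perm (Fin 4), a ^ 2 = 1 ∧ Perm.sign a = 1 → b ^ 2 = 1 ∧ Perm.sign b = 1 →
          (a * b) ^ 2 = 1 ∧ Perm.sign (a * b) = 1 := by decide +kernel
        exact fun {a b} => this a b
      inv_mem' := fun {a} h => ⟨by rw [inv_pow, h.1, inv_one], by rw [Perm.sign_inv, h.2]⟩ }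
  refine ⟨A, ⟨⟨fun a b => Subtype.ext ?_⟩⟩, ?_, fun _ a ha => ha.2⟩
  · have : ∀ a b : Perm (Fin 4), a ^ 2 = 1 ∧ Perm.sign a = 1 → b ^ 2 = 1 ∧ Perm.sign b = 1 →
      a * b = b * a := by decide +kernel
    exact this _ _ a.2 b.2
  · change Nat.card {a : Perm (Fin 4) // a ^ 2 = 1 ∧ Perm.sign a = 1} = 4
    rw [Nat.card_eq_fintype_card, Fintype.card_subtype]
    decide +kernel

theorem Gd.pow {ev : Prop} {n c : ℕ} (h : Gd ev n c) (k : ℕ) : Gd ev (n + 3 * k) (c * 3 ^ k) := by
  induction k with
  | zero => simpa using h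
  | succ k ih =>
    have := ih.add (gd_three ev)
    rwa [add_assoc, mul_assoc, ← pow_succ] at this

theorem card_le_fin {n : ℕ} (A : Subgroup (Perm (Fin n))) (hA : IsMulCommutative A) :
    3 * Nat.card A ≤ F n :=
  card_le n A Finset.univ hA (fun _ _ _ h => absurd (Finset.mem_univ _) h) (by simp)

theorem Gd.alt {n c : ℕ} (h : Gd True n c) :
    ∃ A : Subgroup (alternatingGroup (Fin n)), IsMulCommutative A ∧ Nat.card A = c := by
  obtain ⟨A, hA, rfl, h⟩ := h
  exact ⟨A.subgroupOf _, inferInstance, Nat.card_congr (subgroupOfEquivOfLe (h trivial)).toEquiv⟩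

end H12.AbSym
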