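import Cfsg.Agent.H12.AbSym

set_option autoImplicit false
open Equiv Subgroup MulAction
open scoped Pointwise

namespace H12.AbSym

variable {α : Type*} [Fintype α] [DecidableEq α]

structure Big (A : Subgroup (Perm α)) : Prop where
  comm : IsMulCommutative A
  even : A ≤ alternatingGroup α
  big : 8 * F (Fintype.card α) ≤ 27 * Nat.card A

theorem F_pos (n : ℕ) : 0 < F n := by
  have := mul_F_le 1 0
  obtain ⟨k, r, hr, rfl⟩ : ∃ k r', r' < 3 ∧ n = 3 * k + r' :=
    ⟨n / 3, n % 3, Nat.mod_lt _ (by norm_num), (Nat.div_add_mod n 3).symm⟩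
  rw [F_add]
  interval_cases r <;> simp [F]

theorem mul_F_lt (m r : ℕ) (h : m = 1 ∨ 5 ≤ m) : 9 * (m * F r) < 8 * F (r + m) := by
  obtain ⟨k, r, hr, rfl⟩ : ∃ k r', r' < 3 ∧ r = 3 * k + r' :=
    ⟨r / 3, r % 3, Nat.mod_lt _ (by norm_num), (Nat.div_add_mod r 3).symm⟩
  rw [add_assoc, F_add, F_add]
  suffices 9 * (m * F r) < 8 * F (r + m) by
    have h3 : 0 < 3 ^ k := by positivity
    nlinarith
  induction m using Nat.strong_induction_on with
  | _ m ih =>
    by_cases hm : m < 8
    · interval_cases m <;> interval_cases r <;> first | decide | omega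
    · obtain ⟨j, rfl⟩ : ∃ j, m = j + 3 := ⟨m - 3, by omega⟩
      have := ih j (by omega) (by omega)
      rw [← add_assoc, F]
      nlinarith [Nat.zero_le (F r)]

theorem supp_univ (A : Subgroup (Perm α)) : Supp A Finset.univ :=
  fun _ _ _ h => absurd (Finset.mem_univ _) h

theorem Big.mem_of_comm {A : Subgroup (Perm α)} (h : Big A) {g : Perm α}
    (hg : ∀ a ∈ A, a * g = g * a) : g ∈ A := by
  by_contra hn
  have hC : IsMulCommutative (A ⊔ zpowers g : Subgroup _) := by
    rw [← le_centralizer_iff_isMulCommutative]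
    have h1 : A ≤ centralizer (A : Set (Perm α)) := le_centralizer_iff_isMulCommutative.2 h.comm
    have h2 : zpowers g ≤ centralizer (A : Set (Perm α)) := zpowers_le.2 hg
    have h3 : zpowers g ≤ centralizer (zpowers g : Set (Perm α)) :=
      le_centralizer_iff_isMulCommutative.2 inferInstance
    refine sup_le (le_centralizer_iff.1 (sup_le h1 h2)) (le_centralizer_iff.1 (sup_le ?_ h3))
    exact le_centralizer_iff.1 h2
  have h1 := card_le _ _ _ hC (supp_univ _) Finset.card_univ
  obtain ⟨c, hc⟩ := card_dvd_of_le (le_sup_left : A ≤ A ⊔ zpowers g)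
  have h2 : c ≠ 1 := by
    rintro rfl
    have := eq_of_le_of_card_ge (le_sup_left : A ≤ A ⊔ zpowers g) (by omega)
    exact hn (this ▸ mem_sup_right (mem_zpowers g))
  have h3 : c ≠ 0 := by
    rintro rfl
    exact Nat.card_pos.ne' (hc.trans (mul_zero _))
  have h4 : Nat.card A * 2 ≤ Nat.card A * c := Nat.mul_le_mul_left _ (by omega)
  have := h.big
  have := F_pos (Fintype.card α)
  omega

theorem mem_orbit_iff' {A : Subgroup (Perm α)} {a : Perm α} (ha : a ∈ A) (x y : α) :
    a y ∈ orbit A x ↔ y ∈ orbit A x := by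
  constructor
  · intro h
    have := mem_orbit_of_mem_orbit (⟨a, ha⟩⁻¹ : A) h
    change a⁻¹ (a y) ∈ _ at this
    simpa using this
  · exact mem_orbit_of_mem_orbit (⟨a, ha⟩ : A)

open Classical in
theorem Big.sign_res {A : Subgroup (Perm α)} (h : Big A) {a : Perm α} (ha : a ∈ A) (x : α) :
    Perm.sign (a.subtypePerm (mem_orbit_iff' ha x)) = 1 := by
  rw [← Perm.sign_ofSubtype, ← Perm.mem_alternatingGroup]
  refine h.even (h.mem_of_comm fun b hb => Equiv.ext fun y => ?_)
  by_cases hy : y ∈ orbit A x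
  · rw [Perm.mul_apply, Perm.mul_apply, Perm.ofSubtype_apply_of_mem _ hy,
      Perm.ofSubtype_apply_of_mem _ ((mem_orbit_iff' hb x y).2 hy)]
    exact congrArg (fun c : A => (c : Perm α) y) (h.comm.is_comm.comm ⟨b, hb⟩ ⟨a, ha⟩)
  · rw [Perm.mul_apply, Perm.mul_apply, Perm.ofSubtype_apply_of_not_mem _ hy,
      Perm.ofSubtype_apply_of_not_mem _ (mt (mem_orbit_iff' hb x y).1 hy)]

theorem fix_of_comm {A : Subgroup (Perm α)} (h : IsMulCommutative A) {a : Perm α} (ha : a ∈ A)
    {x y z : α} (hy : y ∈ orbit A x) (hz : z ∈ orbit A x) (e : a y = y) : a z = z := by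
  obtain ⟨b, rfl⟩ := (orbit_eq_iff.2 hy).ge hz
  have := congrArg (fun c : A => (c : Perm α) y) (h.is_comm.comm ⟨a, ha⟩ b)
  change a ((b : Perm α) y) = (b : Perm α) (a y) at this
  change a ((b : Perm α) y) = (b : Perm α) y
  rw [this, e]

theorem eq_one_of_two {β : Type*} [Fintype β] [DecidableEq β] (h : Nat.card β = 2) {g : Perm β}
    (hg : Perm.sign g = 1) : g = 1 := by
  let e : β ≃ Fin 2 := Finite.equivFinOfCardEq h
  have : ∀ g : Perm (Fin 2), Perm.sign g = 1 → g = 1 := by decide
  apply e.permCongrHom.injective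
  rw [map_one]
  exact this _ ((Perm.sign_permCongr e g).trans hg)

theorem comm_of_card {β : Type*} [Fintype β] [DecidableEq β] (h : Nat.card β = 3 ∨ Nat.card β = 4)
    {a b : Perm β} (ha : Perm.sign a = 1) (hb : Perm.sign b = 1)
    (ha' : ∀ x y, a x = x → a y = y) (hb' : ∀ x y, b x = x → b y = y) : a * b = b * a := by
  have key : ∀ {m : ℕ} (e : β ≃ Fin m), (∀ a b : Perm (Fin m), Perm.sign a = 1 → Perm.sign b = 1 →
      (∀ x y, a x = x → a y = y) → (∀ x y, b x = x → b y = y) → a * b = b * a) →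
      a * b = b * a := fun e H => by
    apply e.permCongrHom.injective
    rw [map_mul, map_mul]
    have t : ∀ c : Perm β, (∀ x y, c x = x → c y = y) →
        ∀ x y, e.permCongr c x = x → e.permCongr c y = y := fun c hc x y hx => by
      rw [permCongr_apply, apply_eq_iff_eq_symm_apply] at hx ⊢
      exact hc _ _ hx
    exact H _ _ ((Perm.sign_permCongr e a).trans ha) ((Perm.sign_permCongr e b).trans hb)
      (t a ha') (t b hb')
  rcases h with h | h
  · exact key (Finite.equivFinOfCardEq h) (by decide +kernel)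
  · exact key (Finite.equivFinOfCardEq h) (by decide +kernel)

theorem Big.orbit_card {A : Subgroup (Perm α)} (h : Big A) (x : α) :
    Nat.card (orbit A x) = 3 ∨ Nat.card (orbit A x) = 4 := by
  classical
  obtain ⟨B, t, hBA, hB, h0, h1, h2⟩ := step h.comm (supp_univ A) (Finset.mem_univ x)
  have h3 := card_le _ B t (comm_of_le h.comm hBA) hB rfl
  have h4 : ¬ (Nat.card (orbit A x) = 1 ∨ 5 ≤ Nat.card (orbit A x)) := fun hm => by
    have h5 := mul_F_lt _ t.card hm
    have h6 := h.big
    rw [h2, Finset.card_univ] at h5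
    rw [h1] at h6
    nlinarith
  have h5 : Nat.card (orbit A x) ≠ 2 := fun hm => by
    have : orbit A x = {x} := by
      refine Set.Subset.antisymm ?_ (by simp)
      rintro _ ⟨a, rfl⟩
      have := eq_one_of_two hm (h.sign_res a.2 x)
      exact congrArg Subtype.val (congrArg (fun c => c ⟨x, mem_orbit_self x⟩) this)
    rw [this] at hm
    simp at hm
  omega

theorem Big.eq_of_orbit {A B : Subgroup (Perm α)} (hA : Big A) (hB : Big B)
    (h : ∀ x : α, orbit A x = orbit B x) : A = B := by
  classical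
  have key : ∀ a ∈ A, ∀ b ∈ B, a * b = b * a := fun a ha b hb => Equiv.ext fun x => by
    have hb' : ∀ y, b y ∈ orbit A x ↔ y ∈ orbit A x := by rw [h]; exact mem_orbit_iff' hb x
    have e : Perm.sign (b.subtypePerm hb') = 1 := by
      have := hB.sign_res hb x
      revert hb'
      rw [h x]
      intro _
      convert this
    have := comm_of_card (hA.orbit_card x) (hA.sign_res ha x) e
      (fun y z hy => Subtype.ext (fix_of_comm hA.comm ha y.2 z.2 (congrArg Subtype.val hy)))
      (fun y z hy => Subtype.ext (fix_of_comm hB.comm hb ((h x).le y.2) ((h x).le z.2)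
        (congrArg Subtype.val hy)))
    exact congrArg Subtype.val (congrArg (fun c => c ⟨x, mem_orbit_self x⟩) this)
  exact le_antisymm (fun a ha => hB.mem_of_comm fun b hb => (key a ha b hb).symm)
    (fun b hb => hA.mem_of_comm fun a ha => key a ha b hb)

/-- number of orbits of size `c` -/
noncomputable def cnt (A : Subgroup (Perm α)) (c : ℕ) : ℕ :=
  Nat.card {ω : orbitRel.Quotient A α // Nat.card ω.orbit = c}

theorem Big.quot_card {A : Subgroup (Perm α)} (h : Big A) (ω : orbitRel.Quotient A α) :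
    Nat.card ω.orbit = 3 ∨ Nat.card ω.orbit = 4 := by
  induction ω using Quotient.inductionOn' with
  | h x => exact h.orbit_card x

theorem Big.cnt_spec {A : Subgroup (Perm α)} (h : Big A) :
    Fintype.card α = 3 * cnt A 3 + 4 * cnt A 4 ∧ cnt A 4 ≤ 2 := by
  classical
  haveI : Fintype (orbitRel.Quotient A α) := Fintype.ofFinite _
  have hf : Finset.univ.filter (fun ω : orbitRel.Quotient A α => ¬ Nat.card ω.orbit = 3) =
      Finset.univ.filter (fun ω : orbitRel.Quotient A α => Nat.card ω.orbit = 4) :=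
    Finset.filter_congr fun ω _ => by have := h.quot_card ω; omega
  have hc : ∀ c, cnt A c =
      (Finset.univ.filter (fun ω : orbitRel.Quotient A α => Nat.card ω.orbit = c)).card :=
    fun c => by rw [cnt, Nat.card_eq_fintype_card, Fintype.card_subtype]
  have h1 : Fintype.card α = 3 * cnt A 3 + 4 * cnt A 4 := by
    rw [← Nat.card_eq_fintype_card, Nat.card_congr (selfEquivSigmaOrbits' A α), Nat.card_sigma,
      ← Finset.sum_filter_add_sum_filter_not _ (fun ω => Nat.card ω.orbit = 3), hf,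
      Finset.sum_const_nat fun ω hω => (Finset.mem_filter.1 hω).2,
      Finset.sum_const_nat fun ω hω => (Finset.mem_filter.1 hω).2, hc, hc]
    ring
  have h2 : Nat.card A ≤ 3 ^ cnt A 3 * 4 ^ cnt A 4 := by
    let f : A → ∀ ω : orbitRel.Quotient A α, orbit A ω.out := fun a ω => ⟨a • ω.out, a, rfl⟩
    have hf' : Function.Injective f := fun a b hab => by
      rw [← inv_mul_eq_one]
      refine Subtype.ext (Equiv.ext fun y => ?_)
      let ω : orbitRel.Quotient A α := Quotient.mk'' y
      refine fix_of_comm h.comm (a⁻¹ * b).2 (mem_orbit_self ω.out) ?_ ?_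
      · exact (orbitRel A α).symm (Quotient.mk_out' y)
      · have : a • ω.out = b • ω.out := congrArg Subtype.val (congrFun hab ω)
        change (a⁻¹ * b) • ω.out = ω.out
        rw [mul_smul, ← this, inv_smul_smul]
    refine (Nat.card_le_card_of_injective f hf').trans_eq ?_
    have : ∀ ω : orbitRel.Quotient A α, Nat.card (orbit A ω.out) = Nat.card ω.orbit := fun ω => by
      rw [orbitRel.Quotient.orbit_eq_orbit_out ω Quotient.out_eq']
    rw [Nat.card_pi, Finset.prod_congr rfl fun ω _ => this ω,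
      ← Finset.prod_filter_mul_prod_filter_not _ (fun ω => Nat.card ω.orbit = 3), hf,
      Finset.prod_congr rfl fun ω hω => (Finset.mem_filter.1 hω).2,
      Finset.prod_congr rfl (g := fun _ => 4) fun ω hω => (Finset.mem_filter.1 hω).2,
      Finset.prod_const, Finset.prod_const, hc, hc]
  refine ⟨h1, ?_⟩
  by_contra h3
  obtain ⟨c, hc⟩ : ∃ c, cnt A 4 = c + 3 := ⟨cnt A 4 - 3, by omega⟩
  have h4 : ∀ c, 3 * 4 ^ c ≤ F (4 * c) := fun c => by
    induction c with
    | zero => simp [F]
    | succ c ih =>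
      have := mul_F_le 4 (4 * c)
      rw [pow_succ, mul_add, mul_one]; omega
  have h5 := h.big
  rw [h1, hc, show 3 * cnt A 3 + 4 * (c + 3) = 3 * (cnt A 3 + 4) + 4 * c by ring, F_add,
    pow_add] at h5
  rw [hc, pow_add] at h2
  have h6 := Nat.mul_le_mul_left (3 ^ cnt A 3) (h4 c)
  have h7 : 0 < 3 ^ cnt A 3 * 4 ^ c := by positivity
  nlinarith

theorem Big.cnt_eq {A B : Subgroup (Perm α)} (hA : Big A) (hB : Big B) (c : ℕ) :
    cnt A c = cnt B c := by
  have h1 := hA.cnt_spec
  have h2 := hB.cnt_spec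
  by_cases h3 : c = 3
  · subst h3; omega
  by_cases h4 : c = 4
  · subst h4; omega
  have : ∀ {A : Subgroup (Perm α)}, Big A → cnt A c = 0 := fun {A} h => by
    haveI : IsEmpty {ω : orbitRel.Quotient A α // Nat.card ω.orbit = c} :=
      ⟨fun ω => by have := h.quot_card ω.1; have := ω.2; omega⟩
    exact Nat.card_of_isEmpty
  rw [this hA, this hB]

theorem Big.conj {A : Subgroup (Perm α)} (h : Big A) (σ : Perm α) : Big (MulAut.conj σ • A) := by
  haveI := h.comm
  refine ⟨inferInstanceAs (IsMulCommutative (A.map (MulAut.conj σ).toMonoidHom)), ?_, ?_⟩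
  · rintro _ ⟨a, ha, rfl⟩
    exact (inferInstance : (alternatingGroup α).Normal).conj_mem a (h.even ha) σ
  · rw [Nat.card_congr (equivSMul (MulAut.conj σ) A).symm.toEquiv]; exact h.big

theorem Big.exists_conj {A B : Subgroup (Perm α)} (hA : Big A) (hB : Big B) :
    ∃ σ ∈ alternatingGroup α, B = MulAut.conj σ • A := by
  classical
  let mA : α → orbitRel.Quotient A α := Quotient.mk''
  let mB : α → orbitRel.Quotient B α := Quotient.mk''
  obtain ⟨e, he⟩ : ∃ e : orbitRel.Quotient A α ≃ orbitRel.Quotient B α,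
      ∀ ω, Nat.card (e ω).orbit = Nat.card ω.orbit :=
    ⟨_, ofFiberEquiv_map fun c => Classical.choice (Finite.card_eq.1 (hA.cnt_eq hB c))⟩
  obtain ⟨σ, hσ⟩ : ∃ σ : Perm α, ∀ x, mB (σ x) = e (mA x) := by
    refine ⟨_, ofFiberEquiv_map (f := fun x => e (mA x)) (g := mB)
      fun ω => Classical.choice (Finite.card_eq.1 ?_)⟩
    obtain ⟨ω, rfl⟩ := e.surjective ω
    simp only [EmbeddingLike.apply_eq_iff_eq]
    have h1 : Nat.card {x // mA x = ω} = Nat.card ω.orbit :=
      Nat.card_congr (subtypeEquivRight fun x => orbitRel.Quotient.mem_orbit.symm)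
    have h2 : Nat.card {x // mB x = e ω} = Nat.card (e ω).orbit :=
      Nat.card_congr (subtypeEquivRight fun x => orbitRel.Quotient.mem_orbit.symm)
    rw [h1, h2, he]
  have key : ∀ σ : Perm α, (∀ x, mB (σ x) = e (mA x)) → B = MulAut.conj σ • A := fun σ hσ => by
    refine hB.eq_of_orbit (hA.conj σ) fun z => Set.ext fun y => ?_
    obtain ⟨z, rfl⟩ := σ.surjective z
    obtain ⟨y, rfl⟩ := σ.surjective y
    have h1 : σ y ∈ orbit B (σ z) ↔ mB (σ y) = mB (σ z) :=
      (Quotient.eq'' (s₁ := orbitRel B α)).symm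
    have h2 : y ∈ orbit A z ↔ mA y = mA z := (Quotient.eq'' (s₁ := orbitRel A α)).symm
    rw [h1, hσ, hσ, e.apply_eq_iff_eq, ← h2]
    constructor
    · rintro ⟨a, rfl⟩
      refine ⟨⟨_, smul_mem_pointwise_smul _ (MulAut.conj σ) A a.2⟩, ?_⟩
      change σ ((a : Perm α) (σ⁻¹ (σ z))) = σ ((a : Perm α) z)
      simp
    · rintro ⟨⟨_, a, ha, rfl⟩, h⟩
      refine ⟨⟨a, ha⟩, σ.injective ?_⟩
      rw [← h]
      change σ (a z) = σ (a (σ⁻¹ (σ z)))
      simp
  rcases Int.units_eq_one_or (Perm.sign σ) with h | h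
  · exact ⟨σ, h, key σ hσ⟩
  · obtain ⟨u, -⟩ : ∃ u, σ u ≠ u := by
      by_contra hn
      push Not at hn
      rw [show σ = 1 from Equiv.ext hn, Perm.sign_one] at h
      exact absurd h (by decide)
    obtain ⟨⟨v, hv⟩, hvu⟩ : ∃ v : orbit B u, v ≠ ⟨u, mem_orbit_self u⟩ := by
      haveI : Nontrivial (orbit B u) :=
        Finite.one_lt_card_iff_nontrivial.1 (by have := hB.orbit_card u; omega)
      exact exists_ne _
    have hne : v ≠ u := fun h => hvu (Subtype.ext h)
    have hm : mB v = mB u := Quotient.eq''.2 hv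
    refine ⟨swap v u * σ, ?_, key _ fun x => ?_⟩
    · rw [Perm.mem_alternatingGroup, Perm.sign_mul, h, Perm.sign_swap hne]; rfl
    · rw [← hσ, Perm.mul_apply, swap_apply_def]
      split_ifs with h1 h2
      · rw [h1, hm]
      · rw [h2, hm]
      · rfl

end H12.AbSym
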