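import Cfsg.Agent.H12.Rb1
import Cfsg.Agent.H20.CR1
import Cfsg.Agent.H1.Solvable

/-! The average dimension of the fixed spaces of a solvable linear group. -/

set_option autoImplicit false

namespace H12.Av
open Module H2 H12.Rb

variable {F M : Type*} [Field F] [AddCommGroup M] [Module F M] [FiniteDimensional F M]

theorem two_finrank_le {ι : Type*} [Fintype ι] [DecidableEq ι] (π : ι → End F M) (σ : Equiv.Perm ι)
    (T : End F M) (hT : ∀ i, T * π i = π (σ i) * T)
    (hd : ∀ i, finrank F (LinearMap.range (π i)) ≤ finrank F (LinearMap.range (π (σ i))))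
    (hs : ∀ v, ∑ i, π i v = v) :
    2 * finrank F (T.eigenspace 1) ≤ ∑ i, if σ i = i then
      2 * finrank F ↥(LinearMap.range (π i) ⊓ T.eigenspace 1) else
      finrank F (LinearMap.range (π i)) := by
  classical
  let o : ι → ι := fun i => (Quotient.mk (Equiv.Perm.SameCycle.setoid σ) i).out
  have ho : ∀ i, σ.SameCycle (o i) i := fun i =>
    Quotient.mk_out (s := Equiv.Perm.SameCycle.setoid σ) i
  have ho2 : ∀ i j, σ.SameCycle i j → o i = o j := fun i j h => by
    simp only [o]; rw [Quotient.sound (s := Equiv.Perm.SameCycle.setoid σ) h]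
  have hK : ∀ v, v ∈ T.eigenspace 1 ↔ T v = v := fun v => by
    rw [End.mem_eigenspace_iff, one_smul]
  let U : ι → Submodule F M := fun i =>
    if σ i = i then LinearMap.range (π i) ⊓ T.eigenspace 1 else LinearMap.range (π i)
  have hU : ∀ i, ∀ v ∈ T.eigenspace 1, π i v ∈ U i := fun i v hv => by
    simp only [U]
    split_ifs with h
    · refine ⟨⟨v, rfl⟩, (hK _).2 ?_⟩
      have := LinearMap.congr_fun (hT i) v
      rwa [End.mul_apply, End.mul_apply, (hK v).1 hv, h] at this
    · exact ⟨v, rfl⟩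
  let R := Finset.univ.filter fun i => o i = i
  let Φ : T.eigenspace 1 →ₗ[F] (∀ r : R, U r) :=
    LinearMap.pi fun r => ((π r) ∘ₗ (T.eigenspace 1).subtype).codRestrict _ fun v => hU r v v.2
  have hΦ : Function.Injective Φ := by
    rw [injective_iff_map_eq_zero]
    rintro ⟨v, hv⟩ h
    have h1 : ∀ r ∈ R, ∀ k : ℕ, π ((σ ^ k) r) v = 0 := fun r hr k => by
      induction k with
      | zero => exact congrArg Subtype.val (congrFun h ⟨r, hr⟩)
      | succ k ih =>
        have := LinearMap.congr_fun (hT ((σ ^ k) r)) v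
        rw [End.mul_apply, End.mul_apply, ih, (hK v).1 hv, map_zero] at this
        rw [pow_succ', Equiv.Perm.mul_apply, ← this]
    refine Subtype.ext ((hs v).symm.trans (Finset.sum_eq_zero fun i _ => ?_))
    obtain ⟨k, -, hk⟩ := (ho i).exists_pow_eq'
    rw [← hk]
    exact h1 _ (Finset.mem_filter.2 ⟨Finset.mem_univ _, ho2 _ _ (ho i)⟩) k
  have h1 := LinearMap.finrank_le_finrank_of_injective hΦ
  rw [finrank_pi_fintype, Finset.sum_coe_sort R fun r => finrank F (U r),
    ← Finset.sum_filter_add_sum_filter_not R fun i => σ i = i] at h1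
  rw [Finset.sum_ite, ← Finset.mul_sum]
  have h2 : ∑ i ∈ R with σ i = i, finrank F (U i) ≤ ∑ i with σ i = i,
      finrank F ↥(LinearMap.range (π i) ⊓ T.eigenspace 1) := by
    rw [Finset.sum_congr rfl fun i hi => by
      rw [show U i = _ from if_pos (Finset.mem_filter.1 hi).2]]
    exact Finset.sum_le_sum_of_subset (Finset.filter_subset_filter _ (Finset.subset_univ _))
  have h3 : ∑ i ∈ R with ¬ σ i = i, finrank F (U i) =
      ∑ i ∈ R with ¬ σ i = i, finrank F (LinearMap.range (π i)) :=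
    Finset.sum_congr rfl fun i hi => by rw [show U i = _ from if_neg (Finset.mem_filter.1 hi).2]
  set R' := R.filter fun i => ¬ σ i = i
  have h4 : ∑ i ∈ R', finrank F (LinearMap.range (π i)) ≤
      ∑ i ∈ R'.image σ, finrank F (LinearMap.range (π i)) := by
    rw [Finset.sum_image fun a _ b _ e => σ.injective e]
    exact Finset.sum_le_sum fun i _ => hd i
  have h5 : Disjoint R' (R'.image σ) := Finset.disjoint_left.2 fun i hi hi' => by
    obtain ⟨j, hj, rfl⟩ := Finset.mem_image.1 hi'
    obtain ⟨a1, -⟩ := Finset.mem_filter.1 hi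
    obtain ⟨b1, b2⟩ := Finset.mem_filter.1 hj
    refine b2 ((Finset.mem_filter.1 a1).2.symm.trans
      ((ho2 _ _ ?_).trans (Finset.mem_filter.1 b1).2))
    exact ⟨-1, by simp⟩
  have h6 := Finset.sum_le_sum_of_subset (f := fun i => finrank F (LinearMap.range (π i)))
    (show R' ∪ R'.image σ ⊆ Finset.univ.filter fun i => ¬ σ i = i from fun i hi => by
      refine Finset.mem_filter.2 ⟨Finset.mem_univ _, ?_⟩
      rcases Finset.mem_union.1 hi with h | h
      · exact (Finset.mem_filter.1 h).2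
      · obtain ⟨j, hj, rfl⟩ := Finset.mem_image.1 h
        exact fun e => (Finset.mem_filter.1 hj).2 (σ.injective e))
  rw [Finset.sum_union h5] at h6
  omega

theorem coset_le [IsAlgClosed F] {K : Type*} [Group K] [Fintype K] (σ : K →* End F M)
    (hK : (Nat.card K : F) ≠ 0) (hc : ∀ a b : K, a * b = b * a) (h0 : fix σ ⊤ = ⊥)
    {T : End F M} {α : MulAut K} (h : ∀ k, T * σ k = σ (α k) * T) (hi : Function.Injective T) :
    ∑ n, 2 * finrank F ((T * σ n).eigenspace 1) ≤ Fintype.card K * finrank F M := by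
  classical
  have := finite_weights hK
  have := Fintype.ofFinite (K →* Fˣ)
  have hK' : (Fintype.card K : F) ≠ 0 := by rwa [← Nat.card_eq_fintype_card]
  have hc' : commutator K ≤ σ.ker := by
    rw [(commutator_eq_bot_iff K).2 ⟨⟨hc⟩⟩]; exact bot_le
  have h1 : ∀ n k, T * σ n * σ k = σ (α k) * (T * σ n) := fun n k => by
    rw [mul_assoc, ← map_mul, hc, map_mul, ← mul_assoc, h, mul_assoc]
  have h2 : ∀ n, 2 * finrank F ((T * σ n).eigenspace 1) ≤ ∑ l, if dAct K Fˣ α l = l then
      2 * finrank F ↥(wsp σ l ⊓ (T * σ n).eigenspace 1) else finrank F (wsp σ l) := fun n => by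
    have := two_finrank_le (wp σ) (dAct K Fˣ α) (T * σ n) (fun l => conj_wp σ α (h1 n) l)
      (fun l => by rw [range_wp σ hK', range_wp σ hK']; exact finrank_wsp_le h hi l)
      fun v => sum_wp_apply σ hK' (by rw [fix_eq_top_iff.2 hc']; trivial)
    refine this.trans (Finset.sum_le_sum fun l _ => ?_)
    rw [range_wp σ hK']
  refine (Finset.sum_le_sum fun n _ => h2 n).trans ?_
  have h3 := sum_finrank_wsp σ hK'
  rw [fix_eq_top_iff.2 hc', finrank_top] at h3
  rw [Finset.sum_comm, ← h3, Finset.mul_sum]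
  refine Finset.sum_le_sum fun l _ => ?_
  split_ifs with e
  · by_cases e1 : l = 1
    · rw [e1, wsp_one, h0]
      refine (Finset.sum_eq_zero fun n _ => ?_).trans_le (Nat.zero_le _)
      rw [bot_inf_eq, finrank_bot, mul_zero]
    obtain ⟨m, hm⟩ := DFunLike.ne_iff.1 e1
    have h4 : ∀ n, finrank F ↥(wsp σ l ⊓ (T * σ n).eigenspace 1) +
        finrank F ↥(wsp σ l ⊓ (T * σ (n * m)).eigenspace 1) ≤ finrank F (wsp σ l) := fun n => by
      rw [← Submodule.finrank_sup_add_finrank_inf_eq, show (wsp σ l ⊓ (T * σ n).eigenspace 1) ⊓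
        (wsp σ l ⊓ (T * σ (n * m)).eigenspace 1) = ⊥ from eq_bot_iff.2 fun v hv => ?_,
        finrank_bot, add_zero]
      · exact Submodule.finrank_mono (sup_le inf_le_left inf_le_left)
      · obtain ⟨⟨a1, a2⟩, -, a3⟩ := hv
        have a4 := End.mem_eigenspace_iff.1 a2
        have a5 := End.mem_eigenspace_iff.1 a3
        rw [map_mul, ← mul_assoc, End.mul_apply, a1 m, map_smul, a4, smul_smul, mul_one,
          ← sub_eq_zero, ← sub_smul, smul_eq_zero, sub_eq_zero] at a5
        exact a5.resolve_left fun e => hm (Units.ext e)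
    have h5 := Finset.sum_le_sum fun n (_ : n ∈ Finset.univ) => h4 n
    rw [Finset.sum_add_distrib, Fintype.sum_equiv (Equiv.mulRight m)
      (fun n => finrank F ↥(wsp σ l ⊓ (T * σ (n * m)).eigenspace 1))
      (fun n => finrank F ↥(wsp σ l ⊓ (T * σ n).eigenspace 1)) fun _ => rfl] at h5
    rw [← Finset.mul_sum, two_mul]
    simpa using h5
  · simp

theorem avg_le [IsAlgClosed F] [Nontrivial M] (p : ℕ) [Fact p.Prime] [CharP F p] {G : Type*}
    [Group G] [Fintype G] [Group.IsSolvable G] (ρ : G →* End F M) (h0 : ρ.ker ≠ ⊤)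
    (h : ∀ N : Subgroup G, N.Normal → N ≤ ρ.ker ∨ fix ρ N = ⊥) :
    ∑ g, 2 * finrank F ((ρ g).eigenspace 1) ≤ Fintype.card G * finrank F M := by
  classical
  let τ : G ⧸ ρ.ker →* End F M := QuotientGroup.lift ρ.ker ρ le_rfl
  have hτ : ∀ g : G, τ g = ρ g := fun g => rfl
  have : Nontrivial (G ⧸ ρ.ker) := QuotientGroup.nontrivial_iff.2 h0
  obtain ⟨N, q, n1, n2, -, hq, n3, -, n4, -⟩ := H1.exists_minimal_normal_elementary
    (⊤ : Subgroup (G ⧸ ρ.ker)) inferInstance top_ne_bot
  have := Fact.mk hq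
  have := Fintype.ofFinite N
  have h1 : fix (τ.comp N.subtype) ⊤ = ⊥ := by
    rcases h (N.comap (QuotientGroup.mk' _)) inferInstance with e | e
    · refine absurd (eq_bot_iff.2 fun x hx => ?_) n2
      obtain ⟨x, rfl⟩ := QuotientGroup.mk_surjective x
      exact (QuotientGroup.eq_one_iff x).2 (e hx)
    · rw [eq_bot_iff, ← e]
      exact fun v hv g hg => (hτ g).symm ▸ mem_fix_top.1 hv ⟨g, hg⟩
  have h2 : (Nat.card N : F) ≠ 0 := fun e => by
    obtain ⟨k, hk⟩ := n4.exists_card_eq
    rw [CharP.cast_eq_zero_iff F p, hk] at e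
    obtain rfl := (Nat.prime_dvd_prime_iff_eq Fact.out hq).1 ((Fact.out : p.Prime).dvd_of_dvd_pow e)
    obtain ⟨w, hw⟩ := exists_ne (0 : M)
    obtain ⟨v, a1, a2⟩ := H20.CR.exists_fix p τ n4 hw
    exact a1 ((Submodule.mem_bot F).1 (h1 ▸ mem_fix_top.2 fun u => a2 u u.2))
  have h3 : ∀ g : G, ∑ n : N, 2 * finrank F ((ρ g * (τ.comp N.subtype) n).eigenspace 1) ≤
      Fintype.card N * finrank F M := fun g =>
    coset_le _ h2 (fun a b => n3.is_comm.comm a b) h1 (α := MulAut.conjNormal (g : G ⧸ ρ.ker))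
      (fun k => by
        rw [← hτ, MonoidHom.comp_apply, MonoidHom.comp_apply, ← map_mul, ← map_mul]
        simp)
      (Function.LeftInverse.injective (rep_inv_apply ρ g))
  have h4 := Finset.sum_le_sum fun g (_ : g ∈ Finset.univ) => h3 g
  rw [Finset.sum_comm, Finset.sum_congr rfl (g := fun _ => ∑ g, 2 * finrank F ((ρ g).eigenspace 1))
    fun n _ => ?_] at h4
  · simp only [Finset.sum_const, Finset.card_univ, smul_eq_mul] at h4
    rw [mul_left_comm] at h4
    exact Nat.le_of_mul_le_mul_left h4 Fintype.card_pos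
  · obtain ⟨⟨n, hn⟩, -⟩ := n, trivial
    obtain ⟨n, rfl⟩ := QuotientGroup.mk_surjective n
    refine Fintype.sum_equiv (Equiv.mulRight n) _ _ fun g => ?_
    rw [MonoidHom.comp_apply, Subgroup.subtype_apply, hτ, ← map_mul]
    rfl

end H12.Av
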