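import Cfsg.Agent.H12.Av1
import Cfsg.Agent.H18.CG1
import Cfsg.Agent.H2.RepHom

/-! Degrees of primitive characters of solvable groups and class sizes. -/

set_option autoImplicit false
set_option linter.unusedSectionVars false

namespace H12.Av
open Module H2 Subgroup H16 Cfsg CF
open H9 (centMod)
open scoped commutatorElement

universe u
variable {G : Type u} [Group G] {K L Z : Subgroup G} {p : ℕ}

/-- chief factor -/
def Ch (K L : Subgroup G) : Prop :=
  L < K ∧ ∀ U, L ≤ U → U ≤ K → (⊤ : Subgroup G) ≤ N[U] → U = L ∨ U = K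

theorem nrm (U : Subgroup G) [U.Normal] : (⊤ : Subgroup G) ≤ N[U] := (normalizer_eq_top U).ge

theorem Ch.eq (h : Ch K L) (U : Subgroup G) [U.Normal] (h1 : L ≤ U) (h2 : U ≤ K) :
    U = L ∨ U = K := h.2 U h1 h2 (nrm U)

theorem mem_cm [L.Normal] {x g : G} : x ∈ centMod L {g} ↔ ⁅x, g⁆ ∈ L :=
  ⟨fun h => h g rfl, fun h _ e => e ▸ h⟩

theorem Ch.elem [Finite G] [Group.IsSolvable G] [K.Normal] [L.Normal] (h : Ch K L) :
    ⁅K, K⁆ ≤ L ∧ ∃ r : ℕ, r.Prime ∧ ∀ x ∈ K, x ^ r ∈ L := by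
  have hs := QuotientGroup.mk'_surjective L
  have := Normal.map ‹K.Normal› _ hs
  obtain ⟨h1, r, hr, h2⟩ := H1.elementary_of_minimal_normal (K.map (QuotientGroup.mk' L))
    inferInstance (fun e => h.1.not_ge (by rwa [Subgroup.map_eq_bot_iff, QuotientGroup.ker_mk'] at e))
    fun M _ hM => by
      have e := map_comap_eq_self_of_surjective hs M
      rcases h.eq (M.comap (QuotientGroup.mk' L))
        ((QuotientGroup.ker_mk' L).ge.trans (ker_le_comap _ _))
        ((comap_mono hM).trans (by rw [comap_map_eq, QuotientGroup.ker_mk', sup_of_le_left h.1.le]))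
        with e1 | e1
      · left; rw [← e, e1, Subgroup.map_eq_bot_iff, QuotientGroup.ker_mk']
      · right; rw [← e, e1]
  refine ⟨?_, r, hr, fun x hx => (QuotientGroup.eq_one_iff _).1 (h2 _ ⟨x, hx, rfl⟩)⟩
  have := der_eq_bot.2 h1
  rwa [← map_commutator, Subgroup.map_eq_bot_iff, QuotientGroup.ker_mk'] at this

theorem exists_Y [K.Normal] [L.Normal] (hL : L ≤ K) (hc : ⁅K, K⁆ ≤ L) (g : G) :
    ∃ Y, L ≤ Y ∧ Y ≤ K ∧ (∀ k ∈ K, ⁅k, g⁆ ∈ Y) ∧ L.relIndex Y = (centMod L {g}).relIndex K := by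
  have h1 : ∀ k ∈ K, ⁅k, g⁆ ∈ K := fun k hk => by
    rw [commutatorElement_def, mul_assoc k, mul_assoc k]
    exact mul_mem hk (Normal.conj_mem inferInstance _ (inv_mem hk) g)
  let φ : K →* G ⧸ L := MonoidHom.mk' (fun k => (⁅(k : G), g⁆ : G)) fun a b => by
    rw [← QuotientGroup.mk_mul, QuotientGroup.eq]
    have e : ⁅((a * b : K) : G), g⁆⁻¹ * (⁅(a : G), g⁆ * ⁅(b : G), g⁆) =
        ⁅⁅(a : G), g⁆⁻¹ * a, ⁅(b : G), g⁆⁻¹⁆ := by
      simp only [coe_mul, commutatorElement_def]; group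
    rw [e]
    exact hc (commutator_mem_commutator (mul_mem (inv_mem (h1 _ a.2)) a.2) (inv_mem (h1 _ b.2)))
  refine ⟨φ.range.comap (QuotientGroup.mk' L), (QuotientGroup.ker_mk' L).ge.trans (ker_le_comap _ _),
    ?_, fun k hk => ⟨⟨k, hk⟩, rfl⟩, ?_⟩
  · rintro y ⟨k, hk⟩
    exact (mul_mem_cancel_left (inv_mem (h1 k k.2))).1 (hL (QuotientGroup.eq.1 hk))
  · have e := relIndex_ker (φ.range.comap (QuotientGroup.mk' L)) (QuotientGroup.mk' L)
    rw [QuotientGroup.ker_mk', map_comap_eq_self_of_surjective (QuotientGroup.mk'_surjective L)] at e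
    rw [e, ← index_ker, relIndex]
    congr 1
    ext k
    rw [MonoidHom.mem_ker, mem_subgroupOf, mem_cm]
    exact QuotientGroup.eq_one_iff _

theorem Ch.avg [Fintype G] [Group.IsSolvable G] [K.Normal] [L.Normal] [hp : Fact p.Prime]
    (h : Ch K L) (hc : ⁅K, K⁆ ≤ L) (he : ∀ x ∈ K, x ^ p ∈ L) (hn : ¬ ⁅K, (⊤ : Subgroup G)⁆ ≤ L) :
    Fintype.card G * (L.relIndex K).factorization p ≤
      ∑ g, 2 * ((centMod L {g}).relIndex K).factorization p := by
  let F := AlgebraicClosure (ZMod p)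
  let ρ := resRep (conjRep F G) (homSp F K L) fun g f hf =>
    ⟨(conjRep_mem (nrm K (mem_top g)) (homSp_le_bot _ _ hf)).1,
      (conjRep_mem (nrm K (mem_top g)) (homSp_le_bot _ _ hf)).2.1,
      fun y hy => hf.2.2 _ (Normal.conj_mem' inferInstance y hy g)⟩
  have hρ : ∀ (g : G) (f : homSp F K L) (x : G), (ρ g f : G → F) x = (f : G → F) (g⁻¹ * x * g) :=
    fun _ _ _ => rfl
  have hd := pow_finrank_homSp (F := F) p h.1.le hc he
  have : Nontrivial (homSp F K L) := Module.nontrivial_of_finrank_pos (R := F)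
    (Nat.pos_of_ne_zero fun e => h.1.not_ge (relIndex_eq_one.1 (by rw [← hd, e, pow_zero])))
  have h1 : ∀ (g : G) (f : homSp F K L), (∀ k ∈ K, (f : G → F) ⁅k, g⁆ = 0) ↔ ρ g f = f := by
    intro g f
    have a1 : ∀ k ∈ K, (f : G → F) ⁅k, g⁆ = (f : G → F) k - (f : G → F) (g * k * g⁻¹) := fun k hk => by
      have a2 := Normal.conj_mem ‹K.Normal› k hk g
      rw [show ⁅k, g⁆ = k * (g * k * g⁻¹)⁻¹ by rw [commutatorElement_def]; group,
        f.2.1 _ hk _ (inv_mem a2), homSp_inv f.2 a2, sub_eq_add_neg]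
    refine ⟨fun a2 => Subtype.ext (funext fun x => ?_), fun a2 k hk => ?_⟩
    · rw [hρ]
      by_cases hx : x ∈ K
      · have a3 := Normal.conj_mem' ‹K.Normal› x hx g
        have a4 := a2 _ a3
        rw [a1 _ a3, sub_eq_zero] at a4
        rw [a4]; group
      · rw [f.2.2.1 x hx, f.2.2.1]
        exact fun e => hx (by simpa [mul_assoc] using Normal.conj_mem ‹K.Normal› _ e g)
    · have a3 := hρ g f (g * k * g⁻¹)
      rw [a2] at a3
      rw [a1 k hk, a3, sub_eq_zero]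
      group
  have h2 : ∀ N : Subgroup G, N.Normal → ¬ ⁅K, N⁆ ≤ L → fix ρ N = ⊥ := fun N _ e => by
    have e1 := (h.eq (L ⊔ ⁅K, N⁆) le_sup_left (sup_le h.1.le (commutator_le_left _ _))).resolve_left
      fun e2 => e (e2 ▸ le_sup_right)
    refine eq_bot_iff.2 fun f hf => Subtype.ext (funext fun x => ?_)
    by_cases hx : x ∈ K
    · have : L ⊔ ⁅K, N⁆ ≤ homZero f.2 := sup_le (fun y hy => ⟨h.1.le hy, f.2.2.2 y hy⟩)
        (commutator_le.2 fun k hk n hn => ⟨commutator_le_left K N (commutator_mem_commutator hk hn),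
          (h1 n f).2 (hf n hn) k hk⟩)
      exact (this (e1.ge hx)).2
    · exact f.2.2.1 x hx
  have h3 := avg_le p ρ (fun e => by
    have := h2 ⊤ inferInstance hn
    rw [fix_eq_top_iff.2 e.ge] at this
    exact top_ne_bot this) fun N hN => by
      by_cases e : ⁅K, N⁆ ≤ L
      · exact Or.inl fun n hn => LinearMap.ext fun f =>
          (h1 n f).1 fun k hk => f.2.2.2 _ (e (commutator_mem_commutator hk hn))
      · exact Or.inr (h2 N hN e)
  have h4 : ∀ g : G, finrank F (homSp F K L) ≤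
      ((centMod L {g}).relIndex K).factorization p + finrank F ((ρ g).eigenspace 1) := fun g => by
    obtain ⟨Y, y1, y2, y3, y4⟩ := exists_Y h.1.le hc g
    have a1 := pow_finrank_homSp (F := F) p y2 (hc.trans y1) fun x hx => y1 (he x hx)
    have a2 := relIndex_mul_relIndex L Y K y1 y2
    rw [← hd, ← a1, y4] at a2
    have a3 := congrArg (fun n : ℕ => n.factorization p) a2
    simp only [Nat.factorization_mul (H16.relIndex_pos _ _).ne' (pow_pos hp.out.pos _).ne',
      Finsupp.add_apply, hp.out.factorization_pow, Finsupp.single_eq_same] at a3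
    have a4 : finrank F ((homSp F K Y).comap (homSp F K L).subtype) ≤
        finrank F ((ρ g).eigenspace 1) := Submodule.finrank_mono fun f hf => by
      rw [End.mem_eigenspace_iff, one_smul]
      exact (h1 g f).1 fun k hk => hf.2.2 _ (y3 k hk)
    rw [finrank_comap_subtype, inf_of_le_right
      (fun f hf => ⟨hf.1, hf.2.1, fun y hy => hf.2.2 y (y1 hy)⟩)] at a4
    omega
  have h5 := Finset.sum_le_sum fun g (_ : g ∈ Finset.univ) => Nat.mul_le_mul_left 2 (h4 g)
  simp only [mul_add, Finset.sum_add_distrib, Finset.sum_const, Finset.card_univ, smul_eq_mul] at h5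
  rw [← hd, hp.out.factorization_pow, Finsupp.single_eq_same]
  nlinarith

theorem cent_step [Finite G] [L.Normal] (hL : L ≤ K) (x : G) :
    (C1[x].relIndex L).factorization p + ((centMod L {x}).relIndex K).factorization p ≤
      (C1[x].relIndex K).factorization p := by
  have h1 : C1[x] ≤ centMod L {x} := fun y hy => mem_cm.2 (by
    rw [commutatorElement_eq_one_iff_mul_comm.2 (mem_cent1.1 hy)]; exact one_mem _)
  have h2 : L ≤ centMod L {x} := fun y hy => mem_cm.2
    (commutator_le_left L ⊤ (commutator_mem_commutator hy (mem_top x)))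
  have h3 := relIndex_inf_mul_relIndex C1[x] (centMod L {x}) K
  rw [inf_of_le_left h1] at h3
  have h4 : C1[x].relIndex L ∣ C1[x].relIndex (centMod L {x} ⊓ K) := by
    have := relIndex_dvd_of_le_right (le_sup_right : C1[x] ⊓ K ≤ L ⊔ C1[x] ⊓ K)
      (sup_le (le_inf h2 hL) (inf_le_inf_right K h1))
    rw [relIndex_sup_r (Or.inl (le_top.trans (nrm L))), ← inf_relIndex_right, inf_assoc,
      inf_of_le_right hL, inf_relIndex_right, ← inf_relIndex_right _ (centMod L {x} ⊓ K), inf_assoc,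
      inf_of_le_right (inf_le_right : centMod L {x} ⊓ K ≤ K), inf_relIndex_right] at this
    exact this
  rw [← h3, Nat.factorization_mul (H16.relIndex_pos _ _).ne' (H16.relIndex_pos _ _).ne',
    Finsupp.add_apply]
  exact Nat.add_le_add_right ((Nat.factorization_le_iff_dvd (H16.relIndex_pos _ _).ne'
    (H16.relIndex_pos _ _).ne').2 h4 p) _

theorem Ch.central [Finite G] [K.Normal] [L.Normal] (h : Ch K L) (he : ∀ x ∈ K, x ^ p ∈ L)
    (hn : ⁅K, (⊤ : Subgroup G)⁆ ≤ L) : L.relIndex K ∣ p := by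
  obtain ⟨k, hk, hk'⟩ := SetLike.exists_of_lt h.1
  have h1 : L ⊔ zpowers k ≤ K := sup_le h.1.le (zpowers_le.2 hk)
  have h2 := (h.2 _ le_sup_left h1 (norm_of_comm_le
    (((commutator_mono h1 le_rfl).trans hn).trans le_sup_left))).resolve_left
    fun e => hk' (e ▸ mem_sup_right (mem_zpowers k))
  have e := relIndex_ker (zpowers k) (QuotientGroup.mk' L)
  rw [QuotientGroup.ker_mk', MonoidHom.map_zpowers, H16.card_zpowers] at e
  rw [← h2, relIndex_sup_l (le_top.trans (nrm L)), e]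
  exact orderOf_dvd_of_pow_eq_one ((QuotientGroup.eq_one_iff _).2 (he k hk))

/-- homogeneous on all normal subgroups -/
def Hm [Finite G] (K : Subgroup G) (θ : G → ℂ) : Prop :=
  θ ∈ Irr K ∧ ∀ L : Subgroup G, L.Normal → L ≤ K →
    ∃ φ ∈ Irr L, ⊤ ≤ stab φ ∧ ∃ c : ℂ, c ≠ 0 ∧ Res (L : Set G) θ = c • φ

theorem eq_of_smul [Finite G] {φ ψ : G → ℂ} (h1 : φ ∈ Irr L) (h2 : ψ ∈ Irr L) {c d : ℂ} (hc : c ≠ 0)
    (h : c • φ = d • ψ) : ψ = φ := by
  refine irr_eq_of_dot_ne h2 h1 fun e => hc ?_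
  have := congrArg (fun χ => dot L χ φ) h
  simpa only [dot_smul_left, e, mul_zero, dot_irr_self h1, mul_one] using this

theorem main [Fintype G] [Group.IsSolvable G] [hp : Fact p.Prime]
    (hZ : ∀ K L : Subgroup G, K.Normal → L.Normal → Ch K L → (∀ x ∈ K, x ^ p ∈ L) → ⁅K, Z⁆ ≤ L)
    (K : Subgroup G) : K.Normal → ∀ θ, Hm K θ → ∃ w : G → ℕ,
      Fintype.card G * (charDegree θ).factorization p ≤ ∑ g, w g ∧
      ∀ g, ∀ z ∈ Z, w g ≤ (C1[g * z].relIndex K).factorization p := by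
  induction K using ind_down with
  | h K ih =>
  intro _ θ ⟨hθ, hh⟩
  by_cases e : K = ⊥
  · have := H21.deg_dvd_card hθ
    rw [e, card_bot, Nat.dvd_one] at this
    exact ⟨0, by simp [this], fun _ _ _ => Nat.zero_le _⟩
  obtain ⟨L, -, l1, l2, l3⟩ := H18.exists_chief_below (bot_lt_iff_ne_bot.2 e) (nrm ⊥)
  have : L.Normal := normalizer_eq_top_iff.1 (top_le_iff.1 l2)
  have hc : Ch K L := ⟨l1, l3⟩
  obtain ⟨c1, r, hr, c2⟩ := hc.elem
  obtain ⟨φ, f1, f2, c, f3, f4⟩ := hh L this l1.le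
  obtain ⟨w, w1, w2⟩ := ih L l1 this φ ⟨f1, fun L' a1 a2 => by
    obtain ⟨φ', b1, b2, c', b3, b4⟩ := hh L' a1 (a2.trans l1.le)
    refine ⟨φ', b1, b2, c⁻¹ * c', mul_ne_zero (inv_ne_zero f3) b3, ?_⟩
    rw [← Res_Res_of_le a2, f4, map_smul] at b4
    rw [mul_smul, ← b4, smul_smul, inv_mul_cancel₀ f3, one_smul]⟩
  have hs : ⊤ ≤ stab θ := by
    obtain ⟨φ', b1, b2, c', b3, b4⟩ := hh K ‹_› le_rfl
    rw [Res_cf (irr_cf hθ), ← one_smul ℂ θ] at b4
    rwa [← eq_of_smul hθ b1 one_ne_zero b4]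
  have key : ∀ n : ℕ, Res (L : Set G) θ = (n : ℂ) • φ → charDegree θ = n * charDegree φ :=
    fun n hn => by
      have := congrFun hn 1
      rw [Res_one, Pi.smul_apply, smul_eq_mul, ← H21.deg_cast hθ, ← H21.deg_cast f1] at this
      exact_mod_cast this
  have w3 : ∀ g, ∀ z ∈ Z, w g ≤ (C1[g * z].relIndex K).factorization p := fun g z hz =>
    (w2 g z hz).trans ((Nat.le_add_right _ _).trans (cent_step l1.le _))
  rcases H18.gdown l1.le c1 l2 (nrm K) le_top l3 hθ hs with a | ⟨ψ, a1, n, a2, a3⟩ | ⟨ψ, a1, a2, a3⟩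
  · have a1 := eq_of_smul f1 a f3 (f4.symm.trans (one_smul ℂ _).symm)
    exact ⟨w, by rwa [key 1 (by rw [a1, Nat.cast_one, one_smul]), one_mul], w3⟩
  · obtain rfl := eq_of_smul f1 a1 f3 (f4.symm.trans a2)
    have n0 : n ≠ 0 := by
      rintro rfl
      exact (H16.relIndex_pos L K).ne (by simpa using a3)
    rw [key n a2, Nat.factorization_mul n0 (H21.deg_pos f1).ne', Finsupp.add_apply, mul_add]
    by_cases e1 : p ∣ n
    swap
    · exact ⟨w, by rwa [Nat.factorization_eq_zero_of_not_dvd e1, mul_zero, zero_add], w3⟩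
    have := Fact.mk hr
    obtain rfl : p = r := (Nat.prime_dvd_prime_iff_eq hp.out hr).1 (hp.out.dvd_of_dvd_pow (by
      rw [pow_finrank_homSp (F := ZMod r) r l1.le c1 c2, ← a3]
      exact e1.trans (dvd_pow_self n two_ne_zero)))
    have b1 := hc.avg c1 c2 fun e2 => by
      have := (pow_dvd_pow_of_dvd e1 2).trans (a3 ▸ hc.central c2 e2)
      have := Nat.le_of_dvd hr.pos this
      nlinarith [hr.one_lt]
    rw [← a3, Nat.factorization_pow, Finsupp.smul_apply, smul_eq_mul, ← Finset.mul_sum,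
      mul_left_comm] at b1
    refine ⟨fun g => w g + ((centMod L {g}).relIndex K).factorization p, ?_, fun g z hz => ?_⟩
    · rw [Finset.sum_add_distrib]; omega
    · refine le_trans (Nat.add_le_add (w2 g z hz) (le_of_eq ?_)) (cent_step l1.le _)
      rw [← inf_relIndex_right (centMod L {g}), ← inf_relIndex_right (centMod L {g * z})]
      congr 3
      ext x
      refine and_congr_left fun hx => ?_
      change x ∈ centMod L {g} ↔ x ∈ centMod L {g * z}
      rw [mem_cm, mem_cm, show ⁅x, g * z⁆ = ⁅x, g⁆ * (g * ⁅x, z⁆ * g⁻¹) by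
        simp only [commutatorElement_def]; group]
      exact (mul_mem_cancel_right (Normal.conj_mem ‹L.Normal› _
        (hZ K L ‹_› ‹_› hc c2 (commutator_mem_commutator hx hz)) g)).symm
  · rw [← dot_Res_left, f4, dot_smul_left] at a2
    obtain rfl := irr_eq_of_dot_ne f1 a1 (right_ne_zero_of_mul a2)
    exact absurd (a3 ▸ le_inf le_rfl (le_top.trans f2)) l1.not_ge

theorem prim_class [Fintype G] [Group.IsSolvable G] [hp : Fact p.Prime]
    (hZ : ∀ K L : Subgroup G, K.Normal → L.Normal → Ch K L → (∀ x ∈ K, x ^ p ∈ L) → ⁅K, Z⁆ ≤ L)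
    (χ : IrrCharacter G) (hprim : ¬ ∃ H : Subgroup G, H ≠ ⊤ ∧ ∃ θ : H → ℂ,
      IsCharacter H θ ∧ indFun H θ = (χ : G → ℂ)) :
    ∃ g : G, ∀ z ∈ Z, (charDegree (χ : G → ℂ)).factorization p ≤
      (C1[g * z].index).factorization p := by
  have h1 : (χ : G → ℂ) ∈ Irr (⊤ : Subgroup G) := mem_Irr_top.2 χ.2
  have h2 : H18.Prim ⊤ (χ : G → ℂ) := fun T hT ψ hψ e =>
    hprim ⟨T, hT.ne, res T ψ, hψ.2, (Ind_top_eq ψ).symm.trans e⟩
  obtain ⟨w, w1, w2⟩ := main hZ ⊤ inferInstance χ ⟨h1, fun L _ _ => by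
    obtain ⟨φ, a1, a2, e, a3, a4⟩ := h2.homog h1 le_top (nrm L)
    exact ⟨φ, a1, a2, e, Nat.cast_ne_zero.2 a3.ne', a4⟩⟩
  obtain ⟨g, -, hg⟩ := Finset.exists_le_of_sum_le (s := Finset.univ) (g := w)
    (f := fun _ => (charDegree (χ : G → ℂ)).factorization p) Finset.univ_nonempty (by simpa using w1)
  exact ⟨g, fun z hz => hg.trans (relIndex_top_right (H := C1[g * z]) ▸ w2 g z hz)⟩

end H12.Av
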