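import Cfsg.Agent.H12.BG2

/-! Solvable groups in which abelian subgroups of equal order are conjugate. -/

set_option autoImplicit false

namespace H12.BG

open Subgroup Cfsg H16
open H15 hiding card_cj cent_anti cent_bot cent_comm cent_le_cent1 cent_le_norm cent_sup cent_zpowers cj_bot cj_cent cj_cj_inv cj_comm cj_eq_bot cj_eq_iff cj_eq_top cj_inf cj_inj cj_inv_cj cj_le_cj cj_le_iff cj_le_of_mem cj_lt_cj cj_mono cj_norm cj_one cj_sup cj_top comm_le_left comm_le_right comm_of_cyclic comm_of_le comm_sup le_cj_iff mem_cent mem_cent1 mem_cj mem_norm_of_cj_le norm_bot norm_top relIndex_cj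
open scoped commutatorElement

universe u

variable {G : Type*} [Group G] {G' : Type*} [Group G'] {A B H K N F M S P Q U R : Subgroup G}
  {p : ℕ} {π : Set ℕ}

theorem lemE [Finite G] (hB : BB G) (hp : p.Prime) [hN : N.Normal] [hA : A.Normal] (hE : EA[p] N)
    (hNA : N ≤ A) (hd : ⁅A, A⁆ ≤ N) (h : ∀ a ∈ A, ∃ v ∈ N, v ≠ 1 ∧ a ∈ C1[v]) : A ≤ C[N] := by
  have hcard : ∀ v ∈ N, v ≠ 1 → ∀ w ∈ N, w ≠ 1 →
      Nat.card ↥(A ⊓ C1[v]) = Nat.card ↥(A ⊓ C1[w]) := by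
    intro v hv h1 w hw h2
    have ov := orderOf_of_pow hp (hE.2 v hv) h1
    obtain ⟨g, z, hz, rfl⟩ := hB.conj (ov.trans (orderOf_of_pow hp (hE.2 w hw) h2).symm)
    have hz1 : z ≠ 1 := by rintro rfl; simp at h2
    rw [cent1_cj, cent1_eq_of_prime (K := zpowers v) (by rwa [Nat.card_zpowers, ov]) hz hz1,
      cent_zpowers, ← card_cj _ g, cj_inf, cj_normal]
  have hcj : ∀ v ∈ N, ∀ b ∈ A, A ⊓ C1[b * v * b⁻¹] = A ⊓ C1[v] := by
    intro v hv b hb
    have h1 : A ≤ N[(A ⊓ C1[v] : Subgroup G)] := norm_of_der_le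
      (hd.trans (le_inf hNA (le_cent1.2 (comm_iff.1 hE.1 hv)))) inf_le_left
    conv_rhs => rw [← cj_norm (h1 hb), cj_inf, cj_normal (N := A)]
    rw [cent1_cj]
  by_contra hne
  obtain ⟨a, ha, ha'⟩ := SetLike.not_le_iff_exists.1 hne
  rw [mem_cent] at ha'
  push Not at ha'
  obtain ⟨v, hv, hav⟩ := ha'
  have hv1 : v ≠ 1 := by rintro rfl; simp at hav
  have hav' : a ∉ C1[v] := fun h => hav (mem_cent1.1 h).symm
  obtain ⟨w, hw, hw1, haw⟩ := h a ha
  have hne : ¬ A ⊓ C1[v] ≤ A ⊓ C1[w] := fun h => by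
    have := eq_of_le_of_card h (hcard w hw hw1 v hv hv1).le
    have h2 : a ∈ A ⊓ C1[v] := this ▸ mem_inf.2 ⟨ha, haw⟩
    exact hav' h2.2
  have hvw : v * w ≠ 1 := by
    intro h
    apply hav'
    rw [eq_inv_of_mul_eq_one_left h]
    exact cent1_comm.1 ((C1[a]).inv_mem (cent1_comm.1 haw))
  have key : ∀ b ∈ A ⊓ C1[v * w], b ∈ C1[v] ∧ b ∈ C1[w] := by
    intro b hb
    have e0 : b * (v * w) * b⁻¹ = v * w := by rw [mem_cent1.1 hb.2]; group
    have e : v⁻¹ * (b * v * b⁻¹) = w * (b * w * b⁻¹)⁻¹ := by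
      rw [eq_mul_inv_iff_mul_eq, mul_assoc, inv_mul_eq_iff_eq_mul, ← e0]; group
    have h1 : v⁻¹ * (b * v * b⁻¹) = 1 := by
      by_contra h1
      have hN' : v⁻¹ * (b * v * b⁻¹) ∈ N := N.mul_mem (N.inv_mem hv) (hN.conj_mem v hv b)
      have h2 : A ⊓ C1[v] ≤ A ⊓ C1[v⁻¹ * (b * v * b⁻¹)] := fun c hc => mem_inf.2 ⟨hc.1,
        cent1_comm.1 ((C1[c]).mul_mem ((C1[c]).inv_mem (cent1_comm.1 hc.2))
          (cent1_comm.1 ((hcj v hv b hb.1).ge hc).2))⟩
      have h3 : A ⊓ C1[w] ≤ A ⊓ C1[v⁻¹ * (b * v * b⁻¹)] := fun c hc => mem_inf.2 ⟨hc.1, by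
        rw [e]
        exact cent1_comm.1 ((C1[c]).mul_mem (cent1_comm.1 hc.2) ((C1[c]).inv_mem
          (cent1_comm.1 ((hcj w hw b hb.1).ge hc).2)))⟩
      rw [← eq_of_le_of_card h3 (hcard _ hN' h1 w hw hw1).le] at h2
      exact hne h2
    have h2 := h1
    rw [e] at h2
    refine ⟨mem_cent1.2 ?_, mem_cent1.2 ?_⟩
    · rw [← mul_inv_eq_iff_eq_mul, ← inv_mul_eq_one.1 h1]
    · rw [← mul_inv_eq_iff_eq_mul, ← mul_inv_eq_one.1 h2]
  have h3 := eq_of_le_of_card (H := A ⊓ C1[v * w]) (K := A ⊓ C1[v])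
    (fun b hb => mem_inf.2 ⟨hb.1, (key b hb).1⟩) (hcard v hv hv1 _ (N.mul_mem hv hw) hvw).le
  exact hne (h3 ▸ fun b hb => mem_inf.2 ⟨hb.1, (key b hb).2⟩)

theorem mem_of_two {a : G} {m n : ℕ} (hc : m.Coprime n) (h1 : a ^ m ∈ H) (h2 : a ^ n ∈ H) :
    a ∈ H := by
  have e : a = (a ^ m) ^ (Nat.gcdA m n) * (a ^ n) ^ (Nat.gcdB m n) := by
    rw [← zpow_natCast, ← zpow_natCast, ← zpow_mul, ← zpow_mul, ← zpow_add, ← Nat.gcd_eq_gcd_ab,
      hc.gcd_eq_one]
    simp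
  rw [e]
  exact H.mul_mem (H.zpow_mem h1 _) (H.zpow_mem h2 _)

theorem exists_min [Finite G] (hp : p.Prime) [M.Normal] (hM : Pg[p] M) (h0 : M ≠ ⊥) :
    ∃ N : Subgroup G, N.Normal ∧ N ≠ ⊥ ∧ N ≤ M ∧ EA[p] N := by
  haveI := Fact.mk hp
  obtain ⟨N, q, hN, h0, hle, hq, hab, hpow, -, -⟩ :=
    H1.exists_minimal_normal_elementary M hM.solvable h0
  haveI := Fact.mk hq
  have : q = p := (hM.of_le hle).mem_of_ne_bot (ea_pg ⟨hab, hpow⟩) h0
  subst this
  exact ⟨N, hN, h0, hle, hab, hpow⟩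

theorem op_normal (π : Set ℕ) : (Op[π] (⊤ : Subgroup G)).Normal :=
  normal_of_top (le_norm_piCoreOf_self _ _)

theorem lem1 {q : ℕ} (hq : q.Prime) (n : ℕ) : ∀ (G : Type u) [Group G] [Finite G]
    [Group.IsSolvable G], Nat.card G = n → BB G → ∀ A : Subgroup G, E2 q A →
    Op[{q}] (⊤ : Subgroup G) ≠ ⊥ := by
  induction n using Nat.strong_induction_on with
  | _ n ih =>
  intro G _ _ _ hn hB A hA
  haveI := Fact.mk hq
  obtain ⟨N, p, hN, h0, -, hp, hab, hpow, -, -⟩ :=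
    H1.exists_minimal_normal_elementary (⊤ : Subgroup G) inferInstance
      (ne_bot_of_le (hA.ne_bot hq) le_top)
  haveI := Fact.mk hp
  have hE : EA[p] N := ⟨hab, hpow⟩
  have hNp := ea_pg hE
  by_cases hpq : p = q
  · subst hpq
    exact ne_bot_of_le h0 (le_piCoreOf le_top (le_norm_normal _) hNp)
  have hN' : Pg'[q] N := hNp.compl_of_ne hpq
  have hs := QuotientGroup.mk'_surjective N
  have hA' : E2 q (A.map (QuotientGroup.mk' N)) := ⟨ea_map hA.ea _, by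
    have := H1.card_map_mk'_mul A N
    rwa [(hA.pg hq).inf_eq_bot hN', card_bot, mul_one, hA.card] at this⟩
  have h1 := ih _ (hn ▸ H1.card_quotient_lt h0) _ rfl (push_sol _ G rfl hB _ hs) _ hA'
  haveI := op_normal (G := G ⧸ N) {q}
  obtain ⟨M, hM, hM0, -, hME⟩ := exists_min hq (isPi_piCoreOf _ _) h1
  set A1 := M.comap (QuotientGroup.mk' N) with hA1
  haveI : A1.Normal := hM.comap _
  have hNA : N ≤ A1 := by
    have := ker_le_comap (QuotientGroup.mk' N) M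
    rwa [QuotientGroup.ker_mk'] at this
  have hd : ⁅A1, A1⁆ ≤ N := by
    rw [← QuotientGroup.ker_mk' N, ← Subgroup.map_eq_bot_iff, Subgroup.map_commutator,
      map_comap_eq_self_of_surjective hs]
    exact der_eq_bot.2 hME.1
  obtain ⟨X, hX, hXc, hXN⟩ := cop_exists_cent_E2 hq hA (le_norm_normal _) hN' h0
  have hC : A1 ≤ C[N] := by
    refine lemE hB hp hE hNA hd fun a ha => ?_
    have h2 : a ^ q ∈ N := by
      rw [← QuotientGroup.eq_one_iff, QuotientGroup.mk_pow]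
      exact hME.2 _ ha
    have h3 : ∃ v ∈ N, v ≠ 1 ∧ a ^ p ∈ C1[v] := by
      by_cases h4 : a ^ p = 1
      · obtain ⟨v, hv, hv1⟩ := exists_ne_one h0
        exact ⟨v, hv, hv1, by rw [h4]; exact one_mem _⟩
      · have h5 : (a ^ p) ^ q = 1 := by rw [← pow_mul, mul_comm, pow_mul]; exact hpow _ h2
        obtain ⟨x, hx, ox⟩ := exists_orderOf hq (H := X) (by rw [hXc])
        obtain ⟨g, z, hz, e⟩ := hB.conj (ox.trans (orderOf_of_pow hq h5 h4).symm)
        obtain ⟨v, hv, hv1⟩ := exists_ne_one hXN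
        refine ⟨g * v * g⁻¹, hN.conj_mem v hv.1 g, fun h => hv1 (H16.conj_eq_one_iff.1 h), ?_⟩
        rw [cent1_cj, e]
        exact cj_mem (le_cent1.2 hv.2 (zpowers_le.2 hx hz))
    obtain ⟨v, hv, hv1, h4⟩ := h3
    exact ⟨v, hv, hv1, mem_of_two ((Nat.coprime_primes hp hq).2 hpq) h4
      (le_cent1.2 (comm_iff.1 hab hv) h2)⟩
  obtain ⟨P, hP⟩ := sy_exists q A1
  have hPm := lift_sy hs (ea_pg hME) hP
  have h6 : A1 ≤ N[P] := by
    rw [hA1, ← hPm, comap_map_eq, QuotientGroup.ker_mk']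
    exact sup_le (le_norm P) (norm_of_cent' (hP.1.trans hC))
  refine ne_bot_of_le (H := P) ?_ (le_piCoreOf le_top
    ((le_norm_normal _).trans (norm_hl_of_normal hP h6)) (hl_pi hP))
  rintro rfl
  exact hM0 (by rw [← hPm, Subgroup.map_bot])

theorem scalars [Finite G] (hp : p.Prime) [hN : N.Normal] (hE : EA[p] N) (hU : U ≤ N)
    (h0 : U ≠ ⊥) (h1 : ¬ N ≤ U) (h : ∀ W : Subgroup G, W ≤ N → Nat.card W = Nat.card U → R ≤ N[W]) :
    ⁅R, R⁆ ≤ C[N] := by
  haveI := Fact.mk hp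
  have hNp := ea_pg hE
  refine cent_symm fun v hv => le_cent1.1 ?_
  rw [← cent_zpowers]
  refine der_cent_cyclic (cyclic_zpowers v) fun x hx => mem_norm_of_cj_le ?_
  rw [← zpowers_cj, zpowers_le]
  by_contra hv'
  have hv1 : v ≠ 1 := by rintro rfl; simp at hv'
  set v' := x * v * x⁻¹ with hv'def
  have hv'N : v' ∈ N := hN.conj_mem v hv x
  obtain ⟨W, hW1, ⟨hW2, hW3⟩, hW⟩ := exists_max_of (C := fun W : Subgroup G => W ≤ N ∧ v' ∉ W)
    (X := zpowers v) ⟨zpowers_le.2 hv, hv'⟩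
  have hNW : N ≤ W ⊔ zpowers v' := by
    intro y hy
    by_cases hyW : y ∈ W
    · exact mem_sup_left hyW
    have h2 : v' ∈ W ⊔ zpowers y := by
      by_contra h2
      have := hW _ ⟨sup_le hW2 (zpowers_le.2 hy), h2⟩ le_sup_left
      exact hyW (this ▸ mem_sup_right (mem_zpowers y))
    obtain ⟨w, hw, z, hz, e⟩ := (mem_sup_l (comm_norm hE.1 (zpowers_le.2 hy) hW2)).1 h2
    have hz1 : z ≠ 1 := by rintro rfl; exact hW3 (by rw [← e, mul_one]; exact hw)
    have hy1 : y ≠ 1 := by rintro rfl; exact hyW W.one_mem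
    have h3 := zpowers_eq_of_prime (K := zpowers y)
      (by rwa [card_zpowers_of_pow hp (hE.2 y hy) hy1]) hz hz1
    have h4 : z ∈ W ⊔ zpowers v' := by
      rw [← inv_mul_eq_iff_eq_mul.2 e.symm]
      exact mul_mem (mem_sup_left (W.inv_mem hw)) (mem_sup_right (mem_zpowers _))
    exact zpowers_le.2 h4 (h3 ▸ mem_zpowers y)
  obtain ⟨n, hn⟩ := hNp.exists_card_eq
  obtain ⟨k, hk⟩ := (hNp.of_le hU).exists_card_eq
  obtain ⟨j, hj⟩ := (hNp.of_le hW2).exists_card_eq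
  have hv'1 : v' ≠ 1 := fun h => hv1 (H16.conj_eq_one_iff.1 h)
  have e1 : n ≤ j + 1 := by
    have := (card_dvd hNW).trans (card_sup_dvd (Or.inl (comm_norm hE.1 hW2 (zpowers_le.2 hv'N))))
    rw [hn, hj, card_zpowers_of_pow hp (hE.2 _ hv'N) hv'1, ← pow_succ] at this
    exact (Nat.pow_dvd_pow_iff_le_right hp.one_lt).1 this
  have e2 : k < n := by
    have := card_lt (lt_of_le_not_ge hU h1)
    rwa [hn, hk, Nat.pow_lt_pow_iff_right hp.one_lt] at this
  have e3 : 1 ≤ k := by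
    rcases k with _ | k
    · exact absurd (eq_bot_of_card_eq U (by simpa using hk)) h0
    · omega
  obtain ⟨W', c1, c2⟩ := Sylow.exists_subgroup_card_pow_prime_le (G := W) p (n := 1) (m := k)
    (by rw [hj]; exact pow_dvd_pow p (by omega)) ((zpowers v).subgroupOf W)
    (by rw [H1.card_subgroupOf_of_le hW1, card_zpowers_of_pow hp (hE.2 v hv) hv1, pow_one]) e3
  have c3 := h (W'.map W.subtype) ((map_subtype_le _).trans hW2)
    (by rw [card_map_of_injective W.subtype_injective, c1, hk]) hx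
  have c4 : v ∈ W'.map W.subtype :=
    mem_map_of_mem W.subtype (x := ⟨v, hW1 (mem_zpowers v)⟩) (c2 (mem_zpowers v))
  exact hW3 (map_subtype_le _ (conj_mem c3 c4))

theorem main_b (n : ℕ) : ∀ (G : Type u) [Group G] [Finite G] [Group.IsSolvable G],
    Nat.card G = n → BB G → CC G := by
  induction n using Nat.strong_induction_on with
  | _ n ih =>
  intro G _ _ _ hn hB H K hc
  by_cases h : ∃ (N : Subgroup G) (p : ℕ), N.Normal ∧ p.Prime ∧ EA[p] N ∧ N ≠ ⊥ ∧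
      (K ⊓ N = ⊥ ∨ N ≤ K)
  · obtain ⟨N, p, hN, hp, hE, h0, h⟩ := h
    haveI := Fact.mk hp
    have hNp := ea_pg hE
    have hq : CC (G ⧸ N) := ih _ (hn ▸ H1.card_quotient_lt h0) _ rfl
      (push_sol _ G rfl hB _ (QuotientGroup.mk'_surjective N))
    have hall : ∀ x : G, orderOf x = p → x ∈ N := fun x hx =>
      (hB.ap p).mem_prime hp (hNp.dvd_of_ne_bot h0) hx
    obtain ⟨g, hg⟩ := easy hp hNp hall hq hc.symm (h.imp id fun h => ⟨h, by
      by_cases h1 : Nat.card N = p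
      · obtain ⟨x, hx, ox⟩ := exists_orderOf hp (H := H) (by rw [hc, ← h1]; exact card_dvd h)
        refine le_of_prime_of_inf (by rwa [h1]) (ne_bot_of_mem (mem_inf.2 ⟨hall x ox, hx⟩) ?_)
        rintro rfl
        exact hp.one_lt.ne (by simpa using ox)
      · have hS : Sy[p] N ⊤ := sy_of_max le_top hNp fun Q _ hQ hNQ =>
          le_antisymm ((hB.ap p).le hp hE h0 h1 hQ) hNQ
        have := hl_card_of_card (hl_inf_normal' hS (L := H) le_top (le_norm_normal _))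
          (hl_inf_normal' hS (L := K) le_top (le_norm_normal _)) hc
        rw [inf_eq_right.2 h] at this
        exact inf_eq_right.1 (eq_of_le_of_card inf_le_right this.ge)⟩)
    exact ⟨g⁻¹, by rw [hg, H16.cj_cj_inv]⟩
  push Not at h
  have star : ∀ p : ℕ, p.Prime → Op[{p}] (⊤ : Subgroup G) ≠ ⊥ →
      EA[p] (Op[{p}] (⊤ : Subgroup G)) ∧ (∀ S : Subgroup G, Pg[p] S → S ≤ Op[{p}] ⊤) ∧
      K ⊓ Op[{p}] ⊤ ≠ ⊥ ∧ ¬ Op[{p}] ⊤ ≤ K := by
    intro p hp h0
    haveI := op_normal (G := G) {p}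
    obtain ⟨N, hN, h1, h2, hE⟩ := exists_min hp (isPi_piCoreOf _ _) h0
    obtain ⟨h3, h4⟩ := h N p hN hp hE h1
    have h5 : ∀ S : Subgroup G, Pg[p] S → S ≤ N := fun S hS =>
      (hB.ap p).le hp hE h1 (not_cyc_of_mid hp hE h3 h4) hS
    rw [le_antisymm (h5 _ (isPi_piCoreOf _ _)) h2]
    exact ⟨hE, h5, h3, h4⟩
  set F := fittingOf (⊤ : Subgroup G) with hF
  haveI hFn : F.Normal := normal_of_top (le_norm_fittingOf_self _)
  have hFnil : Group.IsNilpotent F := nilpotent_fittingOf _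
  have leF : ∀ Y : Subgroup G, (∀ p : ℕ, p.Prime → Op[{p}] (⊤ : Subgroup G) ≠ ⊥ →
      Op[{p}] (⊤ : Subgroup G) ≤ Y) → F ≤ Y := by
    intro Y hY
    refine le_of_piCoreOf_le hFnil fun q hq _ => ?_
    haveI := Fact.mk hq
    rw [pCoreOf_fittingOf]
    by_cases h0 : Op[{q}] (⊤ : Subgroup G) = ⊥
    · rw [h0]; exact bot_le
    · exact hY q hq h0
  have hOF : ∀ p : ℕ, p.Prime → Op[{p}] (⊤ : Subgroup G) ≤ F := fun p hp => by
    haveI := Fact.mk hp
    exact pCoreOf_le_fittingOf p ⊤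
  have hab : IsMulCommutative F := by
    refine comm_iff.2 (leF _ fun p hp h0 => cent_symm (leF _ fun q hq h1 => ?_))
    by_cases hpq : p = q
    · subst hpq; exact comm_iff.1 (star p hp h0).1.1
    · exact nil_cent hFnil (hOF q hq) (hOF p hp)
        ((isPi_piCoreOf _ _).coprime ((isPi_piCoreOf _ _).compl_of_ne hpq))
  set π : Set ℕ := {p | Op[{p}] (⊤ : Subgroup G) ≠ ⊥} with hπ
  have hh : Hl[π] F ⊤ := by
    refine ⟨le_top, fun q hq hd => ?_, fun q hq hqπ hd => ?_⟩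
    · haveI := Fact.mk hq
      have := piCoreOf_ne_bot_of_nilpotent (π := {q}) hFnil hq rfl hd
      rwa [pCoreOf_fittingOf] at this
    · haveI := Fact.mk hq
      obtain ⟨P, hP⟩ := sy_exists q (⊤ : Subgroup G)
      exact sy_not_dvd hP hq (hd.trans (relIndex_dvd_of_le_left _
        (((star q hq hqπ).2.1 P (hl_pi hP)).trans (hOF q hq))))
  obtain ⟨g, hg⟩ := hB (H ⊓ F) (K ⊓ F) (comm_of_le hab inf_le_right) (comm_of_le hab inf_le_right)
    (hl_card_of_card (hl_inf_normal' hh le_top (le_norm_normal _))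
      (hl_inf_normal' hh le_top (le_norm_normal _)) hc)
  rw [cj_inf, cj_normal (N := F)] at hg
  refine trans_cj (g := g) (hard hh hab (by rw [card_cj, hc]) hg (cc_of_z (z_quot ?_)))
  rw [← hg]
  have hrk : ∀ q : ℕ, q.Prime → q ∉ π → PRankLE q 1 (⊤ : Subgroup G) := by
    intro q hq hqπ
    by_contra hr
    obtain ⟨A, -, hA⟩ := exists_E2 hq hr
    exact hqπ (lem1 hq _ G rfl hB A hA)
  have hodd : ∀ q : ℕ, q.Prime → q ≠ 2 → ∀ S : Subgroup G, Pg[q] S → S ≤ F ∨ IsCyclic S := by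
    intro q hq hq2 S hS
    haveI := Fact.mk hq
    by_cases hqπ : q ∈ π
    · exact Or.inl (((star q hq hqπ).2.1 S hS).trans (hOF q hq))
    · exact Or.inr (cyclic_of_prk1 hq2 hS (prk_of_le (hrk q hq hqπ) le_top))
  intro q hq S hSU hS
  by_cases hq2 : q = 2
  swap
  · exact hodd q hq hq2 S hS
  subst hq2
  by_cases hqπ : 2 ∈ π
  · exact Or.inl (((star 2 hq hqπ).2.1 S hS).trans (hOF 2 hq))
  right
  by_contra hcy
  have hs := QuotientGroup.mk'_surjective F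
  have hF2 : ¬ 2 ∣ Nat.card F := (hl_pi hh).not_dvd hq hqπ
  have hn1 := (quat_quot hB hF2 (hrk 2 hq hqπ) (quat_sy hB (hrk 2 hq hqπ) hS hcy) hcy (by
    intro r hr hr2
    obtain ⟨P, hP, e⟩ := lift_pg hr hs (isPi_piCoreOf {r} ⊤)
    rw [← e]
    rcases hodd r hr hr2 P hP with h1 | h1
    · have : P.map (QuotientGroup.mk' F) = ⊥ := by
        rwa [Subgroup.map_eq_bot_iff, QuotientGroup.ker_mk']
      rw [this]; exact cyclic_bot
    · exact cyc_map _ h1)).1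
  haveI hRn : (S ⊔ F).Normal := by
    have := hn1.comap (QuotientGroup.mk' F)
    rwa [comap_map_eq, QuotientGroup.ker_mk'] at this
  have hRU : S ⊔ F ≤ N[(K ⊓ F : Subgroup G)] := sup_le hSU (comm_norm hab le_rfl inf_le_right)
  have hD : ⁅S ⊔ F, S ⊔ F⁆ ≤ F := by
    refine le_fittingOf_of_le_cent inferInstance le_top (cent_symm (leF _ fun p hp h0 => ?_))
    haveI := op_normal (G := G) {p}
    obtain ⟨s1, -, s3, s4⟩ := star p hp h0
    refine cent_symm (scalars hp s1 (U := K ⊓ Op[{p}] ⊤) inf_le_right s3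
      (fun h => s4 (h.trans inf_le_left)) fun W hW hWc => ?_)
    obtain ⟨x, hx⟩ := hB _ W (comm_of_le s1.1 inf_le_right) (comm_of_le s1.1 hW) hWc.symm
    rw [hx, ← cj_normal (N := S ⊔ F) x]
    refine norm_cj_le ?_ x
    have : K ⊓ Op[{p}] ⊤ = (K ⊓ F) ⊓ Op[{p}] ⊤ := by
      rw [inf_assoc, inf_eq_right.2 (hOF p hp)]
    rw [this]
    exact norm_inf hRU (le_norm_normal _)
  refine (qf_of hS (prk_of_le (hrk 2 hq hqπ) le_top) hcy).nc (der_eq_bot.1 ?_)
  exact eq_bot_of_le (hS.inf_eq_bot (isPi_compl_of_not_dvd hF2))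
    (le_inf (der_le S) ((der_mono le_sup_left).trans hD))

end H12.BG
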