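import Cfsg.Prelude.Def_BaumannBlocks
import Cfsg.Agent.H10.Act
import Cfsg.Agent.H4.Fact

set_option autoImplicit false
open Cfsg Subgroup H10

namespace H12

variable {G : Type*} [Group G] {p : ℕ}

theorem cj_baum (g : G) (T : Subgroup G) :
    cj g (baumannSubgroupOf p T) = baumannSubgroupOf p (cj g T) := by
  have hi : Function.Injective (MulAut.conj g).toMonoidHom := (MulAut.conj g).injective
  unfold baumannSubgroupOf
  rw [cj_inf, cj_centralizer]
  congr 3
  rw [← cj_def, H4.map_omegaOne_of_injective _ hi,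
    H4.map_centerThompsonOf _ (H4.inf_ker_eq_bot_of_injective _ hi), cj_def]

theorem baum_le (T : Subgroup G) : baumannSubgroupOf p T ≤ T := inf_le_left

theorem NN_le_NN_baum (T : Subgroup G) : NN(T) ≤ NN(baumannSubgroupOf p T) := fun g hg => by
  rw [mem_NN, cj_baum, cj_eq_of_mem_NN hg]

theorem J_le_baum (T : Subgroup G) : thompsonSubgroupOf p T ≤ baumannSubgroupOf p T :=
  le_inf (H4.thompsonOf_le T) (le_CC_symm ((H4.omegaOne_le _).trans inf_le_right))

variable [Finite G] [hp : Fact p.Prime]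

theorem J_eq_of_le {T S : Subgroup G} (hT : IsSylowIn p T ⊤) (hS : IsSylowIn p S ⊤)
    (h : thompsonSubgroupOf p T ≤ S) : thompsonSubgroupOf p S = thompsonSubgroupOf p T := by
  obtain ⟨g, -, rfl⟩ := hT.exists_cj hS
  obtain ⟨T, rfl⟩ := hT.exists_sylow_top
  have hi : Function.Injective (MulAut.conj g).toMonoidHom := (MulAut.conj g).injective
  symm
  refine eq_of_le_of_card_ge ?_ ?_
  · rw [H4.thompsonOf_le_iff]
    intro A hA
    exact H4.le_thompsonOf (H4.maxAb_of_le (H4.maxAb_sylow_subset T hA)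
      ((H4.le_thompsonOf hA).trans h) le_top)
  · rw [← cj_def, ← H4.map_thompsonOf_of_injective _ hi, cj_def, card_cj]

theorem baum_eq_of_le {T S : Subgroup G} (hT : IsSylowIn p T ⊤) (hS : IsSylowIn p S ⊤)
    (h : baumannSubgroupOf p T ≤ S) : baumannSubgroupOf p S = baumannSubgroupOf p T := by
  have e := J_eq_of_le hT hS ((J_le_baum T).trans h)
  symm
  refine eq_of_le_of_card_ge (le_inf h ?_) ?_
  · unfold centerThompsonOf
    rw [e]
    exact inf_le_right
  · obtain ⟨g, -, rfl⟩ := hT.exists_cj hS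
    rw [← cj_baum, card_cj]

/-- a `p`-subgroup normalized by `B(T)` normalizes `B(T)` -/
theorem le_NN_baum {T Q : Subgroup G} (hT : IsSylowIn p T ⊤) (hQ : IsPGroup p Q)
    (h : baumannSubgroupOf p T ≤ NN(Q)) : Q ≤ NN(baumannSubgroupOf p T) := by
  obtain ⟨S, hS, hle⟩ := exists_isSylowIn_ge
    (isPGroup_sup_of_NN (hT.isPGroup.to_le (baum_le T)) hQ h) (le_top (a := _))
  rw [← baum_eq_of_le hT hS (le_sup_left.trans hle)]
  exact (le_sup_right.trans hle).trans ((le_NN_self S).trans (NN_le_NN_baum S))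

theorem le_NN_of_weak {B E Q : Subgroup G} (hres : resOf p E = E) (hEB : ⁅E, B⁆ = E)
    (hQ : IsPGroup p Q) (hBQ : B ≤ NN(Q)) (hEQ : E ≤ NN(Q)) (hQB : Q ≤ NN(B)) : Q ≤ NN(E) := by
  have hBE : B ≤ NN(E) := hEB ▸ right_le_NN_comm E B
  set Q₀ := Q ⊓ NN(E) with hQ₀
  have h0 : Q₀ = Q := by
    refine eq_of_inf_NN_le hQ inf_le_left ?_
    set Q₁ := Q ⊓ NN(Q₀)
    have b0 : B ≤ NN(Q₀) := le_NN_inf hBQ (le_NN_NN hBE)
    have e0 : E ≤ NN(Q₀) := le_NN_inf hEQ (le_NN_NN (le_NN_self E))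
    have b1 : ⁅B, Q₁⁆ ≤ Q₀ := (commutator_mono le_rfl inf_le_left).trans
      (le_inf (comm_le_right hBQ) ((comm_le_left hQB).trans hBE))
    have e1 : E ≤ NN(Q₁) := le_NN_inf hEQ (le_NN_NN e0)
    have h1 : ⁅ncl B E, Q₁⁆ ≤ Q₀ := comm_ncl_le b1 b0 e1 e0
    have h2 : ⁅E, Q₁⁆ ≤ Q₀ := (commutator_mono (hEB.symm.le.trans (comm_le_ncl B E)) le_rfl).trans h1
    have h3 : Q₁ ≤ NN(E ⊔ Q₀) := by
      apply le_NN_of_comm_le_left
      refine comm_sup_le (le_sup_left.trans (le_NN_self _)) (le_sup_right.trans (le_NN_self _))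
        (h2.trans le_sup_right) ((comm_le_left inf_le_right).trans le_sup_right)
    refine le_inf inf_le_left ?_
    rw [← hres, ← resOf_sup_pgroup (hQ.to_le inf_le_left) (inf_le_right : Q₀ ≤ _)]
    exact h3.trans (NN_le_NN_resOf _)
  rw [← h0]
  exact inf_le_right

theorem block_le_NN {T E Q : Subgroup G} (hT : IsSylowIn p T ⊤) (hE : IsBaumannBlock p T E)
    (hQ : IsPGroup p Q) (hBQ : baumannSubgroupOf p T ≤ NN(Q)) (hEQ : E ≤ NN(Q)) : Q ≤ NN(E) :=
  le_NN_of_weak hE.1 hE.2.1 hQ hBQ hEQ (le_NN_baum hT hQ hBQ)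

end H12
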