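import Cfsg.Agent.H12.Baum
import Cfsg.Agent.H12.SLGen

set_option autoImplicit false
open Cfsg Subgroup H10 Matrix
open scoped commutatorElement

namespace H12

section SL
variable {F : Type*} [Field F]

/-- stabilizer of the first basis vector -/
def stabE (F : Type*) [Field F] : Subgroup (SpecialLinearGroup (Fin 2) F) where
  carrier := {g | g.1 *ᵥ ![1, 0] = ![1, 0]}
  one_mem' := by simp
  mul_mem' := by
    intro a b ha hb
    change (a.1 * b.1) *ᵥ _ = _
    rw [← mulVec_mulVec, hb, ha]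
  inv_mem' := by
    intro a ha
    have ha' : a.1 *ᵥ ![1, 0] = ![1, 0] := ha
    change (a⁻¹).1 *ᵥ _ = _
    have e : (a⁻¹).1 * a.1 = 1 := congrArg Subtype.val (inv_mul_cancel a)
    conv_lhs => rw [← ha']
    rw [mulVec_mulVec, e, one_mulVec]

theorem comm_sup_stabE : commutator (SpecialLinearGroup (Fin 2) F) ⊔ stabE F = ⊤ := by
  have h01 : ∀ c : F, SpecialLinearGroup.transvection (show (0 : Fin 2) ≠ 1 by decide) c ∈ stabE F := by
    intro c
    change _ *ᵥ _ = _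
    ext i
    fin_cases i <;> simp [SpecialLinearGroup.transvection, Matrix.transvection, mulVec, dotProduct]
  refine eq_top_of_succ (n := 1) _ fun i hi c => ?_
  fin_cases i
  · exact mem_sup_right (h01 c)
  · let w : SpecialLinearGroup (Fin 2) F := ⟨!![0, 1; -1, 0], by simp [det_fin_two]⟩
    let t := SpecialLinearGroup.transvection (show (0 : Fin 2) ≠ 1 by decide) (-c)
    have e : SpecialLinearGroup.transvection hi c = ⁅w, t⁆ * t := by
      rw [commutatorElement_def, inv_mul_cancel_right, eq_mul_inv_iff_mul_eq]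
      apply Subtype.ext
      change (SpecialLinearGroup.transvection hi c).1 * w.1 = w.1 * t.1
      ext i j
      fin_cases i <;> fin_cases j <;>
        simp [w, t, SpecialLinearGroup.transvection, Matrix.transvection, Matrix.mul_apply,
          Fin.sum_univ_two, Matrix.single, Matrix.one_apply]
    rw [e]
    exact mul_mem (mem_sup_left (commutator_mem_commutator (mem_top _) (mem_top _)))
      (mem_sup_right (h01 _))

theorem exists_comm_e {w : Fin 2 → F} (hw : w ≠ 0) :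
    ∃ c ∈ commutator (SpecialLinearGroup (Fin 2) F), c.1 *ᵥ ![1, 0] = w := by
  obtain ⟨g, hg⟩ : ∃ g : SpecialLinearGroup (Fin 2) F, g.1 *ᵥ ![1, 0] = w := by
    by_cases h : w 0 = 0
    · have h1 : w 1 ≠ 0 := fun h1 => hw (by ext i; fin_cases i <;> simp [h, h1])
      refine ⟨⟨!![w 0, -(w 1)⁻¹; w 1, 0], by simp [det_fin_two, h1]⟩, ?_⟩
      ext i; fin_cases i <;> simp [mulVec, dotProduct]
    · refine ⟨⟨!![w 0, 0; w 1, (w 0)⁻¹], by simp [det_fin_two, h]⟩, ?_⟩
      ext i; fin_cases i <;> simp [mulVec, dotProduct]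
  have : g ∈ commutator (SpecialLinearGroup (Fin 2) F) ⊔ stabE F := by
    rw [comm_sup_stabE]; exact mem_top g
  rw [← SetLike.mem_coe, normal_mul] at this
  obtain ⟨c, hc, s, hs, rfl⟩ := this
  refine ⟨c, hc, ?_⟩
  have hs' : s.1 *ᵥ ![1, 0] = ![1, 0] := hs
  rw [← hg]
  change _ = (c.1 * s.1) *ᵥ _
  rw [← mulVec_mulVec, hs']

theorem exists_comm_trans {v w : Fin 2 → F} (hv : v ≠ 0) (hw : w ≠ 0) :
    ∃ c ∈ commutator (SpecialLinearGroup (Fin 2) F), c.1 *ᵥ v = w := by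
  obtain ⟨a, ha, rfl⟩ := exists_comm_e hv
  obtain ⟨b, hb, rfl⟩ := exists_comm_e hw
  refine ⟨b * a⁻¹, mul_mem hb (inv_mem ha), ?_⟩
  have e : (b * a⁻¹).1 * a.1 = b.1 := congrArg Subtype.val (inv_mul_cancel_right b a)
  rw [mulVec_mulVec, e]

end SL

section Perm

theorem even_of_inv {n : ℕ} (hn : Odd n) (S : AddSubgroup (Fin n → ZMod 2))
    (hS : ∀ σ ∈ alternatingGroup (Fin n), ∀ v ∈ S, (fun i => v (σ⁻¹ i)) ∈ S)
    {u : Fin n → ZMod 2} (hu : u ∈ S) (h0 : u ≠ 0) (he : ∑ i, u i = 0)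
    {v : Fin n → ZMod 2} (hv : ∑ i, v i = 0) : v ∈ S := by
  classical
  have z2 : ∀ x : ZMod 2, x = 0 ∨ x = 1 := by decide
  obtain ⟨a, ha⟩ : ∃ a, u a = 1 := by
    by_contra! h
    exact h0 (funext fun i => (z2 _).resolve_right (h i))
  obtain ⟨b, hb⟩ : ∃ b, u b = 0 := by
    by_contra! h
    have : ∀ i, u i = 1 := fun i => (z2 _).resolve_left (h i)
    simp only [this, Finset.sum_const, Finset.card_univ, Fintype.card_fin, nsmul_eq_mul,
      mul_one] at he
    rw [ZMod.natCast_eq_zero_iff_even] at he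
    exact Nat.not_even_iff_odd.2 hn he
  let e : Fin n → Fin n → ZMod 2 := fun i => Pi.single i 1
  -- three-cycles
  have cyc : ∀ i j k : Fin n, i ≠ j → i ≠ k → j ≠ k → ∀ w ∈ S,
      (w i + w k) • e i + (w j + w i) • e j + (w k + w j) • e k ∈ S := by
    intro i j k hij hik hjk w hw
    have hσ : Equiv.swap i k * Equiv.swap i j ∈ alternatingGroup (Fin n) := by
      simp [Equiv.Perm.mem_alternatingGroup, hij, hik]
    have := add_mem hw (hS _ hσ w hw)
    convert this using 1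
    ext x
    have x2 : ∀ y : ZMod 2, y + y = 0 := by decide
    by_cases h1 : x = i
    · subst h1; simp [e, hij, hik, Equiv.swap_apply_def, hjk.symm, hik.symm]
    by_cases h2 : x = j
    · subst h2; simp [e, h1, hjk, Equiv.swap_apply_def]
    by_cases h3 : x = k
    · subst h3; simp [e, h1, h2, Equiv.swap_apply_def]
    simp [e, h1, h2, h3, Equiv.swap_apply_def, x2]
  have hab : a ≠ b := fun h => by rw [h, hb] at ha; exact zero_ne_one ha
  have step : ∀ i j k : Fin n, i ≠ j → e i + e j ∈ S → e i + e k ∈ S := by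
    intro i j k hij h
    by_cases h1 : i = k
    · subst h1
      convert zero_mem S
      ext x; have x2 : ∀ y : ZMod 2, y + y = 0 := by decide
      simp [x2]
    by_cases h2 : j = k
    · exact h2 ▸ h
    have := cyc i j k hij h1 h2 _ h
    have x2 : (1 : ZMod 2) + 1 = 0 := by decide
    simpa [e, hij, hij.symm, h1, h2, Ne.symm h1, Ne.symm h2, x2] using this
  obtain ⟨i, j, hij, h⟩ : ∃ i j, i ≠ j ∧ e i + e j ∈ S := by
    obtain ⟨k, hk1, hk2⟩ : ∃ k, k ≠ a ∧ k ≠ b := by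
      by_contra! h
      have : (Finset.univ : Finset (Fin n)) = {a, b} := by
        ext x
        by_cases hx : x = a
        · simp [hx]
        · simp [h x hx]
      have h2 := congrArg Finset.card this
      rw [Finset.card_univ, Fintype.card_fin, Finset.card_pair hab] at h2
      rw [h2] at hn
      exact absurd hn (by decide)
    have := cyc a b k hab hk1.symm hk2.symm _ hu
    have x2 : (1 : ZMod 2) + 1 = 0 := by decide
    rcases z2 (u k) with h | h
    · exact ⟨a, b, hab, by simpa [ha, hb, h] using this⟩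
    · exact ⟨b, k, hk2.symm, by simpa [ha, hb, h, x2] using this⟩
  have : v = ∑ k, v k • (e i + e k) := by
    simp only [smul_add, Finset.sum_add_distrib, ← Finset.sum_smul, hv, zero_smul, zero_add]
    ext x
    simp [e, Finset.sum_apply, Pi.single_apply]
  rw [this]
  refine sum_mem fun k _ => ?_
  rcases z2 (v k) with h' | h' <;> rw [h']
  · simp
  · simpa using step i j k hij h

end Perm

variable {G : Type*} [Group G]

theorem sl2sec_irr {F : Type*} [Field F] {E U U₀ V : Subgroup G}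
    (h : ActsAsSL2OnSection F (commutator (SpecialLinearGroup (Fin 2) F)) E U U₀) (hV : V ≤ U)
    (hE : E ≤ NN(V)) : V ≤ U₀ ∨ U ≤ V ⊔ U₀ := by
  obtain ⟨-, -, ρ, ψ, hρ, -, hk, hψ⟩ := h
  by_cases h0 : V ≤ U₀
  · exact Or.inl h0
  right
  obtain ⟨v, hv, hv0⟩ := SetLike.not_le_iff_exists.1 h0
  intro u hu
  by_cases hu0 : u ∈ U₀
  · exact mem_sup_right hu0
  have a1 : Multiplicative.toAdd (ψ ⟨v, hV hv⟩) ≠ 0 := fun h => hv0 ((hk ⟨v, hV hv⟩).1 h)
  have a2 : Multiplicative.toAdd (ψ ⟨u, hu⟩) ≠ 0 := fun h => hu0 ((hk ⟨u, hu⟩).1 h)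
  obtain ⟨c, hc, e⟩ := exists_comm_trans a1 a2
  rw [← hρ] at hc
  obtain ⟨g, rfl⟩ := hc
  obtain ⟨w, hw, hw'⟩ := hψ g ⟨v, hV hv⟩
  have hwV : (w : G) ∈ V := hw ▸ conj_mem_of_mem_NN (hE g.2) hv
  have : ψ (w⁻¹ * ⟨u, hu⟩) = 1 := by
    rw [map_mul, map_inv, inv_mul_eq_one]
    exact Multiplicative.toAdd.injective (hw'.trans e)
  have h2 := (hk _).1 this
  have : u = w * ((w⁻¹ * ⟨u, hu⟩ : U) : G) := by simp
  rw [this]
  exact mul_mem (mem_sup_left hwV) (mem_sup_right h2)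

theorem permsec_irr {n : ℕ} (hn : Odd n) {E U U₀ V : Subgroup G}
    (h : ActsAsOddPermModuleOnSection n (alternatingGroup (Fin n)) E U U₀) (hV : V ≤ U)
    (hE : E ≤ NN(V)) : V ≤ U₀ ∨ U ≤ V ⊔ U₀ := by
  obtain ⟨-, -, ρ, ψ, hρ, hev, -, hk, hψ⟩ := h
  by_cases h0 : V ≤ U₀
  · exact Or.inl h0
  right
  obtain ⟨v, hv, hv0⟩ := SetLike.not_le_iff_exists.1 h0
  intro u hu
  let S : AddSubgroup (Fin n → ZMod 2) := Subgroup.toAddSubgroup' ((V.subgroupOf U).map ψ)
  have hS : ∀ x, x ∈ S ↔ ∃ y : U, (y : G) ∈ V ∧ Multiplicative.toAdd (ψ y) = x := fun x =>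
    ⟨fun ⟨y, hy, e⟩ => ⟨y, hy, congrArg Multiplicative.toAdd e⟩,
      fun ⟨y, hy, e⟩ => ⟨y, hy, congrArg Multiplicative.ofAdd e⟩⟩
  have := even_of_inv hn S ?_ ((hS _).2 ⟨⟨v, hV hv⟩, hv, rfl⟩)
    (fun h => hv0 ((hk ⟨v, hV hv⟩).1 h)) (hev _) (hev ⟨u, hu⟩)
  · obtain ⟨w, hwV, e⟩ := (hS _).1 this
    have : ψ (w⁻¹ * ⟨u, hu⟩) = 1 := by
      rw [map_mul, map_inv, inv_mul_eq_one]
      exact Multiplicative.toAdd.injective e
    have h2 := (hk _).1 this
    have : u = w * ((w⁻¹ * ⟨u, hu⟩ : U) : G) := by simp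
    rw [this]
    exact mul_mem (mem_sup_left hwV) (mem_sup_right h2)
  · intro σ hσ x hx
    obtain ⟨y, hy, rfl⟩ := (hS _).1 hx
    rw [← hρ] at hσ
    obtain ⟨g, rfl⟩ := hσ
    obtain ⟨w, hw, hw'⟩ := hψ g y
    exact (hS _).2 ⟨w, hw ▸ conj_mem_of_mem_NN (hE g.2) hy, funext hw'⟩

variable [Finite G] {p : ℕ} [hp : Fact p.Prime] {T E : Subgroup G}

omit [Finite G] hp in
theorem blk_irr (h : IsBaumannBlock p T E) {V : Subgroup G} (hV : V ≤ ZO p (pCoreOf p E))
    (hE : E ≤ NN(V)) : V ≤ CC(E) ∨ ZO p (pCoreOf p E) ≤ V ⊔ (ZO p (pCoreOf p E) ⊓ CC(E)) := by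
  rcases h.2.2.2.2 with ⟨F, _, _, n, -, -, h1, -⟩ | ⟨-, m, -, h1, -⟩
  · exact (sl2sec_irr h1 hV hE).imp_left fun h => h.trans inf_le_right
  · exact (permsec_irr ⟨m, rfl⟩ h1 hV hE).imp_left fun h => h.trans inf_le_right

omit [Finite G] hp in
theorem blk_ab_le (h : IsBaumannBlock p T E) {V : Subgroup G} (hV : V ≤ pCoreOf p E)
    (hE : E ≤ NN(V)) (hab : V ≤ CC(V)) : V ≤ ZO p (pCoreOf p E) := by
  rcases h.2.2.2.2 with ⟨F, _, _, n, hF, -, -, h1 | ⟨h3, h1, h2, -, h4, h5, -⟩⟩ | ⟨-, m, -, -, h1⟩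
  · exact hV.trans h1.le
  · refine (sl2sec_irr h1 hV hE).resolve_right fun hle => ?_
    have hW : ZO p (pCoreOf p E) ≤ CC(pCoreOf p E) := ZO_le_CC _
    have a1 : pCoreOf p E ≤ CC(V) := hle.trans (sup_le hab (hW.trans (CC_anti hV)))
    have a2 : pCoreOf p E ≤ CC(pCoreOf p E) := hle.trans (sup_le (le_CC_symm a1) hW)
    have a3 := comm_eq_bot.2 a2
    rw [h4, ← h2, a3, card_bot, ← h3, ← hF] at h5
    exact Fintype.one_lt_card.ne h5
  · exact hV.trans h1.le

end H12
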