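/-
Faithful representations of extraspecial 2-groups with an operator group: basic lemmas.
-/
import Cfsg.Agent.H21.Ext2

set_option autoImplicit false
set_option linter.unusedSectionVars false
open H17 Cfsg Module

namespace H12.Dx

/-- `E` is extraspecial (or of order two) with centre `{1, z}` -/
structure ES (E : Type*) [Group E] (z : E) : Prop where
  z1 : z ≠ 1
  zz : z * z = 1
  cen : ∀ e, z * e = e * z
  com : ∀ a b : E, a * b = b * a ∨ a * b = b * a * z
  sq : ∀ a : E, a * a = 1 ∨ a * a = z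
  ctr : ∀ a : E, (∀ b, a * b = b * a) → a = 1 ∨ a = z

/-- the faithful irreducible representation extends to the semidirect product -/
def Good {E H : Type*} [Group E] [Group H] (φ : H →* MulAut E) (z : E) : Prop :=
  ∃ (n : ℕ) (θ : Representation ℂ E (Fin n → ℂ)) (R : Representation ℂ H (Fin n → ℂ)),
    θ z = -1 ∧ 2 * n ^ 2 = Nat.card E ∧ ∀ h e, R h * θ e = θ (φ h e) * R h

section
variable {E H : Type*} [Group E] [Group H] {z : E}

theorem ES.fix (h : ES E z) (f : MulAut E) : f z = z := by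
  rcases h.ctr (f z) (fun b => by
    obtain ⟨c, rfl⟩ := f.surjective b
    rw [← map_mul, ← map_mul, h.cen]) with e | e
  · exact absurd (f.injective (e.trans (map_one f).symm)) h.z1
  · exact e

theorem ES.inv (h : ES E z) : z⁻¹ = z := inv_eq_of_mul_eq_one_right h.zz

theorem ES.pow4 (h : ES E z) (a : E) : a ^ 4 = 1 := by
  have : a ^ 4 = (a * a) * (a * a) := by
    rw [show (4 : ℕ) = 3 + 1 from rfl, pow_succ, pow_three, mul_assoc, mul_assoc, mul_assoc]
  rcases h.sq a with e | e <;> rw [this, e]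
  · exact one_mul _
  · exact h.zz

theorem ES.isP (h : ES E z) : IsPGroup 2 E := fun a => ⟨2, h.pow4 a⟩

theorem good_of {φ : H →* MulAut E} {V : Type*} [AddCommGroup V] [Module ℂ V]
    [FiniteDimensional ℂ V] (θ : Representation ℂ E V) (R : Representation ℂ H V)
    (hz : θ z = -1) (hn : 2 * finrank ℂ V ^ 2 = Nat.card E)
    (hR : ∀ h e, R h * θ e = θ (φ h e) * R h) : Good φ z := by
  let f := (Module.finBasis ℂ V).equivFun
  refine ⟨finrank ℂ V, transportRep θ f, transportRep R f, ?_, hn, fun h e => ?_⟩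
  · exact LinearMap.ext fun w => by simp [hz]
  · refine LinearMap.ext fun w => ?_
    have := LinearMap.congr_fun (hR h e) (f.symm w)
    simp only [Module.End.mul_apply] at this
    simp [this]

theorem Good.comp {H' : Type*} [Group H'] {φ : H →* MulAut E} (h : Good φ z) (π : H' →* H) :
    Good (φ.comp π) z := by
  obtain ⟨n, θ, R, a, b, c⟩ := h
  exact ⟨n, θ, R.comp π, a, b, fun h e => c (π h) e⟩

variable {V : Type*} [AddCommGroup V] [Module ℂ V] [FiniteDimensional ℂ V]

theorem ES.char_z (θ : Representation ℂ E V) (hz : θ z = -1) :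
    θ.character z = -(finrank ℂ V : ℂ) := by
  simp [Representation.character, hz]

theorem ES.char_zero (h : ES E z) (θ : Representation ℂ E V) (hz : θ z = -1) {e : E}
    (h1 : e ≠ 1) (h2 : e ≠ z) : θ.character e = 0 := by
  have : ¬ ∀ b, e * b = b * e := fun hb => (h.ctr e hb).elim h1 h2
  push Not at this
  obtain ⟨b, hb⟩ := this
  have h3 : e * b = b * e * z := (h.com e b).resolve_left hb
  have h4 : b * e * b⁻¹ = e * z := by
    have : b * e = e * b * z := by rw [h3, mul_assoc, h.zz, mul_one]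
    rw [this, mul_assoc, h.cen, mul_assoc, mul_inv_cancel_left]
  have h5 := θ.char_conj e b
  rw [h4] at h5
  have h6 : θ.character (e * z) = - θ.character e := by
    simp [Representation.character, hz]
  rw [h6] at h5
  linear_combination (-1 / 2 : ℂ) * h5

theorem ES.inner [Fintype E] (h : ES E z) (θ : Representation ℂ E V) (hz : θ z = -1) :
    classInner θ.character θ.character = (Nat.card E : ℂ)⁻¹ * (2 * (finrank ℂ V : ℂ) ^ 2) := by
  classical
  unfold classInner
  congr 1
  rw [← Finset.sum_subset (Finset.subset_univ ({1, z} : Finset E))]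
  · rw [Finset.sum_pair h.z1.symm, ES.char_z θ hz, Representation.char_one]
    simp; ring
  · intro x _ hx
    simp only [Finset.mem_insert, Finset.mem_singleton, not_or] at hx
    rw [h.char_zero θ hz hx.1 hx.2, zero_mul]

theorem ES.irr [Finite E] (h : ES E z) (θ : Representation ℂ E V) (hz : θ z = -1)
    (hn : 2 * finrank ℂ V ^ 2 = Nat.card E) : θ.IsIrreducible := by
  have := Fintype.ofFinite E
  refine isIrreducible_of_isIrr θ ((isCharacter_character θ).isIrr_of_norm_one ?_)
  rw [h.inner θ hz, ← hn]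
  have : (finrank ℂ V : ℂ) ≠ 0 := by
    intro e
    have e' : finrank ℂ V = 0 := by exact_mod_cast e
    rw [e'] at hn
    exact Nat.card_pos.ne hn
  push_cast
  field_simp

theorem ES.dim [Finite E] (h : ES E z) (θ : Representation ℂ E V) (hz : θ z = -1)
    [θ.IsIrreducible] : 2 * finrank ℂ V ^ 2 = Nat.card E := by
  have := Fintype.ofFinite E
  have h1 := (isIrr_character θ).inner_self
  rw [h.inner θ hz] at h1
  have h2 : (Nat.card E : ℂ) ≠ 0 := by exact_mod_cast Nat.card_pos.ne'
  field_simp at h1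
  exact_mod_cast h1

theorem ES.char_eq (h : ES E z) {W : Type*} [AddCommGroup W] [Module ℂ W] [FiniteDimensional ℂ W]
    (θ : Representation ℂ E V) (hz : θ z = -1) (σ : Representation ℂ E W) (hz' : σ z = -1)
    (e : finrank ℂ V = finrank ℂ W) : θ.character = σ.character := by
  funext x
  by_cases h1 : x = 1
  · rw [h1, Representation.char_one, Representation.char_one, e]
  by_cases h2 : x = z
  · rw [h2, ES.char_z θ hz, ES.char_z σ hz', e]
  rw [h.char_zero θ hz h1 h2, h.char_zero σ hz' h1 h2]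

theorem ES.neg_of_irr [Finite E] (h : ES E z) (θ : Representation ℂ E V) [θ.IsIrreducible]
    (hz : θ.character z ≠ θ.character 1) : θ z = -1 := by
  obtain ⟨c, hc⟩ := schur_scalar θ (θ z) fun g => by
    change θ z * θ g = θ g * θ z
    rw [← map_mul, ← map_mul, h.cen]
  have := nontrivial_of_isIrreducible θ
  have h1 : θ z * θ z = 1 := by rw [← map_mul, h.zz, map_one]
  rw [hc] at h1
  have h2 : (c * c) • (1 : V →ₗ[ℂ] V) = (1 : ℂ) • (1 : V →ₗ[ℂ] V) := by
    rw [one_smul]
    refine Eq.trans ?_ h1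
    exact LinearMap.ext fun v => by simp [mul_smul]
  have h3 : c * c = 1 := smul_left_injective ℂ one_ne_zero h2
  rcases mul_self_eq_one_iff.1 h3 with rfl | rfl
  · refine absurd ?_ hz
    rw [Representation.char_one]
    exact (char_eq_finrank_iff θ z).2 (by rw [hc, one_smul])
  · rw [hc]; exact LinearMap.ext fun v => by simp

theorem ES.exists_rep [Finite E] (h : ES E z) : ∃ (n : ℕ) (θ : Representation ℂ E (Fin n → ℂ)),
    θ z = -1 ∧ 2 * n ^ 2 = Nat.card E := by
  obtain ⟨χ, ⟨n, θ, hθ, rfl⟩, hχ⟩ := exists_irr_apply_ne h.z1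
  have hz := h.neg_of_irr θ hχ
  exact ⟨n, θ, hz, by simpa using h.dim θ hz⟩

end

section proj
variable {E H : Type*} [Group E] [Group H] [Finite E] [Finite H] {z : E} (φ : H →* MulAut E)
  {n : ℕ} (θ : Representation ℂ E (Fin n → ℂ))

/-- pairs `(h, T)` with `T` intertwining -/
def prs : Subgroup (H × ((Fin n → ℂ) →ₗ[ℂ] (Fin n → ℂ))ˣ) where
  carrier := {x | ∀ e : E, (x.2 : (Fin n → ℂ) →ₗ[ℂ] (Fin n → ℂ)) * θ e = θ (φ x.1 e) * x.2}
  one_mem' := fun n => by simp
  mul_mem' := fun {x y} hx hy n => by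
    simp only [Prod.snd_mul, Units.val_mul, Prod.fst_mul, map_mul, MulAut.mul_apply]
    rw [mul_assoc, hy, ← mul_assoc, hx, mul_assoc]
  inv_mem' := fun {x} hx n => by
    have := hx (φ x.1⁻¹ n)
    rw [← MulAut.mul_apply, ← map_mul, mul_inv_cancel, map_one, MulAut.one_apply] at this
    rw [Prod.snd_inv, Prod.fst_inv, Units.inv_mul_eq_iff_eq_mul, ← mul_assoc, this, mul_assoc,
      Units.mul_inv, mul_one]

variable {θ}

/-- the associated central extension -/
noncomputable def cx (h : ES E z) (hz : θ z = -1) (hn : 2 * n ^ 2 = Nat.card E) :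
    H21.CExt (prs φ θ) H ⊥ where
  π := (MonoidHom.fst _ _).comp (prs φ θ).subtype
  ι := ((1 : ℂˣ →* H).prod (H21.scal (Fin n → ℂ))).codRestrict _ fun c n => by
    simp [H21.scal_coe]
  s := 1
  surj := fun g => by
    obtain ⟨e⟩ := nonempty_equiv_of_char_eq θ
      (θ.comp (φ g : MulAut E).toMonoidHom : Representation ℂ E (Fin n → ℂ))
      (h.char_eq _ hz _ (by
        change θ (φ g z) = -1
        rw [h.fix, hz]) rfl)
    exact ⟨⟨(g, LinearMap.GeneralLinearGroup.ofLinearEquiv e.toLinearEquiv), fun n =>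
      LinearMap.ext fun v => equiv_intertwines e n v⟩, rfl⟩
  inj := fun a b e => by
    have := h.irr θ hz (by simpa using hn)
    have := nontrivial_of_isIrreducible θ
    have h : (H21.scal (Fin n → ℂ) a : (Fin n → ℂ) →ₗ[ℂ] (Fin n → ℂ)) = H21.scal (Fin n → ℂ) b :=
      congrArg (fun x : prs φ θ => (x.1.2 : (Fin n → ℂ) →ₗ[ℂ] (Fin n → ℂ))) e
    rw [H21.scal_coe, H21.scal_coe] at h
    have h0 : (1 : (Fin n → ℂ) →ₗ[ℂ] (Fin n → ℂ)) ≠ 0 := one_ne_zero
    exact Units.ext (smul_left_injective ℂ h0 h)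
  ker := fun x => by
    refine ⟨fun h' => ?_, by rintro ⟨c, rfl⟩; rfl⟩
    have h1 : x.1.1 = 1 := h'
    have := h.irr θ hz (by simpa using hn)
    have := nontrivial_of_isIrreducible θ
    obtain ⟨c, hc⟩ := schur_scalar θ x.1.2 fun n => by
      have := x.2 n
      rwa [h1, map_one, MulAut.one_apply] at this
    have hc0 : c ≠ 0 := by
      rintro rfl
      exact x.1.2.ne_zero (by rw [hc, zero_smul])
    exact ⟨Units.mk0 c hc0, Subtype.ext (Prod.ext h1.symm (Units.ext (by
      rw [hc]; exact H21.scal_coe _)))⟩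
  central := fun c x => Subtype.ext (Prod.ext ((one_mul _).trans (mul_one _).symm) (Units.ext (by
    change (H21.scal (Fin n → ℂ) c : (Fin n → ℂ) →ₗ[ℂ] (Fin n → ℂ)) * x.1.2 =
      x.1.2 * H21.scal (Fin n → ℂ) c
    simp [H21.scal_coe])))
  sec := fun m => (Subgroup.mem_bot.1 m.2).symm
  conj := fun x n => by simp

/-- the projective representation -/
noncomputable def prRep (θ : Representation ℂ E (Fin n → ℂ)) :
    Representation ℂ (prs φ θ) (Fin n → ℂ) :=
  (Units.coeHom _).comp ((MonoidHom.snd _ _).comp (prs φ θ).subtype)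

theorem good_of_ret (h : ES E z) (hz : θ z = -1) (hn : 2 * n ^ 2 = Nat.card E)
    (hr : (cx φ h hz hn).Ret 1) : Good φ z := by
  obtain ⟨t, h1, -⟩ := hr.exists_hom
  refine ⟨n, θ, (prRep φ θ).comp t, hz, hn, fun g e => ?_⟩
  have := (t g).2 e
  have h2 : (t g).1.1 = g := h1 g
  rw [h2] at this
  exact this

theorem ret_dim (h : ES E z) (hz : θ z = -1) (hn : 2 * n ^ 2 = Nat.card E) :
    (cx φ h hz hn).Ret (n : ℕ) := by
  refine ⟨H21.detHom (prRep φ θ), fun c => ?_, fun m => map_one _⟩
  refine Units.ext ?_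
  have : prRep φ θ ((cx φ h hz hn).ι c) = (c : ℂ) • (1 : (Fin n → ℂ) →ₗ[ℂ] (Fin n → ℂ)) :=
    H21.scal_coe c
  rw [H21.detHom_apply, this, LinearMap.det_smul, map_one, mul_one, zpow_natCast,
    Units.val_pow_eq_pow_val]
  simp

theorem good_of_cyclic (h : ES E z) [IsCyclic H] : Good φ z := by
  obtain ⟨n, θ, hz, hn⟩ := h.exists_rep
  exact good_of_ret φ h hz hn ((cx φ h hz hn).ret_of_cyclic
    (isCyclic_of_surjective _ (QuotientGroup.mk'_surjective _)))

theorem good_of_odd (h : ES E z) (S : Subgroup H) (hS : Odd S.index)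
    (hg : Good (φ.comp S.subtype) z) : Good φ z := by
  obtain ⟨n, θ, R, hz, hn, hR⟩ := hg
  have h1 : (cx φ h hz hn).Sec S := by
    refine ⟨(S.subtype.prod R.asGroupHom).codRestrict _ fun g e => hR g e, fun _ => rfl,
      fun m hm => ?_⟩
    have : (⟨m, hm⟩ : S) = 1 := Subtype.ext (Subgroup.mem_bot.1 m.2)
    rw [this, map_one]; rfl
  refine good_of_ret φ h hz hn ((h1.ret bot_le).one_of_coprime (ret_dim φ h hz hn) ?_)
  obtain ⟨k, hk⟩ := IsPGroup.iff_card.1 h.isP
  have : n ∣ 2 ^ k := by rw [← hk, ← hn]; exact Dvd.intro_left (2 * n) (by ring)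
  exact Nat.Coprime.coprime_dvd_right this
    (Nat.Coprime.pow_right _ ((Nat.coprime_two_right).2 hS))

end proj
end H12.Dx
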