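/-
Extraspecial 2-groups with operators: tensor products, index two tensor induction, induction.
-/
import Cfsg.Agent.H12.Dx1
import Cfsg.Agent.H7.Basic

set_option autoImplicit false
set_option linter.unusedSectionVars false
open H17 Cfsg Module TensorProduct

namespace H12.Dx

variable {E H : Type*} [Group E] [Group H] {z : E}

/-- `A` is invariant under `S` -/
def Inv (φ : H →* MulAut E) (S : Subgroup H) (A : Subgroup E) : Prop := ∀ h ∈ S, ∀ a ∈ A, φ h a ∈ A

theorem app_mul (φ : H →* MulAut E) (h k : H) (e : E) : φ (h * k) e = φ h (φ k e) := by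
  rw [map_mul, MulAut.mul_apply]

theorem app_inv (φ : H →* MulAut E) (h : H) (e : E) : φ h⁻¹ (φ h e) = e := by
  rw [← app_mul, inv_mul_cancel, map_one, MulAut.one_apply]

theorem app_inv' (φ : H →* MulAut E) (h : H) (e : E) : φ h (φ h⁻¹ e) = e := by
  rw [← app_mul, mul_inv_cancel, map_one, MulAut.one_apply]

/-- restricted action -/
def res (φ : H →* MulAut E) {S : Subgroup H} {A : Subgroup E} (hA : Inv φ S A) : S →* MulAut A where
  toFun h :=
    { toFun := fun a => ⟨φ h a, hA h h.2 a a.2⟩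
      invFun := fun a => ⟨φ (h : H)⁻¹ a, hA _ (S.inv_mem h.2) a a.2⟩
      left_inv := fun a => Subtype.ext (app_inv φ _ _)
      right_inv := fun a => Subtype.ext (app_inv' φ _ _)
      map_mul' := fun a b => Subtype.ext (map_mul _ _ _) }
  map_one' := MulEquiv.ext fun a => Subtype.ext (by simp)
  map_mul' h k := MulEquiv.ext fun a => Subtype.ext (app_mul φ _ _ _)

theorem res_apply (φ : H →* MulAut E) {S : Subgroup H} {A : Subgroup E} (hA : Inv φ S A)
    (h : S) (a : A) : (res φ hA h a : E) = φ h a := rfl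

/-- partial representations -/
structure PG (φ : H →* MulAut E) (z : E) (S : Subgroup H) (A : Subgroup E) {n : ℕ}
    (t : E → End ℂ (Fin n → ℂ)) (r : H → End ℂ (Fin n → ℂ)) : Prop where
  t1 : t 1 = 1
  tm : ∀ a ∈ A, ∀ b ∈ A, t (a * b) = t a * t b
  tz : t z = -1
  r1 : r 1 = 1
  rm : ∀ h ∈ S, ∀ k ∈ S, r (h * k) = r h * r k
  rt : ∀ h ∈ S, ∀ a ∈ A, r h * t a = t (φ h a) * r h

theorem Good.pg {φ : H →* MulAut E} {S : Subgroup H} {A : Subgroup E} (hA : Inv φ S A)
    (hz : z ∈ A) {X : Type*} [Group X] {ψ : S →* MulAut X} (π : A →* X)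
    (hπ : ∀ h a, π (res φ hA h a) = ψ h (π a)) (hg : Good ψ (π ⟨z, hz⟩)) :
    ∃ (n : ℕ) (t : E → End ℂ (Fin n → ℂ)) (r : H → End ℂ (Fin n → ℂ)),
      PG φ z S A t r ∧ 2 * n ^ 2 = Nat.card X := by
  classical
  obtain ⟨n, θ, R, h1, h2, h3⟩ := hg
  refine ⟨n, fun e => if h : e ∈ A then θ (π ⟨e, h⟩) else 1,
    fun g => if h : g ∈ S then R ⟨g, h⟩ else 1, ⟨?_, fun a ha b hb => ?_, ?_, ?_,
    fun a ha b hb => ?_, fun g hg a ha => ?_⟩, h2⟩
  · rw [dif_pos A.one_mem]
    exact (congrArg θ (map_one π)).trans (map_one θ)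
  · rw [dif_pos ha, dif_pos hb, dif_pos (A.mul_mem ha hb), ← map_mul, ← map_mul]; rfl
  · rw [dif_pos hz, h1]
  · rw [dif_pos S.one_mem]
    exact map_one R
  · rw [dif_pos ha, dif_pos hb, dif_pos (S.mul_mem ha hb), ← map_mul]; rfl
  · rw [dif_pos hg, dif_pos ha, dif_pos (hA g hg a ha), h3, ← hπ]; rfl

theorem ES.normal (h : ES E z) {A : Subgroup E} (hz : z ∈ A) : A.Normal := ⟨fun a ha g => by
  rcases h.com g a with e | e
  · rw [e, mul_inv_cancel_right]; exact ha
  · rw [e, mul_assoc, h.cen, mul_assoc, mul_inv_cancel_left]; exact A.mul_mem ha hz⟩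

theorem ES.mem_zp (h : ES E z) {a : E} : a ∈ Subgroup.zpowers z ↔ a = 1 ∨ a = z := by
  refine ⟨fun ha => h.ctr a fun b => ?_, ?_⟩
  · obtain ⟨k, rfl⟩ := ha
    exact (Commute.zpow_left (h.cen b) k).eq
  · rintro (rfl | rfl)
    · exact Subgroup.one_mem _
    · exact Subgroup.mem_zpowers _

theorem ES.card_zp (h : ES E z) : Nat.card (Subgroup.zpowers z) = 2 := by
  rw [Nat.card_zpowers]
  exact orderOf_eq_prime (by rw [pow_two, h.zz]) h.z1

/-- central product decomposition -/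
structure CP (z : E) (A B : Subgroup E) : Prop where
  zA : z ∈ A
  zB : z ∈ B
  com : ∀ a ∈ A, ∀ b ∈ B, a * b = b * a
  sup : ∀ e, ∃ a ∈ A, ∃ b ∈ B, e = a * b

theorem CP.symm {A B : Subgroup E} (h : CP z A B) : CP z B A :=
  ⟨h.zB, h.zA, fun b hb a ha => (h.com a ha b hb).symm, fun e => by
    obtain ⟨a, ha, b, hb, rfl⟩ := h.sup e
    exact ⟨b, hb, a, ha, h.com a ha b hb⟩⟩

theorem CP.ctr {A B : Subgroup E} (h : ES E z) (c : CP z A B) {x : E} (hx : x ∈ A)
    (hc : ∀ a ∈ A, x * a = a * x) : x = 1 ∨ x = z := h.ctr x fun e => by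
  obtain ⟨a, ha, b, hb, rfl⟩ := c.sup e
  rw [← mul_assoc, hc a ha, mul_assoc, c.com x hx b hb, mul_assoc]

theorem CP.inter {A B : Subgroup E} (h : ES E z) (c : CP z A B) {x : E} (hx : x ∈ A)
    (hx' : x ∈ B) : x = 1 ∨ x = z := c.ctr h hx fun a ha => (c.com a ha x hx').symm

theorem CP.card [Finite E] {A B : Subgroup E} (h : ES E z) (c : CP z A B) :
    Nat.card A * Nat.card B = 2 * Nat.card E := by
  have := h.normal c.zB
  have h1 := H7.card_sup_mul_card_inf A B
  have h2 : A ⊔ B = ⊤ := eq_top_iff.2 fun e _ => by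
    obtain ⟨a, ha, b, hb, rfl⟩ := c.sup e
    exact Subgroup.mul_mem_sup ha hb
  have h3 : A ⊓ B = Subgroup.zpowers z := le_antisymm
    (fun x hx => h.mem_zp.2 (c.inter h hx.1 hx.2)) (Subgroup.zpowers_le.2 ⟨c.zA, c.zB⟩)
  rw [h2, h3, h.card_zp, Subgroup.card_top] at h1
  rw [← h1, mul_comm]

theorem CP.es {A B : Subgroup E} (h : ES E z) (c : CP z A B) : ES A ⟨z, c.zA⟩ where
  z1 := fun e => h.z1 (congrArg Subtype.val e)
  zz := Subtype.ext h.zz
  cen := fun e => Subtype.ext (h.cen e)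
  com := fun a b => (h.com a b).imp Subtype.ext Subtype.ext
  sq := fun a => (h.sq a).imp Subtype.ext Subtype.ext
  ctr := fun a ha => (c.ctr h a.2 fun b hb => congrArg Subtype.val (ha ⟨b, hb⟩)).imp
    Subtype.ext Subtype.ext

theorem CP.exists_rep {A B : Subgroup E} (h : ES E z) (c : CP z A B) {V W : Type*} [AddCommGroup V]
    [Module ℂ V] [AddCommGroup W] [Module ℂ W] (t : E → End ℂ V) (u : E → End ℂ W)
    (t1 : t 1 = 1) (tm : ∀ a ∈ A, ∀ b ∈ A, t (a * b) = t a * t b) (tz : t z = -1)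
    (u1 : u 1 = 1) (um : ∀ a ∈ B, ∀ b ∈ B, u (a * b) = u a * u b) (uz : u z = -1) :
    ∃ θ : Representation ℂ E (V ⊗[ℂ] W), θ z = -1 ∧
      ∀ a ∈ A, ∀ b ∈ B, θ (a * b) = TensorProduct.map (t a) (u b) := by
  choose f hf g hg hfg using c.sup
  have key : ∀ a ∈ A, ∀ b ∈ B, TensorProduct.map (t (f (a * b))) (u (g (a * b))) =
      TensorProduct.map (t a) (u b) := fun a ha b hb => by
    have e := hfg (a * b)
    have e1 : a⁻¹ * f (a * b) = b * (g (a * b))⁻¹ := by
      rw [inv_mul_eq_iff_eq_mul, ← mul_assoc, eq_mul_inv_iff_mul_eq]; exact e.symm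
    rcases c.inter h (A.mul_mem (A.inv_mem ha) (hf _))
      (e1 ▸ B.mul_mem hb (B.inv_mem (hg _))) with e2 | e2
    · have e3 := e2
      rw [e1, mul_inv_eq_one] at e3
      rw [inv_mul_eq_one] at e2
      rw [← e2, ← e3]
    · have e3 := e2
      rw [e1, mul_inv_eq_iff_eq_mul] at e3
      rw [inv_mul_eq_iff_eq_mul] at e2
      have e4 : g (a * b) = z * b := by
        rw [← h.inv, eq_inv_mul_iff_mul_eq]; exact e3.symm
      rw [e2, e4, tm a ha z c.zA, um z c.zB b hb, tz, uz]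
      refine TensorProduct.ext' fun v w => ?_
      simp [TensorProduct.neg_tmul, TensorProduct.tmul_neg]
  let θ : Representation ℂ E (V ⊗[ℂ] W) :=
    { toFun := fun e => TensorProduct.map (t (f e)) (u (g e))
      map_one' := by
        have := key 1 A.one_mem 1 B.one_mem
        rw [mul_one, t1, u1] at this
        rw [this]; exact TensorProduct.map_one
      map_mul' := fun x y => by
        have e : x * y = (f x * f y) * (g x * g y) := by
          conv_lhs => rw [hfg x, hfg y]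
          rw [mul_assoc, ← mul_assoc (g x), ← c.com _ (hf y) _ (hg x)]
          simp only [mul_assoc]
        have := key _ (A.mul_mem (hf x) (hf y)) _ (B.mul_mem (hg x) (hg y))
        rw [← e] at this
        rw [this, tm _ (hf x) _ (hf y), um _ (hg x) _ (hg y), TensorProduct.map_mul] }
  refine ⟨θ, ?_, key⟩
  have := key z c.zA 1 B.one_mem
  rw [mul_one, tz, u1] at this
  refine this.trans (TensorProduct.ext' fun v w => ?_)
  simp [TensorProduct.neg_tmul]

theorem good_cp [Finite E] {φ : H →* MulAut E} {A B : Subgroup E} (h : ES E z) (c : CP z A B)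
    (hA : Inv φ ⊤ A) (hB : Inv φ ⊤ B) (gA : Good (res φ hA) ⟨z, c.zA⟩)
    (gB : Good (res φ hB) ⟨z, c.zB⟩) : Good φ z := by
  obtain ⟨n, t, r, p, hn⟩ := Good.pg hA c.zA (MonoidHom.id _) (fun _ _ => rfl) gA
  obtain ⟨m, u, s, q, hm⟩ := Good.pg hB c.zB (MonoidHom.id _) (fun _ _ => rfl) gB
  obtain ⟨θ, hz, hθ⟩ := c.exists_rep h t u p.t1 p.tm p.tz q.t1 q.tm q.tz
  let R : Representation ℂ H ((Fin n → ℂ) ⊗[ℂ] (Fin m → ℂ)) :=
    { toFun := fun g => TensorProduct.map (r g) (s g)
      map_one' := by rw [p.r1, q.r1]; exact TensorProduct.map_one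
      map_mul' := fun x y => by
        rw [p.rm x trivial y trivial, q.rm x trivial y trivial, TensorProduct.map_mul] }
  refine good_of θ R hz ?_ fun g e => ?_
  · have := c.card h
    rw [← hn, ← hm] at this
    simp only [Module.finrank_tensorProduct, Module.finrank_fin_fun]
    nlinarith
  · obtain ⟨a, ha, b, hb, rfl⟩ := c.sup e
    rw [map_mul (φ g), hθ a ha b hb, hθ _ (hA g trivial a ha) _ (hB g trivial b hb)]
    change TensorProduct.map _ _ * _ = _ * TensorProduct.map _ _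
    rw [← TensorProduct.map_mul, ← TensorProduct.map_mul, p.rt g trivial a ha,
      q.rt g trivial b hb]

theorem good_asai [Finite E] {φ : H →* MulAut E} {A B : Subgroup E} (h : ES E z) (c : CP z A B)
    {S : Subgroup H} (hS : S.index = 2) {s : H} (hs : s ∉ S) (hA : Inv φ S A)
    (hB : ∀ b, b ∈ B ↔ φ s⁻¹ b ∈ A) (gA : Good (res φ hA) ⟨z, c.zA⟩) : Good φ z := by
  classical
  obtain ⟨n, t, r, p, hn⟩ := Good.pg hA c.zA (MonoidHom.id _) (fun _ _ => rfl) gA
  obtain ⟨θ, hz, hθ⟩ := c.exists_rep h t (fun b => t (φ s⁻¹ b)) p.t1 p.tm p.tz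
    (by simp [p.t1]) (fun a ha b hb => by
      rw [map_mul, p.tm _ ((hB a).1 ha) _ ((hB b).1 hb)]) (by rw [h.fix, p.tz])
  have mm := fun a b : H => Subgroup.mul_mem_iff_of_index_two hS (a := a) (b := b)
  have hs' : s⁻¹ ∉ S := fun e => hs (S.inv_mem_iff.1 e)
  have m1 : ∀ g ∈ S, s⁻¹ * g * s ∈ S := fun g hg => by rw [mm, mm]; tauto
  have m2 : ∀ g ∉ S, g * s ∈ S := fun g hg => by rw [mm]; tauto
  have m3 : ∀ g ∉ S, s⁻¹ * g ∈ S := fun g hg => by rw [mm]; tauto
  have rm : ∀ x ∈ S, ∀ y ∈ S, ∀ w, w = x * y → ∀ v, r w v = r x (r y v) := by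
    rintro x hx y hy _ rfl v
    rw [p.rm x hx y hy]; rfl
  have rt : ∀ x ∈ S, ∀ a ∈ A, ∀ v, r x (t a v) = t (φ x a) (r x v) := fun x hx a ha v =>
    LinearMap.congr_fun (p.rt x hx a ha) v
  let F : H → End ℂ ((Fin n → ℂ) ⊗[ℂ] (Fin n → ℂ)) := fun g =>
    if g ∈ S then TensorProduct.map (r g) (r (s⁻¹ * g * s))
    else TensorProduct.map (r (g * s)) (r (s⁻¹ * g)) ∘ₗ (TensorProduct.comm ℂ _ _).toLinearMap
  have F1 : ∀ g ∈ S, ∀ v w, F g (v ⊗ₜ w) = r g v ⊗ₜ r (s⁻¹ * g * s) w := fun g hg v w => by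
    simp [F, hg]
  have F2 : ∀ g ∉ S, ∀ v w, F g (v ⊗ₜ w) = r (g * s) w ⊗ₜ r (s⁻¹ * g) v := fun g hg v w => by
    simp [F, hg]
  let R : Representation ℂ H ((Fin n → ℂ) ⊗[ℂ] (Fin n → ℂ)) :=
    { toFun := F
      map_one' := TensorProduct.ext' fun v w => by
        rw [F1 1 S.one_mem, mul_one, inv_mul_cancel, p.r1]; rfl
      map_mul' := fun x y => TensorProduct.ext' fun v w => by
        rw [Module.End.mul_apply]
        by_cases hx : x ∈ S <;> by_cases hy : y ∈ S
        · rw [F1 _ (S.mul_mem hx hy), F1 y hy, F1 x hx, rm x hx y hy _ rfl,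
            rm _ (m1 x hx) _ (m1 y hy) (s⁻¹ * (x * y) * s) (by group)]
        · rw [F2 _ (by rw [mm]; tauto), F2 y hy, F1 x hx,
            rm x hx _ (m2 y hy) (x * y * s) (by group),
            rm _ (m1 x hx) _ (m3 y hy) (s⁻¹ * (x * y)) (by group)]
        · rw [F2 _ (by rw [mm]; tauto), F1 y hy, F2 x hx,
            rm _ (m2 x hx) _ (m1 y hy) (x * y * s) (by group),
            rm _ (m3 x hx) _ hy (s⁻¹ * (x * y)) (by group)]
        · rw [F1 _ (by rw [mm]; tauto), F2 y hy, F2 x hx,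
            rm _ (m2 x hx) _ (m3 y hy) (x * y) (by group),
            rm _ (m3 x hx) _ (m2 y hy) (s⁻¹ * (x * y) * s) (by group)] }
  refine good_of θ R hz ?_ fun g e => ?_
  · have h1 := c.card h
    have h2 : Nat.card B = Nat.card A :=
      Nat.card_congr (Equiv.subtypeEquiv (φ s⁻¹).toEquiv hB)
    rw [h2, ← hn] at h1
    simp only [Module.finrank_tensorProduct, Module.finrank_fin_fun]
    nlinarith
  · obtain ⟨a, ha, b, hb, rfl⟩ := c.sup e
    have hb' := (hB b).1 hb
    refine TensorProduct.ext' fun v w => ?_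
    rw [Module.End.mul_apply, Module.End.mul_apply, hθ a ha b hb, TensorProduct.map_tmul]
    change F g _ = θ _ (F g _)
    by_cases hg : g ∈ S
    · have e1 : φ s⁻¹ (φ g b) = φ (s⁻¹ * g * s) (φ s⁻¹ b) := by
        rw [← app_mul, ← app_mul, mul_inv_cancel_right]
      rw [map_mul (φ g), hθ _ (hA g hg a ha) _ ((hB _).2 (e1 ▸ hA _ (m1 g hg) _ hb')),
        F1 g hg, F1 g hg, TensorProduct.map_tmul, rt g hg a ha, rt _ (m1 g hg) _ hb', e1]
    · have e1 : φ g b = φ (g * s) (φ s⁻¹ b) := by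
        rw [← app_mul, mul_inv_cancel_right]
      have e2 : φ s⁻¹ (φ g a) = φ (s⁻¹ * g) a := (app_mul _ _ _ _).symm
      rw [c.com a ha b hb, map_mul (φ g), hθ _ (e1 ▸ hA _ (m2 g hg) _ hb') _
        ((hB _).2 (e2 ▸ hA _ (m3 g hg) _ ha)), F2 g hg, F2 g hg, TensorProduct.map_tmul,
        rt _ (m2 g hg) _ hb', rt _ (m3 g hg) a ha, e2, ← e1]

theorem good_ind [Finite E] {φ : H →* MulAut E} {A : Subgroup E} (h : ES E z) (hz : z ∈ A)
    (hA : Inv φ ⊤ A) {n : ℕ} {t : E → End ℂ (Fin n → ℂ)} {r : H → End ℂ (Fin n → ℂ)}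
    (p : PG φ z ⊤ A t r) (hn : 2 * (A.index * n) ^ 2 = Nat.card E) : Good φ z := by
  classical
  have tm : ∀ a ∈ A, ∀ b ∈ A, ∀ v, t (a * b) v = t a (t b v) := fun a ha b hb v => by
    rw [p.tm a ha b hb]; rfl
  let V : Submodule ℂ (E → Fin n → ℂ) :=
    { carrier := {f | ∀ x, ∀ e ∈ A, f x = t e (f (x * e))}
      add_mem' := fun {f g} hf hg x e he => by
        rw [Pi.add_apply, Pi.add_apply, map_add, ← hf x e he, ← hg x e he]
      zero_mem' := fun x e _ => by simp
      smul_mem' := fun c f hf x e he => by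
        rw [Pi.smul_apply, Pi.smul_apply, map_smul, ← hf x e he] }
  let θ : Representation ℂ E V :=
    { toFun := fun g =>
        { toFun := fun f => ⟨fun x => f.1 (g⁻¹ * x), fun x e he => by
            have := f.2 (g⁻¹ * x) e he
            rwa [mul_assoc] at this⟩
          map_add' := fun _ _ => rfl
          map_smul' := fun _ _ => rfl }
      map_one' := LinearMap.ext fun f => Subtype.ext (funext fun x => by simp)
      map_mul' := fun a b => LinearMap.ext fun f => Subtype.ext (funext fun x => by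
        simp [mul_assoc]) }
  let R : Representation ℂ H V :=
    { toFun := fun g =>
        { toFun := fun f => ⟨fun x => r g (f.1 (φ g⁻¹ x)), fun x e he => by
            have h1 := f.2 (φ g⁻¹ x) _ (hA g⁻¹ trivial e he)
            have h2 := LinearMap.congr_fun (p.rt g trivial _ (hA g⁻¹ trivial e he))
              (f.1 (φ g⁻¹ (x * e)))
            rw [app_inv'] at h2
            change r g (f.1 (φ g⁻¹ x)) = t e (r g (f.1 (φ g⁻¹ (x * e))))
            rw [h1, ← map_mul]
            exact h2⟩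
          map_add' := fun f f' => Subtype.ext (funext fun x => map_add (r g) _ _)
          map_smul' := fun c f => Subtype.ext (funext fun x => map_smul (r g) _ _) }
      map_one' := LinearMap.ext fun f => Subtype.ext (funext fun x => by simp [p.r1])
      map_mul' := fun a b => LinearMap.ext fun f => Subtype.ext (funext fun x => by
        change r (a * b) (f.1 (φ (a * b)⁻¹ x)) = r a (r b (f.1 (φ b⁻¹ (φ a⁻¹ x))))
        rw [p.rm a trivial b trivial, mul_inv_rev, app_mul]; rfl) }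
  have := Fintype.ofFinite (E ⧸ A)
  let L : V →ₗ[ℂ] (E ⧸ A → Fin n → ℂ) :=
    { toFun := fun f q => f.1 q.out
      map_add' := fun _ _ => rfl
      map_smul' := fun _ _ => rfl }
  have ho : ∀ x : E, x⁻¹ * (x : E ⧸ A).out ∈ A := fun x => by
    obtain ⟨a, ha⟩ := QuotientGroup.mk_out_eq_mul A x
    rw [ha, inv_mul_cancel_left]; exact a.2
  have hL : Function.Bijective L := by
    refine ⟨(injective_iff_map_eq_zero L).2 fun f hf => Subtype.ext (funext fun x => ?_),
      fun g => ⟨⟨fun x => t (x⁻¹ * (x : E ⧸ A).out) (g x), fun x e he => ?_⟩, funext fun q => ?_⟩⟩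
    · have h1 := f.2 x _ (ho x)
      have h2 : f.1 (x : E ⧸ A).out = 0 := congrFun hf x
      rw [mul_inv_cancel_left, h2, map_zero] at h1
      exact h1
    · have e1 : ((x * e : E) : E ⧸ A) = x := by
        rw [QuotientGroup.eq, mul_inv_rev, mul_assoc, inv_mul_cancel, mul_one]
        exact A.inv_mem he
      have h1 := ho (x * e)
      change t _ _ = t e (t _ _)
      rw [← tm e he _ h1, e1, mul_inv_rev, mul_assoc, mul_inv_cancel_left]
    · change t _ _ = g q
      rw [QuotientGroup.out_eq', inv_mul_cancel, p.t1]; rfl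
  refine good_of θ R ?_ ?_ fun g e => ?_
  · refine LinearMap.ext fun f => Subtype.ext (funext fun x => ?_)
    have h1 := f.2 x z hz
    change f.1 (z⁻¹ * x) = - f.1 x
    rw [h1, p.tz, h.inv, h.cen]; simp
  · rw [(LinearEquiv.ofBijective L hL).finrank_eq, Module.finrank_pi_fintype, ← hn]
    simp [Subgroup.index, Nat.card_eq_fintype_card]
  · refine LinearMap.ext fun f => Subtype.ext (funext fun x => ?_)
    change r g (f.1 (e⁻¹ * φ g⁻¹ x)) = r g (f.1 (φ g⁻¹ ((φ g e)⁻¹ * x)))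
    rw [map_mul, map_inv (φ g⁻¹), app_inv]

end H12.Dx
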