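/-
Extraspecial 2-groups with operators: group theoretic lemmas.
-/
import Cfsg.Agent.H12.Dx2
import Cfsg.Agent.H7.PGrp

set_option autoImplicit false
set_option linter.unusedSectionVars false
open H17 Cfsg Module Subgroup
open scoped commutatorElement

namespace H12.Dx

variable {E H : Type*} [Group E] [Group H] {z : E}

theorem ES.comm_mem (h : ES E z) (a b : E) : ⁅a, b⁆ ∈ zpowers z := by
  rw [h.mem_zp, commutatorElement_def]
  rcases h.com a b with e | e
  · left; rw [e]; group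
  · right; rw [e, ← h.cen]; group

theorem ES.card_cent [Finite E] (h : ES E z) {A : Subgroup E} (hz : z ∈ A) :
    Nat.card (centralizer (A : Set E)) * Nat.card A = 2 * Nat.card E := by
  have hc : ∀ B : Subgroup E, B ≤ centralizer (zpowers z : Set E) := fun B b _ x hx => by
    rcases h.mem_zp.1 hx with rfl | rfl
    · simp
    · exact h.cen b
  have h1 := H7.relIndex_centralizer_symm ⊤ A (zpowers z)
    (commutator_le.2 fun a _ b _ => h.comm_mem a b) (hc _) (hc _)
  have h2 : centralizer ((⊤ : Subgroup E) : Set E) = zpowers z := by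
    ext x
    rw [h.mem_zp, mem_centralizer_iff]
    refine ⟨fun hx => h.ctr x fun b => (hx b trivial).symm, ?_⟩
    rintro (rfl | rfl) b -
    · simp
    · exact (h.cen b).symm
  rw [h2, relIndex_top_right] at h1
  have h3 := H7.card_mul_relIndex (zpowers_le.2 hz)
  have h4 := (centralizer (A : Set E)).card_mul_index
  rw [h.card_zp] at h3
  rw [← h4, ← h3, h1]; ring

theorem ES.z_cent (h : ES E z) (A : Subgroup E) : z ∈ centralizer (A : Set E) :=
  fun a _ => (h.cen a).symm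

theorem ES.cent_cent [Finite E] (h : ES E z) {A : Subgroup E} (hz : z ∈ A) :
    centralizer (centralizer (A : Set E) : Set E) = A := by
  have h1 := h.card_cent hz
  have h2 := h.card_cent (h.z_cent A)
  rw [← h1, mul_comm] at h2
  exact (eq_of_le_of_card_ge (le_centralizer_iff.1 le_rfl)
    (Nat.eq_of_mul_eq_mul_left Nat.card_pos h2).le).symm

theorem Inv.cent {φ : H →* MulAut E} {S : Subgroup H} {A : Subgroup E} (hA : Inv φ S A) :
    Inv φ S (centralizer (A : Set E)) := fun g hg x hx a ha => by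
  have := hx _ (hA _ (S.inv_mem hg) a ha)
  rw [← app_inv' φ g a, ← map_mul, ← map_mul, this]

theorem ES.cp [Finite E] (h : ES E z) {A : Subgroup E} (hz : z ∈ A)
    (hc : ∀ a ∈ A, a ∈ centralizer (A : Set E) → a = 1 ∨ a = z) :
    CP z A (centralizer (A : Set E)) := by
  refine ⟨hz, h.z_cent A, fun a ha b hb => hb a ha, fun e => ?_⟩
  have := h.normal (h.z_cent A)
  have h1 := H7.card_sup_mul_card_inf A (centralizer (A : Set E))
  have h3 : A ⊓ centralizer (A : Set E) = zpowers z := le_antisymm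
    (fun x hx => h.mem_zp.2 (hc x hx.1 hx.2)) (zpowers_le.2 ⟨hz, h.z_cent A⟩)
  rw [h3, h.card_zp, mul_comm (Nat.card A), h.card_cent hz, mul_comm] at h1
  have h4 : A ⊔ centralizer (A : Set E) = ⊤ :=
    eq_top_of_card_eq _ (Nat.eq_of_mul_eq_mul_left two_pos h1)
  obtain ⟨a, ha, b, hb, e'⟩ := mem_sup_of_normal_right.1 (h4 ▸ mem_top e)
  exact ⟨a, ha, b, hb, e'.symm⟩

/-- action on a quotient -/
def quo {Y : Type*} [Group Y] (ψ : H →* MulAut Y) (N : Subgroup Y) [N.Normal]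
    (hN : ∀ h, ∀ n ∈ N, ψ h n ∈ N) : H →* MulAut (Y ⧸ N) where
  toFun h :=
    { toFun := QuotientGroup.map N N (ψ h).toMonoidHom (hN h)
      invFun := QuotientGroup.map N N (ψ h⁻¹).toMonoidHom (hN h⁻¹)
      left_inv := fun q => QuotientGroup.induction_on q fun y =>
        congrArg QuotientGroup.mk (app_inv ψ h y)
      right_inv := fun q => QuotientGroup.induction_on q fun y =>
        congrArg QuotientGroup.mk (app_inv' ψ h y)
      map_mul' := map_mul _ }
  map_one' := MulEquiv.ext fun q => QuotientGroup.induction_on q fun y =>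
    congrArg QuotientGroup.mk (by simp)
  map_mul' h k := MulEquiv.ext fun q => QuotientGroup.induction_on q fun y =>
    congrArg QuotientGroup.mk (app_mul ψ h k y)

theorem quo_mk {Y : Type*} [Group Y] (ψ : H →* MulAut Y) (N : Subgroup Y) [N.Normal]
    (hN : ∀ h, ∀ n ∈ N, ψ h n ∈ N) (h : H) (y : Y) : quo ψ N hN h (y : Y ⧸ N) = (ψ h y : Y) := rfl

theorem ES.zinv (h : ES E z) (φ : H →* MulAut E) : ∀ g, ∀ n ∈ zpowers z, φ g n ∈ zpowers z :=
  fun g n hn => by
    rcases h.mem_zp.1 hn with rfl | rfl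
    · simp
    · rw [h.fix]; exact mem_zpowers _

theorem ES.odd_fix (h : ES E z) (φ : H →* MulAut E) {x : H} {m : ℕ} (hm : Odd m) (hx : x ^ m = 1)
    {e : E} (he : e⁻¹ * φ x e ∈ zpowers z) : φ x e = e := by
  rcases h.mem_zp.1 he with e1 | e1
  · exact (inv_mul_eq_one.1 e1).symm
  · rw [inv_mul_eq_iff_eq_mul] at e1
    have e2 : φ (x ^ 2) e = e := by
      rw [pow_two, app_mul, e1, map_mul, e1, h.fix, mul_assoc, h.zz, mul_one]
    obtain ⟨k, rfl⟩ := hm
    have e3 : ∀ j : ℕ, φ ((x ^ 2) ^ j) e = e := fun j => by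
      induction j with
      | zero => simp
      | succ j ih => rw [pow_succ, app_mul, e2, ih]
    have e4 : x = (x ^ 2) ^ (k + 1) := by
      rw [← pow_mul, show 2 * (k + 1) = (2 * k + 1) + 1 by ring, pow_succ, hx, one_mul]
    rw [e4, e3]

/-- the commutative group structure on `E / ⟨z⟩` -/
abbrev ES.cg (h : ES E z) [(zpowers z).Normal] : CommGroup (E ⧸ zpowers z) :=
  { (inferInstance : Group (E ⧸ zpowers z)) with
    mul_comm := fun a b => QuotientGroup.induction_on a fun a => QuotientGroup.induction_on b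
      fun b => by
        rw [← QuotientGroup.mk_mul, ← QuotientGroup.mk_mul, QuotientGroup.eq]
        have := h.comm_mem b⁻¹ a⁻¹
        rw [commutatorElement_def, inv_inv, inv_inv] at this
        rw [mul_inv_rev, ← mul_assoc]; exact this }

theorem ES.q_sq (h : ES E z) [(zpowers z).Normal] (q : E ⧸ zpowers z) : q * q = 1 :=
  QuotientGroup.induction_on q fun a => by
    rw [← QuotientGroup.mk_mul, QuotientGroup.eq_one_iff, h.mem_zp]; exact h.sq a

theorem ES.q_pow (h : ES E z) [(zpowers z).Normal] (q : E ⧸ zpowers z) {m : ℕ} (hm : Odd m) :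
    q ^ m = q := by
  obtain ⟨k, rfl⟩ := hm
  rw [pow_succ, pow_mul, pow_two, h.q_sq, one_pow, one_mul]

theorem ES.avg [Finite H] (h : ES E z) (φ : H →* MulAut E) {L : Subgroup H}
    (hL : Odd (Nat.card L)) {Y : Subgroup E} (hz : z ∈ Y) {v : E}
    (hv : ∀ x ∈ L, v⁻¹ * φ x v ∈ Y) : ∃ y ∈ Y, ∀ x ∈ L, φ x (v * y) = v * y := by
  have := h.normal (mem_zpowers z)
  letI := h.cg
  have := Fintype.ofFinite L
  let π := QuotientGroup.mk' (zpowers z)
  let w : E ⧸ zpowers z := ∏ x : L, π (φ x v)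
  have h1 : ∏ x : L, ((π v)⁻¹ * π (φ x v)) ∈ Y.map π :=
    Subgroup.prod_mem _ fun x _ => ⟨_, hv x x.2, by rw [map_mul, map_inv]⟩
  rw [Finset.prod_mul_distrib, Finset.prod_const, Finset.card_univ, ← Nat.card_eq_fintype_card,
    h.q_pow _ hL] at h1
  obtain ⟨y, hy, e⟩ := h1
  have e1 : π (v * y) = w := by rw [map_mul, e, mul_inv_cancel_left]
  refine ⟨y, hy, fun g hg => h.odd_fix φ hL (x := g) ?_ ?_⟩
  · exact congrArg Subtype.val (pow_card_eq_one' (x := (⟨g, hg⟩ : L)))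
  · rw [← QuotientGroup.eq]
    change π (v * y) = quo φ _ (h.zinv φ) g (π (v * y))
    rw [e1, map_prod]
    refine (Fintype.prod_equiv (Equiv.mulLeft (⟨g, hg⟩ : L)) _ _ fun x => ?_).symm
    change π (φ g (φ x v)) = π (φ (g * x) v)
    rw [app_mul]

/-- only the centre is fixed -/
def Fpf (φ : H →* MulAut E) (K : Subgroup H) (z : E) : Prop :=
  ∀ e, (∀ k ∈ K, φ k e = e) → e = 1 ∨ e = z

theorem Fpf.strong [Finite H] {φ : H →* MulAut E} {K : Subgroup H} (hf : Fpf φ K z) (h : ES E z)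
    (hK : Odd (Nat.card K)) {Y : Subgroup E} (hz : z ∈ Y) {v : E}
    (hv : ∀ x ∈ K, v⁻¹ * φ x v ∈ Y) : v ∈ Y := by
  obtain ⟨y, hy, e⟩ := h.avg φ hK hz hv
  have : v * y ∈ Y := by
    rcases hf _ e with e | e <;> rw [e]
    · exact Y.one_mem
    · exact hz
  exact (Y.mul_mem_cancel_right hy).1 this

theorem Fpf.res {φ : H →* MulAut E} {K S : Subgroup H} (hf : Fpf φ K z) (hK : K ≤ S)
    {A : Subgroup E} (hA : Inv φ S A) (hz : z ∈ A) : Fpf (res φ hA) (K.subgroupOf S) ⟨z, hz⟩ :=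
  fun e he => (hf e fun k hk => congrArg Subtype.val (he ⟨k, hK hk⟩ hk)).imp Subtype.ext Subtype.ext

theorem ES.exists_compl [Finite H] (h : ES E z) {φ : H →* MulAut E} {K : Subgroup H} [K.Normal]
    (hK : Odd (Nat.card K)) (hf : Fpf φ K z) {A : Subgroup E} (hz : z ∈ A) (hA : Inv φ ⊤ A)
    (hc : ∀ a ∈ A, ∀ b ∈ A, a * b = b * a) :
    ∃ U : Subgroup E, U ≤ A ∧ z ∉ U ∧ Inv φ ⊤ U ∧ ∀ a ∈ A, a ∈ U ∨ a * z ∈ U := by
  letI : CommGroup A := { (inferInstance : Group A) with
    mul_comm := fun a b => Subtype.ext (hc a a.2 b b.2) }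
  have := Fintype.ofFinite K
  let ψ : H →* MulAut A := (res φ hA).comp (Subgroup.topEquiv.symm.toMonoidHom)
  have hψ : ∀ g (a : A), (ψ g a : E) = φ g a := fun _ _ => rfl
  let ν : A →* A :=
    { toFun := fun a => ∏ k : K, ψ k a
      map_one' := by simp
      map_mul' := fun a b => by simp only [map_mul, Finset.prod_mul_distrib] }
  have hν : ∀ g a, ν (ψ g a) = ψ g (ν a) := fun g a => by
    change ∏ k : K, ψ k (ψ g a) = ψ g (∏ k : K, ψ k a)
    rw [map_prod]
    refine (Fintype.prod_equiv (MulAut.conjNormal g : MulAut K).toEquiv _ _ fun k => ?_).symm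
    change ψ g (ψ k a) = ψ (g * k * g⁻¹) (ψ g a)
    rw [← app_mul, ← app_mul, inv_mul_cancel_right]
  have h1 : ∀ a, ν a = 1 ∨ ν a = ⟨z, hz⟩ := fun a => by
    refine (hf (ν a) fun g hg => ?_).imp Subtype.ext Subtype.ext
    rw [← hψ]
    congr 1
    change ψ g (∏ k : K, ψ k a) = ∏ k : K, ψ k a
    rw [map_prod]
    refine Fintype.prod_equiv (Equiv.mulLeft (⟨g, hg⟩ : K)) _ _ fun x => ?_
    change ψ g (ψ x a) = ψ (g * x) a
    rw [app_mul]
  have zz : (⟨z, hz⟩ : A) * ⟨z, hz⟩ = 1 := Subtype.ext h.zz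
  have h2 : ν ⟨z, hz⟩ = ⟨z, hz⟩ := by
    change ∏ k : K, ψ k ⟨z, hz⟩ = _
    rw [Finset.prod_congr rfl (g := fun _ => (⟨z, hz⟩ : A)) fun k _ => Subtype.ext (h.fix _),
      Finset.prod_const, Finset.card_univ, ← Nat.card_eq_fintype_card]
    obtain ⟨k, hk⟩ := hK
    rw [hk, pow_succ, pow_mul, pow_two, zz, one_pow, one_mul]
  refine ⟨ν.ker.map A.subtype, map_subtype_le _, ?_, ?_, fun a ha => ?_⟩
  · rintro ⟨a, ha, e⟩
    have : a = ⟨z, hz⟩ := Subtype.ext e
    rw [this, SetLike.mem_coe, MonoidHom.mem_ker, h2] at ha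
    exact h.z1 (congrArg Subtype.val ha)
  · rintro g - _ ⟨a, ha, rfl⟩
    refine ⟨ψ g a, ?_, rfl⟩
    rw [SetLike.mem_coe, MonoidHom.mem_ker] at ha ⊢
    rw [hν, ha, map_one]
  · rcases h1 ⟨a, ha⟩ with e | e
    · exact Or.inl ⟨⟨a, ha⟩, e, rfl⟩
    · refine Or.inr ⟨⟨a, ha⟩ * ⟨z, hz⟩, ?_, rfl⟩
      rw [SetLike.mem_coe, MonoidHom.mem_ker, map_mul, e, h2, zz]

theorem ES.exists_fix [Finite E] (h : ES E z) (φ : H →* MulAut E) {q : ℕ} (hq : q.Prime)
    (hq2 : Odd q) {x y : H} (hxy : x * y = y * x) (hx : x ^ q = 1) (hy : y ^ q = 1) (hy1 : y ≠ 1)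
    (hn : x ∉ zpowers y) (hE : ∃ e : E, e ≠ 1 ∧ e ≠ z) :
    ∃ g ∈ closure ({x, y} : Set H), g ≠ 1 ∧ ∃ e : E, e ≠ 1 ∧ e ≠ z ∧ φ g e = e := by
  by_contra hcon
  push Not at hcon
  have := h.normal (mem_zpowers z)
  letI := h.cg
  let F := quo φ _ (h.zinv φ)
  have c : Commute x y := hxy
  have hN : ∀ g ∈ closure ({x, y} : Set H), g ≠ 1 → g ^ q = 1 → ∀ v,
      ∏ i ∈ Finset.range q, F (g ^ i) v = 1 := fun g hg h1 h2 v => by
    have e1 := Finset.prod_range_succ (fun i => F (g ^ i) v) q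
    have e2 := Finset.prod_range_succ' (fun i => F (g ^ i) v) q
    rw [e1, h2, pow_zero] at e2
    have e3 : F g (∏ i ∈ Finset.range q, F (g ^ i) v) = ∏ i ∈ Finset.range q, F (g ^ i) v := by
      rw [map_prod, mul_right_cancel e2]
      exact Finset.prod_congr rfl fun i _ => by rw [← app_mul, pow_succ']
    generalize (∏ i ∈ Finset.range q, F (g ^ i) v) = w at e3
    obtain ⟨e, rfl⟩ := QuotientGroup.mk_surjective w
    have e4 := h.odd_fix φ hq2 h2 (QuotientGroup.eq.1 e3.symm)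
    rw [QuotientGroup.eq_one_iff, h.mem_zp]
    by_contra e5
    push Not at e5
    exact hcon g hg h1 e e5.1 e5.2 e4
  have mx : x ∈ closure ({x, y} : Set H) := subset_closure (by simp)
  have my : y ∈ closure ({x, y} : Set H) := subset_closure (by simp)
  obtain ⟨e, he1, he2⟩ := hE
  let v : E ⧸ zpowers z := e
  have h1 : ∏ j ∈ Finset.range q, ∏ i ∈ Finset.range q, F ((x * y ^ j) ^ i) v = 1 :=
    Finset.prod_eq_one fun j _ => hN _ (mul_mem mx (pow_mem my _)) (fun e => hn (by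
      rw [eq_inv_of_mul_eq_one_left e]; exact inv_mem (pow_mem (mem_zpowers y) _))) (by
      rw [(c.pow_right j).mul_pow, hx, ← pow_mul, mul_comm j, pow_mul, hy, one_pow, mul_one]) v
  rw [Finset.prod_comm, Finset.prod_eq_single_of_mem 0 (Finset.mem_range.2 hq.pos)] at h1
  · simp only [pow_zero, map_one, MulAut.one_apply, Finset.prod_const, Finset.card_range] at h1
    rw [h.q_pow _ hq2, QuotientGroup.eq_one_iff, h.mem_zp] at h1
    exact h1.elim he1 he2
  · intro i hi hi0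
    have hy' : y ^ i ≠ 1 := fun e => by
      have : Fact q.Prime := ⟨hq⟩
      have := orderOf_dvd_of_pow_eq_one e
      rw [orderOf_eq_prime hy hy1] at this
      exact absurd (Nat.le_of_dvd (Nat.pos_of_ne_zero hi0) this) (by simpa using hi)
    rw [← hN (y ^ i) (pow_mem my _) hy' (by rw [← pow_mul, mul_comm, pow_mul, hy, one_pow])
      (F (x ^ i) v)]
    refine Finset.prod_congr rfl fun j _ => ?_
    rw [← app_mul, (c.pow_right j).mul_pow, ← pow_mul, ← pow_mul, mul_comm j i,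
      ((c.pow_pow i (i * j))).eq]

end H12.Dx
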