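/-
Dade's extension theorem for extraspecial 2-groups.
-/
import Cfsg.Agent.H12.Dx3
import Cfsg.Agent.H1.Solvable
import Cfsg.Agent.H9.Basic
import Cfsg.Agent.S0205
import Mathlib.RingTheory.ZMod.UnitsCyclic

set_option autoImplicit false
set_option linter.unusedSectionVars false
open H17 Cfsg Module Subgroup

namespace H12.Dx

universe u

/-- the statement for one configuration -/
def St (E H : Type u) [Group E] [Group H] : Prop :=
  ∀ (φ : H →* MulAut E) (z : E) (K : Subgroup H), ES E z → K.Normal → Odd (Nat.card K) →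
    Fpf φ K z → Good φ z

/-- the induction hypothesis -/
def IH (E H : Type u) : Prop :=
  ∀ (E' H' : Type u) [Group E'] [Group H'] [Finite E'] [Finite H'],
    Nat.card E' + Nat.card H' < Nat.card E + Nat.card H → St E' H'

variable {E H : Type u} [Group E] [Group H] [Finite E] [Finite H] {z : E} {φ : H →* MulAut E}
  {K : Subgroup H}

theorem card_lt_of_ne_top {G : Type*} [Group G] [Finite G] {A : Subgroup G} (h : A ≠ ⊤) :
    Nat.card A < Nat.card G :=
  lt_of_le_of_ne (card_le_card_group A) fun e => h (eq_top_of_card_eq A e)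

theorem odd_sub {S : Subgroup H} (hK : Odd (Nat.card K)) (h : K ≤ S) :
    Odd (Nat.card (K.subgroupOf S)) := by
  rwa [Nat.card_congr (subgroupOfEquivOfLe h).toEquiv]

theorem IH.res (ih : IH E H) [hn : K.Normal] (hK : Odd (Nat.card K)) (hf : Fpf φ K z)
    {S : Subgroup H} {A : Subgroup E} (hS : K ≤ S) (hA : Inv φ S A) (hz : z ∈ A)
    (hes : ES A ⟨z, hz⟩) (hne : A ≠ ⊤ ∨ S ≠ ⊤) : Good (res φ hA) ⟨z, hz⟩ := by
  refine ih A S ?_ _ _ (K.subgroupOf S) hes (hn.subgroupOf S) (odd_sub hK hS) (hf.res hS hA hz)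
  have h1 := card_le_card_group A
  have h2 := card_le_card_group S
  rcases hne with e | e
  · have := card_lt_of_ne_top e; omega
  · have := card_lt_of_ne_top e; omega

theorem IH.abelian (ih : IH E H) (h : ES E z) [hn : K.Normal] (hK : Odd (Nat.card K))
    (hf : Fpf φ K z) {A : Subgroup E} (hz : z ∈ A) (hA : Inv φ ⊤ A)
    (hc : ∀ a ∈ A, ∀ b ∈ A, a * b = b * a) {a₀ : E} (ha₀ : a₀ ∈ A) (h1 : a₀ ≠ 1) (h2 : a₀ ≠ z) :
    Good φ z := by
  obtain ⟨U, hUA, hzU, hU, hUz⟩ := h.exists_compl hK hf hz hA hc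
  set C := centralizer (A : Set E) with hC
  have hAC : A ≤ C := fun a ha b hb => hc b hb a ha
  have hzC : z ∈ C := hAC hz
  have hCi : Inv φ ⊤ C := hA.cent
  have hN : (U.subgroupOf C).Normal := ⟨fun n hn g => by
    have : (g : E) * n * (g : E)⁻¹ = n := by
      rw [← g.2 n (hUA hn), mul_inv_cancel_right]
    change (g : E) * n * (g : E)⁻¹ ∈ U
    rw [this]; exact hn⟩
  let ψ := quo (Dx.res φ hCi) (U.subgroupOf C) fun g n hn => hU g trivial n hn
  let π := QuotientGroup.mk' (U.subgroupOf C)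
  have hπA : ∀ e : C, (e : E) ∈ A → π e = 1 ∨ π e = π ⟨z, hzC⟩ := fun e he => by
    rcases hUz e he with e1 | e1
    · exact Or.inl ((QuotientGroup.eq_one_iff _).2 e1)
    · refine Or.inr (QuotientGroup.eq.2 ?_)
      have := U.inv_mem e1
      rw [mul_inv_rev, h.inv, h.cen] at this
      exact this
  have hes : ES (C ⧸ U.subgroupOf C) (π ⟨z, hzC⟩) := by
    refine ⟨fun e => hzU ((QuotientGroup.eq_one_iff (N := U.subgroupOf C) ⟨z, hzC⟩).1 e), ?_,
      fun e => ?_, fun a b => ?_, fun a => ?_, fun a ha => ?_⟩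
    · rw [← map_mul, ← map_one π]; exact congrArg π (Subtype.ext h.zz)
    · obtain ⟨e, rfl⟩ := QuotientGroup.mk'_surjective _ e
      rw [← map_mul, ← map_mul]; exact congrArg π (Subtype.ext (h.cen e))
    · obtain ⟨a, rfl⟩ := QuotientGroup.mk'_surjective _ a
      obtain ⟨b, rfl⟩ := QuotientGroup.mk'_surjective _ b
      rw [← map_mul, ← map_mul, ← map_mul]
      exact (h.com a b).imp (fun e => congrArg π (Subtype.ext e)) fun e => congrArg π (Subtype.ext e)
    · obtain ⟨a, rfl⟩ := QuotientGroup.mk'_surjective _ a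
      rw [← map_mul, ← map_one π]
      exact (h.sq a).imp (fun e => congrArg π (Subtype.ext e)) fun e => congrArg π (Subtype.ext e)
    · obtain ⟨a, rfl⟩ := QuotientGroup.mk'_surjective _ a
      refine hπA a ?_
      rw [← h.cent_cent hz]
      intro b hb
      rcases h.com b a with e | e
      · exact e
      · have e1 := ha (π ⟨b, hb⟩)
        rw [← map_mul, ← map_mul] at e1
        have e2 : ((a : E) * b)⁻¹ * (b * a) ∈ U :=
          (QuotientGroup.eq (s := U.subgroupOf C)).1 e1
        rw [e, inv_mul_cancel_left] at e2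
        exact absurd e2 hzU
  have hfp : Fpf ψ (K.subgroupOf ⊤) (π ⟨z, hzC⟩) := fun x hx => by
    obtain ⟨x, rfl⟩ := QuotientGroup.mk'_surjective _ x
    refine hπA x (hf.strong h hK hz fun k hk => hUA ?_)
    exact (QuotientGroup.eq (s := U.subgroupOf C)).1 (hx ⟨k, trivial⟩ hk).symm
  have c1 : Nat.card A = 2 * Nat.card U := by
    have := h.normal (mem_zpowers z)
    have e1 := H7.card_sup_mul_card_inf U (zpowers z)
    have e2 : U ⊔ zpowers z = A := le_antisymm (sup_le hUA (zpowers_le.2 hz)) fun a ha => by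
      rcases hUz a ha with e | e
      · exact mem_sup_left e
      · have := mul_mem_sup e (mem_zpowers z)
        rwa [mul_assoc, h.zz, mul_one] at this
    have e3 : U ⊓ zpowers z = ⊥ := eq_bot_iff.2 fun x hx => by
      rcases h.mem_zp.1 hx.2 with e | e
      · exact e
      · exact absurd (e ▸ hx.1) hzU
    rw [e2, e3, h.card_zp, card_bot, mul_one] at e1
    rw [e1, mul_comm]
  have c2 : Nat.card (C ⧸ U.subgroupOf C) * Nat.card U = Nat.card C := by
    rw [card_eq_card_quotient_mul_card_subgroup (U.subgroupOf C),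
      Nat.card_congr (subgroupOfEquivOfLe (hUA.trans hAC)).toEquiv]
  have c3 := h.card_cent hz
  have c4 := C.card_mul_index
  have c5 : C ≠ ⊤ := fun e => (h.ctr a₀ fun b => (e ▸ mem_top b : b ∈ C) a₀ ha₀).elim h1 h2
  have c6 : C.index = Nat.card U := by
    rw [← hC, ← c4, c1] at c3
    have : Nat.card C * C.index = Nat.card C * Nat.card U := by linarith
    exact Nat.eq_of_mul_eq_mul_left Nat.card_pos this
  have hg : Good ψ (π ⟨z, hzC⟩) := by
    refine ih _ _ ?_ _ _ _ hes (hn.subgroupOf ⊤) (odd_sub hK le_top) hfp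
    have := card_lt_of_ne_top c5
    have := Nat.card_le_card_of_surjective π (QuotientGroup.mk'_surjective _)
    rw [card_top]; omega
  obtain ⟨n, t, r, p, hn⟩ := Good.pg hCi hzC π (fun _ _ => rfl) hg
  refine good_ind h hzC hCi p ?_
  rw [← c4, ← c2, ← hn, c6]; ring

/-- no proper invariant subgroups -/
def Irr (φ : H →* MulAut E) (z : E) : Prop :=
  ∀ A : Subgroup E, z ∈ A → Inv φ ⊤ A → A = ⊤ ∨ ∀ a ∈ A, a = 1 ∨ a = z

theorem IH.of_not_irr (ih : IH E H) (h : ES E z) [hn : K.Normal] (hK : Odd (Nat.card K))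
    (hf : Fpf φ K z) (hi : ¬ Irr φ z) : Good φ z := by
  unfold Irr at hi
  push Not at hi
  obtain ⟨A, hz, hA, h1, a, ha, h2, h3⟩ := hi
  by_cases hc : ∀ a ∈ A, a ∈ centralizer (A : Set E) → a = 1 ∨ a = z
  · have c := h.cp hz hc
    refine good_cp h c hA hA.cent (ih.res hK hf le_top hA hz (c.es h) (Or.inl h1))
      (ih.res hK hf le_top hA.cent c.zB (c.symm.es h) (Or.inl fun e => ?_))
    exact (h.ctr a fun b => (e ▸ mem_top b : b ∈ centralizer (A : Set E)) a ha).elim h2 h3
  · push Not at hc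
    obtain ⟨b, hb, hb', b1, b2⟩ := hc
    exact ih.abelian h hK hf (A := A ⊓ centralizer (A : Set E)) ⟨hz, h.z_cent A⟩
      (fun g hg x hx => ⟨hA g hg x hx.1, hA.cent g hg x hx.2⟩)
      (fun x hx y hy => hy.2 x hx.1) ⟨hb, hb'⟩ b1 b2

/-- fixed points -/
def Fx (φ : H →* MulAut E) (L : Subgroup H) : Subgroup E where
  carrier := {e | ∀ x ∈ L, φ x e = e}
  one_mem' := fun x _ => map_one _
  mul_mem' := fun ha hb x hx => by rw [map_mul, ha x hx, hb x hx]
  inv_mem' := fun ha x hx => by rw [map_inv, ha x hx]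

/-- stabilizer -/
def Sb (φ : H →* MulAut E) (e : E) : Subgroup H where
  carrier := {x | φ x e = e}
  one_mem' := by simp
  mul_mem' := fun {a b} ha hb => by
    change φ (a * b) e = e
    rw [app_mul, hb, ha]
  inv_mem' := fun {a} ha => by
    change φ a⁻¹ e = e
    conv_lhs => rw [← ha]
    exact app_inv _ _ _

theorem Irr.fpf (hi : Irr φ z) (h : ES E z) (hφ : Function.Injective φ) {L : Subgroup H}
    [hL : L.Normal] (h0 : L ≠ ⊥) : Fpf φ L z := by
  rcases hi (Fx φ L) (fun x _ => h.fix _) (fun g _ e he x hx => by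
    have := he _ (hL.conj_mem x hx g⁻¹)
    rw [← app_mul, show x * g = g * (g⁻¹ * x * g⁻¹⁻¹) by group, app_mul, this]) with e | e
  · refine absurd (eq_bot_iff.2 fun x hx => hφ ?_) h0
    rw [map_one]
    exact MulEquiv.ext fun a => (e ▸ mem_top a : a ∈ Fx φ L) x hx
  · exact e

theorem Irr.two_bot (hi : Irr φ z) (h : ES E z) (hφ : Function.Injective φ)
    (hK : Odd (Nat.card K)) (hf : Fpf φ K z) (hE : ∃ e : E, e ≠ 1 ∧ e ≠ z) {D : Subgroup H}
    [hD : D.Normal] (h2 : IsPGroup 2 D) (hc : ∀ d ∈ D, ∀ k ∈ K, d * k = k * d) : D = ⊥ := by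
  have := h.normal (mem_zpowers z)
  let F := quo φ _ (h.zinv φ)
  let π := QuotientGroup.mk' (zpowers z)
  have hπ : ∀ g e, π (φ g e) = F g (π e) := fun _ _ => rfl
  rcases hi ((Fx F D).comap π) (fun x _ => by rw [← hπ, h.fix]) (fun g _ e he x hx => by
    have := he _ (hD.conj_mem x hx g⁻¹)
    rw [hπ, ← app_mul, show x * g = g * (g⁻¹ * x * g⁻¹⁻¹) by group, app_mul, this]) with e | e
  · refine eq_bot_iff.2 fun d hd => hφ ?_
    rw [map_one]
    refine MulEquiv.ext fun v => ?_
    have key : ∀ w, φ d w = w ∨ φ d w = w * z := fun w => by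
      have := (e ▸ mem_top w : w ∈ (Fx F D).comap π) d hd
      rw [← hπ] at this
      rcases h.mem_zp.1 (QuotientGroup.eq.1 this.symm) with e1 | e1
      · exact Or.inl (inv_mul_eq_one.1 e1).symm
      · exact Or.inr (inv_mul_eq_iff_eq_mul.1 e1)
    have : v ∈ Fx φ (zpowers d) := hf.strong h hK (Y := Fx φ (zpowers d))
        (fun x _ => h.fix _) fun k hk x hx => by
      refine (zpowers_le.2 ?_ : zpowers d ≤ Sb φ _) hx
      change φ d _ = _
      rw [map_mul, map_inv, ← app_mul, hc d hd k hk, app_mul]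
      rcases key v with e1 | e1 <;> rw [e1]
      rw [map_mul, h.fix, mul_inv_rev, h.inv, mul_assoc, ← mul_assoc v⁻¹, h.cen, mul_assoc, h.zz,
        mul_one]
    exact this d (mem_zpowers d)
  · exfalso
    letI : MulAction D (E ⧸ zpowers z) := MulAction.compHom _ (F.comp D.subtype)
    obtain ⟨e0, h1, h3⟩ := hE
    have hq : 2 ∣ Nat.card (E ⧸ zpowers z) := by
      have h4 : π e0 ≠ 1 := fun e => (h.mem_zp.1 ((QuotientGroup.eq_one_iff _).1 e)).elim h1 h3
      rw [← orderOf_eq_prime (p := 2) (by rw [pow_two, h.q_sq]) h4]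
      exact orderOf_dvd_natCard _
    obtain ⟨b, hb, hb1⟩ := h2.exists_fixed_point_of_prime_dvd_card_of_fixed_point
      (E ⧸ zpowers z) hq (a := 1) (fun d => map_one (F d))
    obtain ⟨b, rfl⟩ := QuotientGroup.mk'_surjective _ b
    refine hb1 ((QuotientGroup.eq_one_iff _).2 (h.mem_zp.2 (e b fun x hx => hb ⟨x, hx⟩))).symm

theorem comm_of_max (h : ES E z) [hn : K.Normal] (hK : Odd (Nat.card K))
    (hc : ∀ a ∈ K, ∀ b ∈ K, a * b = b * a) {L : Subgroup H} (hL : L ≤ K)
    (hmax : ∀ M, L < M → M ≤ K → Fpf φ M z) {g : H} (hg : g ∉ normalizer (L : Set H))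
    {e e' : E} (he : e ∈ Fx φ L) (he' : e' ∈ Fx φ L) : e * φ g e' = φ g e' * e := by
  let L' := L.map (MulAut.conj g).toMonoidHom
  have hL' : L' ≤ K := by
    rintro _ ⟨x, hx, rfl⟩
    exact hn.conj_mem x (hL hx) g
  have hlt : L < L ⊔ L' := left_lt_sup.2 fun hle =>
    hg (mem_normalizer_fintype fun n hn => hle ⟨n, hn, rfl⟩)
  have hv : φ g e' ∈ Fx φ L' := by
    rintro _ ⟨x, hx, rfl⟩
    change φ (g * x * g⁻¹) (φ g e') = _
    rw [← app_mul, inv_mul_cancel_right, app_mul, he' x hx]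
  generalize φ g e' = v at hv
  have hLo : Odd (Nat.card L) := Odd.of_dvd_nat hK (card_dvd_of_le hL)
  obtain ⟨y, hy, e1⟩ := h.avg φ hLo (Y := centralizer {e} ⊓ Fx φ L') (v := v)
    ⟨mem_centralizer_singleton_iff.2 (h.cen e), fun x _ => h.fix _⟩ fun x hx => by
      refine ⟨mem_centralizer_singleton_iff.2 ?_, 
        (Fx φ L').mul_mem ((Fx φ L').inv_mem hv) fun w hw => ?_⟩
      · rcases h.com e v with e2 | e2
        · have e3 := congrArg (φ x) e2
          rw [map_mul, map_mul, he x hx] at e3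
          rw [mul_assoc, ← e3, ← mul_assoc, ← mul_assoc, (Commute.inv_right e2).eq]
        · have e3 := congrArg (φ x) e2
          rw [map_mul, map_mul, map_mul, he x hx, h.fix] at e3
          have e4 : φ x v * e = e * φ x v * z := by rw [e3, mul_assoc, h.zz, mul_one]
          have e5 : v⁻¹ * e * z = e * v⁻¹ := by
            rw [mul_assoc, inv_mul_eq_iff_eq_mul, ← mul_assoc, eq_mul_inv_iff_mul_eq, mul_assoc,
              h.cen, ← mul_assoc, e2, mul_assoc, h.zz, mul_one]
          rw [mul_assoc, e4, ← mul_assoc e v⁻¹, ← e5, ← h.cen]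
          simp only [mul_assoc]
          rw [← mul_assoc z, h.cen e, mul_assoc]
      · rw [← app_mul, hc w (hL' hw) x (hL hx), app_mul, hv w hw]
  have e2 : v * y ∈ centralizer {e} := by
    rcases hmax _ hlt (sup_le hL hL') (v * y) (fun k hk =>
      (sup_le (c := Sb φ (v * y)) e1 (mul_mem hv hy.2 :) :) hk) with e3 | e3 <;> rw [e3]
    · exact one_mem _
    · exact mem_centralizer_singleton_iff.2 (h.cen e)
  exact (mem_centralizer_singleton_iff.1 (((centralizer {e}).mul_mem_cancel_right hy.1).1 e2)).symm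

theorem IH.asai (ih : IH E H) (h : ES E z) (hi : Irr φ z) (hφ : Function.Injective φ)
    [hn : K.Normal] (hK : Odd (Nat.card K)) (hf : Fpf φ K z)
    (hc : ∀ a ∈ K, ∀ b ∈ K, a * b = b * a) (hq : IsPGroup 2 (H ⧸ K)) {x : H} (hx : x ∈ K)
    (hx1 : x ≠ 1) {e₀ : E} (h1 : e₀ ≠ 1) (h2 : e₀ ≠ z) (h3 : φ x e₀ = e₀) : Good φ z := by
  obtain ⟨L, hxL, ⟨hLK, hL⟩, hmax⟩ := Finite.exists_le_maximal
    (p := fun M : Subgroup H => M ≤ K ∧ ¬ Fpf φ M z) (a := zpowers x)
    ⟨zpowers_le.2 hx, fun hf => (hf e₀ fun k hk =>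
      (zpowers_le.2 h3 : zpowers x ≤ Sb φ e₀) hk).elim h1 h2⟩
  have hmax' : ∀ M, L < M → M ≤ K → Fpf φ M z := fun M a b => by
    by_contra c
    exact a.not_ge (hmax ⟨b, c⟩ a.le)
  have hN : normalizer (L : Set H) ≠ ⊤ := fun e => by
    have := normalizer_eq_top_iff.1 e
    exact hL (hi.fpf h hφ fun e' => hx1 (mem_bot.1 (e' ▸ hxL (mem_zpowers x))))
  have hKN : K ≤ normalizer (L : Set H) := fun k hk => mem_normalizer_fintype fun n hn => by
    rw [hc k hk n (hLK hn), mul_inv_cancel_right]; exact hn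
  have hN' : (normalizer (L : Set H)).map (QuotientGroup.mk' K) ≠ ⊤ := fun e => hN (by
    have := congrArg (comap (QuotientGroup.mk' K)) e
    rwa [comap_map_eq, QuotientGroup.ker_mk', sup_eq_left.2 hKN, comap_top] at this)
  obtain ⟨M, hM, hNM⟩ := (eq_top_or_exists_le_coatom _).resolve_left hN'
  let S := M.comap (QuotientGroup.mk' K)
  have hS : S.index = 2 := by
    rw [index_comap_of_surjective _ (QuotientGroup.mk'_surjective K)]
    exact H9.index_of_isCoatom hq hM
  have hNS : normalizer (L : Set H) ≤ S := map_le_iff_le_comap.1 hNM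
  have hSt : S ≠ ⊤ := fun e => by rw [e, index_top] at hS; omega
  obtain ⟨s, -, hs⟩ := SetLike.exists_of_lt (lt_top_iff_ne_top.2 hSt)
  have mm := fun a b : H => Subgroup.mul_mem_iff_of_index_two hS (a := a) (b := b)
  have hs' : s⁻¹ ∉ S := fun e => hs (S.inv_mem_iff.1 e)
  let T : Set E := {a | ∃ g ∈ S, ∃ e ∈ Fx φ L, a = φ g e}
  let A := closure T
  let B := A.comap (φ s⁻¹).toMonoidHom
  have hB : ∀ b, b ∈ B ↔ φ s⁻¹ b ∈ A := fun _ => Iff.rfl
  have hLA : Fx φ L ≤ A := fun e he => subset_closure ⟨1, S.one_mem, e, he, by simp⟩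
  have hzA : z ∈ A := hLA fun x _ => h.fix _
  have hA : Inv φ S A := fun g hg => by
    refine (closure_le (A.comap (φ g).toMonoidHom)).2 ?_
    rintro _ ⟨k, hk, e, he, rfl⟩
    exact subset_closure ⟨g * k, S.mul_mem hg hk, e, he, (app_mul _ _ _ _).symm⟩
  have hcom : ∀ a ∈ A, ∀ b ∈ A, a * φ s b = φ s b * a := by
    have k1 : ∀ a ∈ T, ∀ b ∈ A, a * φ s b = φ s b * a := fun a ha b hb => by
      have : A ≤ (centralizer {a}).comap (φ s).toMonoidHom := (closure_le _).2 (by
        rintro _ ⟨k', hk', e', he', rfl⟩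
        obtain ⟨k, hk, e, he, rfl⟩ := ha
        refine mem_centralizer_singleton_iff.2 ?_
        have hg : k⁻¹ * s * k' ∉ normalizer (L : Set H) := fun e => by
          have := hNS e
          rw [mm, mm, S.inv_mem_iff] at this
          tauto
        have := congrArg (φ k) (comm_of_max h hK hc hLK hmax' hg he he')
        rw [map_mul (φ k), map_mul (φ k), ← app_mul φ k (k⁻¹ * s * k'), mul_assoc,
          mul_inv_cancel_left, app_mul] at this
        exact this.symm)
      exact (mem_centralizer_singleton_iff.1 (this hb)).symm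
    intro a ha b hb
    have : A ≤ centralizer {φ s b} := (closure_le _).2 fun a ha =>
      mem_centralizer_singleton_iff.2 (k1 a ha b hb)
    exact mem_centralizer_singleton_iff.1 (this ha)
  have hzB : z ∈ B := by rw [hB, h.fix]; exact hzA
  have hsup : A ⊔ B = ⊤ := by
    refine (hi _ (mem_sup_left hzA) fun g _ => ?_).resolve_right fun e =>
      hL fun a ha => e a (mem_sup_left (hLA ha))
    refine sup_le (c := (A ⊔ B).comap (φ g).toMonoidHom) (fun a ha => ?_) fun b hb => ?_
    · by_cases hg : g ∈ S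
      · exact mem_sup_left (hA g hg a ha)
      · refine mem_sup_right ((hB _).2 ?_)
        change φ s⁻¹ (φ g a) ∈ A
        rw [← app_mul]
        exact hA _ (by rw [mm]; tauto) a ha
    · have e : φ g b = φ (g * s) (φ s⁻¹ b) := by rw [← app_mul, mul_inv_cancel_right]
      by_cases hg : g ∈ S
      · refine mem_sup_right ((hB _).2 ?_)
        change φ s⁻¹ (φ g b) ∈ A
        rw [e, ← app_mul]
        exact hA _ (by rw [mm, mm]; tauto) _ hb
      · refine mem_sup_left ?_
        change φ g b ∈ A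
        rw [e]
        exact hA _ (by rw [mm]; tauto) _ hb
  have c : CP z A B := ⟨hzA, hzB, fun a ha b hb => by
    have := hcom a ha _ hb
    rwa [show φ s ((φ s⁻¹).toMonoidHom b) = b from app_inv' φ s b] at this, fun e => by
    have := h.normal hzB
    obtain ⟨a, ha, b, hb, e'⟩ := mem_sup_of_normal_right.1 (hsup ▸ mem_top e)
    exact ⟨a, ha, b, hb, e'.symm⟩⟩
  exact good_asai h c hS hs hA hB
    (ih.res hK hf (hKN.trans hNS) hA hzA (c.es h) (Or.inr hSt))

theorem IH.st (ih : IH E H) : St E H := by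
  intro φ z K h hn hK hf
  by_cases hE : ∃ e : E, e ≠ 1 ∧ e ≠ z
  swap
  · push Not at hE
    obtain ⟨n, θ, hz, hn⟩ := h.exists_rep
    refine ⟨n, θ, 1, hz, hn, fun g e => ?_⟩
    have : φ g e = e := by
      by_cases h1 : e = 1
      · rw [h1, map_one]
      · rw [hE e h1, h.fix]
    simp [this]
  by_cases hi : Irr φ z
  swap
  · exact ih.of_not_irr h hK hf hi
  by_cases hφ : Function.Injective φ
  swap
  · have := ih E φ.range (by
      have h1 : Nat.card φ.range = φ.ker.index := (index_ker φ).symm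
      have h2 := φ.ker.card_mul_index
      have h3 : 1 < Nat.card φ.ker := (one_lt_card_iff_ne_bot _).2 fun e =>
        hφ ((MonoidHom.ker_eq_bot_iff φ).1 e)
      have h4 : 0 < φ.ker.index := Nat.pos_of_ne_zero index_ne_zero_of_finite
      rw [h1]; nlinarith) φ.range.subtype z (K.map φ.rangeRestrict) h
      (hn.map _ φ.rangeRestrict_surjective) (Odd.of_dvd_nat hK (card_map_dvd _ _))
      (fun e he => hf e fun k hk => he _ ⟨k, hk, rfl⟩)
    exact this.comp φ.rangeRestrict
  have hK0 : K ≠ ⊥ := fun e => by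
    obtain ⟨a, a1, a2⟩ := hE
    exact (hf a fun k hk => by rw [e, mem_bot] at hk; simp [hk]).elim a1 a2
  obtain ⟨M, q, hMn, hM0, hMK, hq, hMc, hMq, -, -⟩ :=
    H1.exists_minimal_normal_elementary K (Cfsg.Agent.S0205.result hK) hK0
  have hMo : Odd (Nat.card M) := Odd.of_dvd_nat hK (card_dvd_of_le hMK)
  have hMf : Fpf φ M z := hi.fpf h hφ hM0
  have hc : ∀ a ∈ M, ∀ b ∈ M, a * b = b * a := fun a ha b hb =>
    congrArg Subtype.val (hMc.is_comm.comm (⟨a, ha⟩ : M) ⟨b, hb⟩)
  obtain ⟨P⟩ : Nonempty (Sylow 2 H) := inferInstance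
  have hP : Odd (P : Subgroup H).index := Nat.odd_iff.2 (by
    have := P.not_dvd_index
    omega)
  by_cases hS : M ⊔ (P : Subgroup H) = ⊤
  swap
  · refine good_of_odd φ h _ (Odd.of_dvd_nat hP (index_dvd_of_le le_sup_right))
      (ih E (M ⊔ (P : Subgroup H) : Subgroup H) ?_ _ z (M.subgroupOf _) h (hMn.subgroupOf _)
        (odd_sub hMo le_sup_left) fun e he => hMf e fun k hk => he ⟨k, mem_sup_left hk⟩ hk)
    have := card_lt_of_ne_top hS
    omega
  obtain ⟨y, hy, hy1⟩ := (Subgroup.bot_or_exists_ne_one M).resolve_left hM0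
  have : Fact q.Prime := ⟨hq⟩
  have hyo : orderOf y = q := orderOf_eq_prime (hMq y hy) hy1
  by_cases hcy : M ≤ zpowers y
  · have hM : M = zpowers y := le_antisymm hcy (zpowers_le.2 hy)
    have hD : ((P : Subgroup H) ⊓ centralizer (M : Set H)).Normal := by
      rw [← normalizer_eq_top_iff, eq_top_iff, ← hS]
      refine sup_le (fun m hm => mem_normalizer_fintype fun d hd => ?_)
        fun g hg => mem_normalizer_fintype fun d hd => ⟨(P : Subgroup H).mul_mem
          ((P : Subgroup H).mul_mem hg hd.1) ((P : Subgroup H).inv_mem hg),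
          (inferInstance : (centralizer (M : Set H)).Normal).conj_mem d hd.2 g⟩
      rw [hd.2 m hm, mul_inv_cancel_right]; exact hd
    have hD0 := hi.two_bot h hφ hMo hMf hE (D := (P : Subgroup H) ⊓ centralizer (M : Set H))
      (P.isPGroup'.to_le inf_le_left) fun d hd k hk => (hd.2 k hk).symm
    have hMcy : IsCyclic M := hM ▸ inferInstance
    have hcard : Nat.card M = q := by rw [hM, Nat.card_zpowers, hyo]
    have hA : IsCyclic (MulAut M) := by
      have : IsCyclic (ZMod (Nat.card M))ˣ := hcard ▸ ZMod.isCyclic_units_prime hq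
      exact isCyclic_of_surjective _ (IsCyclic.mulAutMulEquiv M).symm.surjective
    have : IsCyclic (P : Subgroup H) := by
      refine isCyclic_of_injective ((MulAut.conjNormal (H := M)).comp (P : Subgroup H).subtype)
        ((injective_iff_map_eq_one _).2 fun d hd => Subtype.ext (mem_bot.1 (hD0 ▸ ⟨d.2, fun m hm => ?_⟩)))
      have := congrArg Subtype.val (DFunLike.congr_fun hd ⟨m, hm⟩)
      exact (mul_inv_eq_iff_eq_mul.1 this).symm
    exact good_of_odd φ h _ hP (good_of_cyclic _ h)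
  · obtain ⟨x, hx, hxy⟩ := SetLike.not_le_iff_exists.1 hcy
    have hqo : Odd q := Odd.of_dvd_nat hMo (hyo ▸ Subgroup.orderOf_dvd_natCard M hy)
    obtain ⟨g, hg, hg1, e, e1, e2, e3⟩ := h.exists_fix φ hq hqo (hc x hx y hy) (hMq x hx)
      (hMq y hy) hy1 hxy hE
    refine ih.asai h hi hφ hMo hMf hc ?_ (((closure_le M).2 ?_) hg) hg1 e1 e2 e3
    · refine P.isPGroup'.of_surjective ((QuotientGroup.mk' M).comp (P : Subgroup H).subtype)
        fun b => ?_
      obtain ⟨b, rfl⟩ := QuotientGroup.mk'_surjective M b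
      obtain ⟨m, hm, p, hp, rfl⟩ := mem_sup_of_normal_left.1 (hS ▸ mem_top b)
      refine ⟨⟨p, hp⟩, ?_⟩
      rw [map_mul, show QuotientGroup.mk' M m = 1 from (QuotientGroup.eq_one_iff m).2 hm, one_mul]
      rfl
    · rintro _ (rfl | rfl)
      exacts [hx, hy]

theorem st_all (n : ℕ) : ∀ (E H : Type u) [Group E] [Group H] [Finite E] [Finite H],
    Nat.card E + Nat.card H = n → St E H := by
  induction n using Nat.strong_induction_on with
  | _ n ih =>
    intro E H _ _ _ _ e
    exact IH.st fun E' H' _ _ _ _ hlt => ih _ (e ▸ hlt) E' H' rfl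

theorem dade (φ : H →* MulAut E) (h : ES E z) [hn : K.Normal] (hK : Odd (Nat.card K))
    (hf : Fpf φ K z) : Good φ z := st_all _ E H rfl φ z K h hn hK hf

end H12.Dx
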