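/-
Dade's extension theorem, ambient form.
-/
import Cfsg.Agent.H12.Dx4
import Cfsg.Agent.H3.Extraspecial

set_option autoImplicit false
set_option linter.unusedSectionVars false
open H17 Cfsg Module Subgroup
open scoped commutatorElement

namespace H12.Dx

theorem ES.twist {E : Type*} [Group E] {z : E} (h : ES E z) (f : MulAut E) {e : E} (he : f e = e)
    (v : E) : v⁻¹ * f v * e = e * (v⁻¹ * f v) := by
  rcases h.com e v with e2 | e2
  · have e3 := congrArg f e2
    rw [map_mul, map_mul, he] at e3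
    rw [mul_assoc, ← e3, ← mul_assoc, ← mul_assoc, (Commute.inv_right e2).eq]
  · have e3 := congrArg f e2
    rw [map_mul, map_mul, map_mul, he, h.fix] at e3
    have e4 : f v * e = e * f v * z := by rw [e3, mul_assoc, h.zz, mul_one]
    have e5 : v⁻¹ * e * z = e * v⁻¹ := by
      rw [mul_assoc, inv_mul_eq_iff_eq_mul, ← mul_assoc, eq_mul_inv_iff_mul_eq, mul_assoc,
        h.cen, ← mul_assoc, e2, mul_assoc, h.zz, mul_one]
    rw [mul_assoc, e4, ← mul_assoc e v⁻¹, ← e5, ← h.cen]
    simp only [mul_assoc]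
    rw [← mul_assoc z, h.cen e, mul_assoc]

theorem es_of_extraspecial {E : Type*} [Group E] [Finite E] (hE : IsExtraspecial 2 E) :
    ∃ z, ES E z := by
  obtain ⟨z, h, -⟩ := H3.isES_of_isExtraspecial hE
  have zz : z * z = 1 := by rw [← pow_two]; exact h.pow_eq_one
  have hm : ∀ a ∈ zpowers z, a = 1 ∨ a = z := by
    rintro _ ⟨k, rfl⟩
    have h2 : z ^ (2 : ℤ) = 1 := by rw [zpow_two, zz]
    rcases Int.even_or_odd' k with ⟨j, rfl | rfl⟩
    · left; simp [zpow_mul, h2]
    · right; simp [zpow_add, zpow_mul, h2]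
  have cen : ∀ e, z * e = e * z := fun e => (mem_center_iff.1 h.central e).symm
  refine ⟨z, h.ne_one, zz, cen, fun a b => ?_, fun a => ?_, fun a ha => hm a (h.cent a trivial
    fun b _ => ha b)⟩
  · rcases hm _ (h.comm a trivial b trivial) with e | e
    · exact Or.inl (commutatorElement_eq_one_iff_mul_comm.1 e)
    · right
      rw [← cen, ← e, commutatorElement_def]; group
  · rw [← pow_two]; exact hm _ (h.pow a trivial)

theorem dade_amb {G : Type*} [Group G] [Finite G] (E H : Subgroup G) [hEn : E.Normal]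
    (hE : IsExtraspecial 2 E) (hEH : E ⊓ H = ⊥) (hEHtop : E ⊔ H = ⊤) (K : Subgroup G)
    (hKH : K ≤ H) (hKn : ∀ h ∈ H, ∀ k ∈ K, h * k * h⁻¹ ∈ K) (hKodd : Odd (Nat.card K))
    (hEK : ⁅E, K⁆ = E) {θ : E → ℂ} (hθi : IsIrrCharacter E θ) (hθ : ∀ e : E, θ e = θ 1 → e = 1) :
    ∃ χ : G → ℂ, IsIrrCharacter G χ ∧ ∀ e : E, χ e = θ e := by
  obtain ⟨z, h⟩ := es_of_extraspecial hE
  let φ : H →* MulAut E := (MulAut.conjNormal (H := E)).comp H.subtype
  have : (K.subgroupOf H).Normal := ⟨fun k hk g => hKn g g.2 k hk⟩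
  have hf : Fpf φ (K.subgroupOf H) z := fun e he => h.ctr e fun b => by
    have : E ≤ centralizer {(e : G)} := by
      refine hEK.ge.trans (commutator_le.2 fun a ha k hk => mem_centralizer_singleton_iff.2 ?_)
      have := congrArg Subtype.val (h.twist (φ ⟨k, hKH hk⟩) (he _ hk) ⟨a, ha⟩⁻¹)
      rw [inv_inv] at this
      rw [commutatorElement_def, mul_assoc a, mul_assoc a]
      exact this
    exact Subtype.ext (mem_centralizer_singleton_iff.1 (this b.2)).symm
  obtain ⟨n, σ, R, hz, hn, hR⟩ := dade φ h (odd_sub hKodd hKH) hf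
  have hdec : ∀ g : G, ∃ (e : E) (k : H), g = e * k := fun g => by
    obtain ⟨a, ha, b, hb, e⟩ := mem_sup_of_normal_left.1 (hEHtop ▸ mem_top g)
    exact ⟨⟨a, ha⟩, ⟨b, hb⟩, e.symm⟩
  choose f g hfg using hdec
  have key : ∀ (a : E) (b : H), σ (f (a * b)) * R (g (a * b)) = σ a * R b := fun a b => by
    have e := hfg (a * b)
    have e1 : (a : G)⁻¹ * f (a * b) = b * (g (a * b) : G)⁻¹ := by
      rw [inv_mul_eq_iff_eq_mul, ← mul_assoc, eq_mul_inv_iff_mul_eq]; exact e.symm
    have e2 : (a : G)⁻¹ * f (a * b) ∈ E ⊓ H :=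
      ⟨E.mul_mem (E.inv_mem a.2) (f _).2, e1 ▸ H.mul_mem b.2 (H.inv_mem (g _).2)⟩
    rw [hEH, mem_bot] at e2
    have e3 := e2
    rw [e1, mul_inv_eq_one] at e3
    rw [inv_mul_eq_one] at e2
    rw [← Subtype.ext e2, ← Subtype.ext e3]
  let ρ : Representation ℂ G (Fin n → ℂ) :=
    { toFun := fun x => σ (f x) * R (g x)
      map_one' := by
        have := key 1 1
        simpa using this
      map_mul' := fun x y => by
        have e : x * y = ((f x * φ (g x) (f y) : E) : G) * ((g x * g y : H) : G) := by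
          conv_lhs => rw [hfg x, hfg y]
          change _ = (f x : G) * ((g x : G) * f y * (g x : G)⁻¹) * ((g x : G) * g y)
          group
        have := key (f x * φ (g x) (f y)) (g x * g y)
        rw [← e] at this
        rw [this, map_mul, map_mul, mul_assoc, mul_assoc, ← mul_assoc (σ (φ _ _)), ← hR, mul_assoc] }
  have hρ : ∀ e : E, ρ e = σ e := fun e => by
    have := key e 1
    rw [map_one, mul_one, OneMemClass.coe_one, mul_one] at this
    exact this
  have hc : (ρ.comp E.subtype : Representation ℂ E _) = σ := MonoidHom.ext hρ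
  have hi := h.irr σ hz (by simpa using hn)
  have : ρ.IsIrreducible := isIrreducible_of_comp ρ E.subtype (hc ▸ hi)
  refine ⟨_, isIrr_character ρ, fun e => ?_⟩
  obtain ⟨m, τ, hτ, rfl⟩ := hθi
  have hτz := h.neg_of_irr τ fun e => h.z1 (hθ z e)
  have hm := h.dim τ hτz
  rw [← h.char_eq σ hz τ hτz (by
    rw [← hn] at hm
    simp only [Module.finrank_fin_fun] at hm ⊢
    nlinarith [Nat.pow_left_injective two_ne_zero (Nat.eq_of_mul_eq_mul_left two_pos hm)])]
  unfold Representation.character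
  rw [hρ]

end H12.Dx
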