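import Cfsg.Agent.H12.IM1

/-! Isolated `p`-minimal subgroups: the structure theorem. -/

set_option autoImplicit false

namespace H12.IM

open Subgroup Cfsg H16 H12.BG
open H15 hiding card_cj cent_anti cent_bot cent_comm cent_le_cent1 cent_le_norm cent_sup cent_zpowers cj_bot cj_cent cj_cj_inv cj_comm cj_eq_bot cj_eq_iff cj_eq_top cj_inf cj_inj cj_inv_cj cj_le_cj cj_le_iff cj_le_of_mem cj_lt_cj cj_mono cj_norm cj_one cj_sup cj_top comm_le_left comm_le_right comm_of_cyclic comm_of_le comm_sup le_cj_iff mem_cent mem_cent1 mem_cj mem_norm_of_cj_le norm_bot norm_top relIndex_cj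
open H5 (CompOf SN layerOf)
open H10 (resOf)
open scoped commutatorElement

variable {G : Type*} [Group G] [Finite G] {L X Q K N R T Y P H W : Subgroup G} {p : ℕ}
  [hp : Fact p.Prime] {S : Sylow p G}

theorem gen (hH : (S : Subgroup G) ≤ H) (h1 : N[(S : Subgroup G)] ⊓ H ≤ W)
    (h2 : ∀ P : Subgroup G, (S : Subgroup G) ≤ P → P ≤ H → IsPMinimal p P → P ≤ W) : H ≤ W := by
  have hS := H10.isSylowIn_top S
  induction H using ind_down with
  | _ H ih =>
  by_cases h3 : H ≤ N[(S : Subgroup G)]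
  · exact (le_inf h3 le_rfl).trans h1
  by_cases h4 : sSup {Y | (S : Subgroup G) ≤ Y ∧ Y < H} = H
  · exact h4.ge.trans (sSup_le fun Y hY => ih Y hY.2 hY.1 ((inf_le_inf_left _ hY.2.le).trans h1)
      fun P a b c => h2 P a (b.trans hY.2.le) c)
  exact h2 H hH le_rfl ((H10.pMin_iff (hS.of_le hH le_top)).2
    ⟨h3, sSup {Y | (S : Subgroup G) ≤ Y ∧ Y < H},
      le_sSup ⟨le_rfl, lt_of_le_of_ne hH fun e => h3 (e ▸ le_norm _)⟩,
      lt_of_le_of_ne (sSup_le fun Y hY => hY.2.le) h4, fun Y h4 h5 => le_sSup ⟨h4, h5⟩⟩)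

/-- the hypotheses of the theorem -/
structure Hy (S : Sylow p G) (P L : Subgroup G) : Prop where
  sp : (S : Subgroup G) ≤ P
  nl : N[(S : Subgroup G)] ≤ L
  pl : ∀ P' : Subgroup G, (S : Subgroup G) ≤ P' → IsPMinimal p P' → P' ≠ P → P' ≤ L
  iso : ¬ Op[{p}] L ≤ Op[{p}] P

omit [Finite G] in
theorem Hy.sl (h : Hy S P L) : (S : Subgroup G) ≤ L := (le_norm _).trans h.nl

theorem Hy.dich (h : Hy S P L) (hH : (S : Subgroup G) ≤ H) :
    H ≤ L ∨ (P ≤ H ∧ H ≤ (L ⊓ H) ⊔ P) := by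
  by_cases h1 : P ≤ H
  · refine Or.inr ⟨h1, gen hH ((inf_le_inf_right _ h.nl).trans le_sup_left) fun P' a b c => ?_⟩
    by_cases e : P' = P
    · exact e ▸ le_sup_right
    · exact (le_inf (h.pl P' a c e) b).trans le_sup_left
  · exact Or.inl (gen hH (inf_le_left.trans h.nl) fun P' a b c => h.pl P' a c fun e => h1 (e ▸ b))

theorem core_le (S : Sylow p G) (hH : (S : Subgroup G) ≤ H) : Op[{p}] H ≤ S :=
  core_le_hl (hl_of_le (sy_top_of_sylow S) hH le_top)

theorem Hy.op (h : Hy S P L) : Op[{p}] (⊤ : Subgroup G) ≤ Op[{p}] P :=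
  le_piCoreOf_of_le le_top le_rfl ((core_le S le_top).trans h.sp)

theorem Hy.npl (h : Hy S P L) : ¬ P ≤ L := fun e => by
  have h1 : L = ⊤ := by
    rcases h.dich le_top with h1 | h1
    · exact top_le_iff.1 h1
    · exact top_le_iff.1 (h1.2.trans (sup_le inf_le_left e))
  exact h.iso (h1 ▸ h.op)

theorem Hy.res (h : Hy S P L) : resOf p P ⊔ S = P :=
  ((H10.isSylowIn_top S).of_le h.sp le_top).resOf_sup

theorem Hy.iso' (h : Hy S P L) : Iso p S L (resOf p P) (Op[{p}] L) := by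
  have hx : ¬ resOf p P ≤ L := fun e => h.npl (h.res.ge.trans (sup_le e h.sl))
  have hn : (S : Subgroup G) ≤ N[resOf p P] := h.sp.trans (H10.le_NN_resOf P)
  refine ⟨pg_iff.2 S.isPGroup', h.sl, core_le S h.sl, le_norm_piCoreOf_self _ _, hn, hx, ?_,
    fun K hK => ?_⟩
  · rcases h.dich le_top with h1 | h1
    · exact absurd (le_top.trans h1) hx
    · exact top_le_iff.1 (h1.2.trans (sup_le (inf_le_left.trans le_sup_left)
        (h.res.ge.trans (sup_le le_sup_right (h.sl.trans le_sup_left)))))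
  · rcases h.dich (le_sup_right : _ ≤ K ⊔ S) with h1 | ⟨h1, h2⟩
    · exact Or.inl (le_sup_left.trans h1)
    have h3 : resOf p P ≤ K := (H10.resOf_mono h1).trans (H10.resOf_sup_le S.isPGroup' hK)
    refine Or.inr ⟨h3, ?_⟩
    rw [modr' h.sl (Or.inr hK)] at h2
    have h4 : K ≤ ((L ⊓ K) ⊔ resOf p P) ⊔ S := (le_sup_left.trans h2).trans
      (sup_le (sup_le_sup_right le_sup_left _) (h.res.ge.trans (sup_le_sup_right le_sup_right _)))
    have h5 := modl' (L := K) (sup_le inf_le_right h3 : (L ⊓ K) ⊔ resOf p P ≤ K)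
      (Or.inr (norm_sup (norm_inf (norm_of_le h.sl) hK) hn))
    rw [inf_eq_left.2 h4] at h5
    exact h5.le.trans (sup_le le_rfl ((le_inf (inf_le_right.trans h.sl) inf_le_left).trans
      le_sup_left))

variable [(pCore p G).Normal]

theorem Hy.is0 (h : Hy S P L) : Is0 p ((S : Subgroup G).map (QuotientGroup.mk' (pCore p G)))
    (L.map (QuotientGroup.mk' (pCore p G))) ((resOf p P).map (QuotientGroup.mk' (pCore p G)))
    ((Op[{p}] L).map (QuotientGroup.mk' (pCore p G))) := by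
  refine ⟨h.iso'.map (QuotientGroup.mk'_surjective _) ?_, ?_, fun e => h.iso ?_⟩
  · rw [QuotientGroup.ker_mk', pCore_eq_piCoreOf]; exact core_le S le_top
  · rw [← pCore_eq_piCoreOf]; exact H1.pCore_quotient_pCore p
  · rw [Subgroup.map_eq_bot_iff, QuotientGroup.ker_mk', pCore_eq_piCoreOf] at e
    exact e.trans h.op

theorem Hy.normal (h : Hy S P L)
    (hn : ((resOf p P).map (QuotientGroup.mk' (pCore p G))).Normal) : (resOf p P).Normal := by
  have h1 := hn.comap (QuotientGroup.mk' (pCore p G))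
  rw [comap_map_eq, QuotientGroup.ker_mk'] at h1
  have h2 : resOf p (resOf p P ⊔ pCore p G) = resOf p P :=
    H10.resOf_eq_of_le le_sup_left (sup_le (H10.resOf_le P)
      (pCore_eq_piCoreOf (G := G) p ▸ (core_le S le_top).trans h.sp))
  rw [← h2]
  exact normal_of_top (H10.le_NN_resOf' (le_norm_normal ⊤))

theorem exists_emb (Y : Subgroup G) [Y.Normal] [(pCore p Y).Normal] :
    ∃ g : Y ⧸ pCore p Y →* G ⧸ pCore p G, Function.Injective g ∧
      (⊤ : Subgroup _).map g = Y.map (QuotientGroup.mk' (pCore p G)) ∧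
      ∀ y : Y, g y = (y : G) := by
  have e : pCore p Y = ((QuotientGroup.mk' (pCore p G)).comp Y.subtype).ker := by
    rw [← MonoidHom.comap_ker, QuotientGroup.ker_mk']
    apply Subgroup.map_injective Y.subtype_injective
    rw [pCore_map_subtype, pCore_eq_piCoreOf, piCoreOf_eq_of_normal _ le_top (le_norm_normal _),
      map_comap_eq, range_subtype, inf_comm]
  refine ⟨QuotientGroup.lift _ _ e.le, ?_, ?_, fun y => rfl⟩
  · rw [injective_iff_map_eq_one]
    intro x hx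
    obtain ⟨y, rfl⟩ := QuotientGroup.mk_surjective x
    exact (QuotientGroup.eq_one_iff _).2 (e.ge hx)
  · ext x
    constructor
    · rintro ⟨z, -, rfl⟩
      obtain ⟨y, rfl⟩ := QuotientGroup.mk_surjective z
      exact ⟨y, y.2, rfl⟩
    · rintro ⟨y, hy, rfl⟩
      exact ⟨(⟨y, hy⟩ : Y), mem_top _, rfl⟩

theorem Hy.thmA (h : Hy S P L) (hY : Y = normalClosure (resOf p P : Set G))
    (hF : ¬ fittingSubgroup (G ⧸ pCore p G) ≤ L.map (QuotientGroup.mk' (pCore p G))) :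
    resOf p P = Y ∧ ∀ [(pCore p Y).Normal], ∃ t : ℕ, t.Prime ∧ t ≠ p ∧
      IsPGroup t (Y ⧸ pCore p Y) ∧ ∃ _ : Group.IsNilpotent (Y ⧸ pCore p Y),
        Group.nilpotencyClass (Y ⧸ pCore p Y) ≤ 2 := by
  obtain ⟨h1, t, ht, htp, h2, h3⟩ := h.is0.caseA hF
  haveI := h.normal h1
  have e : resOf p P = Y := by rw [hY, normalClosure_eq_self]
  refine ⟨e, ?_⟩
  intro _
  rw [e] at h2 h3
  haveI : Y.Normal := e ▸ inferInstance
  obtain ⟨g, hg, h4, -⟩ := exists_emb (p := p) Y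
  haveI := Fact.mk ht
  rw [← h4] at h2 h3
  have h5 : IsPGroup t (Y ⧸ pCore p Y) :=
    (pg_iff.1 ((isPi_map_iff hg).1 h2)).of_equiv topEquiv
  refine ⟨t, ht, htp, h5, h5.isNilpotent, ?_⟩
  haveI := h5.isNilpotent
  rw [← Subgroup.lowerCentralSeries_eq_bot_iff_nilpotencyClass_le]
  rw [← map_commutator, ← map_commutator, map_eq_bot_iff_of_injective _ hg] at h3
  exact h3

theorem Hy.thmB (h : Hy S P L) (hY : Y = normalClosure (resOf p P : Set G))
    (hF : fittingSubgroup (G ⧸ pCore p G) ≤ L.map (QuotientGroup.mk' (pCore p G)))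
    [(pCore p Y).Normal] :
    p ∣ Nat.card (Y ⧸ pCore p Y) ∧ layer (Y ⧸ pCore p Y) = ⊤ ∧
      ∀ K₁ K₂ : Subgroup (Y ⧸ pCore p Y), IsComponent K₁ → IsComponent K₂ →
        ∃ s ∈ (S : Subgroup G), (K₂.comap (QuotientGroup.mk' (pCore p Y))).map Y.subtype =
          ((K₁.comap (QuotientGroup.mk' (pCore p Y))).map Y.subtype) :^ s := by
  haveI : Y.Normal := hY ▸ inferInstance
  have e : Y.map (QuotientGroup.mk' (pCore p G)) =
      normalClosure ((resOf p P).map (QuotientGroup.mk' (pCore p G)) : Set (G ⧸ pCore p G)) := by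
    rw [hY, map_normalClosure _ _ (QuotientGroup.mk'_surjective _), coe_map]
  haveI : (Y.map (QuotientGroup.mk' (pCore p G))).Normal := e ▸ inferInstance
  obtain ⟨h1, h2⟩ := h.is0.caseB hF e
  have h3 := h.is0.dvd hF (e.symm ▸ le_normalClosure :
    _ ≤ Y.map (QuotientGroup.mk' (pCore p G)))
  obtain ⟨g, hg, h4, h5⟩ := exists_emb (p := p) Y
  rw [← h4] at h1 h2 h3
  refine ⟨by rwa [card_map_of_injective hg, Subgroup.card_top] at h3, ?_, fun K₁ K₂ a b => ?_⟩
  · rw [← H5.map_layerOf_of_injective hg] at h1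
    rw [← H5.layerOf_top]
    exact Subgroup.map_injective hg h1
  obtain ⟨_, ⟨s, hs, rfl⟩, h6⟩ := h2 _ _ ((H5.compOf_map_iff hg).2 (H5.compOf_top_iff.2 a))
    ((H5.compOf_map_iff hg).2 (H5.compOf_top_iff.2 b))
  refine ⟨s, hs, ?_⟩
  have key : ∀ K : Subgroup (Y ⧸ pCore p Y), (K.comap (QuotientGroup.mk' (pCore p Y))).map
      Y.subtype = Y ⊓ (K.map g).comap (QuotientGroup.mk' (pCore p G)) := by
    intro K
    ext x
    constructor
    · rintro ⟨y, hy, rfl⟩
      exact ⟨y.2, _, hy, h5 y⟩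
    · rintro ⟨hx, z, hz, e⟩
      refine ⟨⟨x, hx⟩, ?_, rfl⟩
      have : z = (⟨x, hx⟩ : Y) := hg (e.trans (h5 ⟨x, hx⟩).symm)
      exact mem_comap.2 (show ((⟨x, hx⟩ : Y) : Y ⧸ pCore p Y) ∈ K from this ▸ hz)
  rw [key, key, h6, cj_inf, cj_normal (N := Y)]
  congr 1
  ext x
  rw [mem_comap, mem_cj, mem_cj, mem_comap, map_mul, map_mul, map_inv]

theorem Hy.nsol (h : Hy S P L) (hY : Y = normalClosure (resOf p P : Set G))
    (hF : fittingSubgroup (G ⧸ pCore p G) ≤ L.map (QuotientGroup.mk' (pCore p G))) :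
    ¬ Group.IsSolvable Y := by
  intro hs
  haveI : (pCore p Y).Normal := inferInstance
  obtain ⟨h1, h2, -⟩ := h.thmB hY hF
  have h3 := H5.layerOf_eq_bot_of_solvable (K := (⊤ : Subgroup (Y ⧸ pCore p Y))) inferInstance
  rw [H5.layerOf_top, h2] at h3
  rw [← Subgroup.card_top, h3, Subgroup.card_bot] at h1
  exact hp.out.not_dvd_one h1

omit [(pCore p G).Normal] in
theorem hy_of (hSP : (S : Subgroup G) ≤ P)
    (hL : L = N[(S : Subgroup G)] ⊔ ⨆ P' : {P' : Subgroup G //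
      (S : Subgroup G) ≤ P' ∧ IsPMinimal p P' ∧ P' ≠ P}, (P' : Subgroup G))
    (hiso : ¬ (pCore p L).map L.subtype ≤ (pCore p P).map P.subtype) : Hy S P L :=
  ⟨hSP, hL ▸ le_sup_left, fun P' a b c => hL ▸ (le_iSup_of_le (f := fun P' : {P' : Subgroup G //
      (S : Subgroup G) ≤ P' ∧ IsPMinimal p P' ∧ P' ≠ P} => (P' : Subgroup G)) ⟨P', a, b, c⟩
      le_rfl).trans le_sup_right, by rwa [pCore_map_subtype, pCore_map_subtype] at hiso⟩

omit [(pCore p G).Normal] in
theorem Hy.sub (h : Hy S P L) {L₀ : Subgroup G} (h1 : (S : Subgroup G) ≤ L₀) (h2 : L₀ ≤ L) :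
    ¬ (pCore p L₀).map L₀.subtype ≤ (pCore p P).map P.subtype := by
  rw [pCore_map_subtype, pCore_map_subtype]
  exact fun e => h.iso ((le_piCoreOf_of_le h2 le_rfl ((core_le S h.sl).trans h1)).trans e)

end H12.IM
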