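import Cfsg.Agent.H4.Sec
import Cfsg.Agent.H1.Frattini
import Cfsg.Agent.H1.Fitting
import Cfsg.Agent.H10.SylowIn
import Cfsg.Agent.H26.SzModel

/-! Groups whose `p'`-subgroups are nilpotent. -/

set_option autoImplicit false

namespace H12

open Cfsg Subgroup H10 H4

/-- a surjection onto a `p'`-group is already surjective on a `p'`-subgroup -/
theorem exists_coprime_cover {K Y : Type*} [Group K] [Finite K] [Group Y] {p : ℕ} (hp : p.Prime)
    (f : K →* Y) (hf : Function.Surjective f) (hY : (Nat.card Y).Coprime p) :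
    ∃ L : Subgroup K, (Nat.card L).Coprime p ∧ L.map f = ⊤ := by
  obtain ⟨L, hL, hmin⟩ := exists_minimal_of_wellFoundedLT (fun L : Subgroup K => L.map f = ⊤)
    ⟨⊤, map_top_of_surjective f hf⟩
  refine ⟨L, ?_, hL⟩
  have hs : Function.Surjective (f.comp L.subtype) := by
    rw [← MonoidHom.range_eq_top, MonoidHom.range_comp, range_subtype, hL]
  have hk : (f.comp L.subtype).ker ≤ frattini L := by
    refine le_iInf₂ fun M hM => ?_
    by_contra hn
    have h1 : M ⊔ (f.comp L.subtype).ker = ⊤ :=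
      hM.2 _ (lt_of_le_of_ne le_sup_left fun e => hn (e ▸ le_sup_right))
    have h2 : (M.map L.subtype).map f = ⊤ := by
      rw [map_map, ← map_top_of_surjective _ hs, ← h1,
        Subgroup.map_sup, (Subgroup.map_eq_bot_iff _).2 le_rfl, sup_bot_eq]
    have h3 := hmin h2 (map_subtype_le M)
    refine hM.1 (eq_top_iff.2 fun x _ => ?_)
    obtain ⟨y, hy, e⟩ := h3 x.2
    exact Subtype.ext e ▸ hy
  rw [Nat.coprime_comm, hp.coprime_iff_not_dvd]
  intro hd
  have h1 := (H1.prime_dvd_index_frattini hp hd).trans (index_dvd_of_le hk)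
  rw [index_ker, MonoidHom.range_eq_top.2 hs, card_top] at h1
  exact (hp.coprime_iff_not_dvd.1 hY.symm) h1

/-- all subgroups of order prime to `p` are nilpotent -/
def PNil (p : ℕ) (G : Type*) [Group G] : Prop :=
  ∀ H : Subgroup G, (Nat.card H).Coprime p → Group.IsNilpotent H

variable {G : Type*} [Group G] [Finite G] {p : ℕ}

theorem PNil.sec (hp : p.Prime) (h : PNil p G) {Y : Type*} [Group Y] (hs : IsSec Y (⊤ : Subgroup G)) :
    PNil p Y := by
  obtain ⟨K, φ, -, hφ⟩ := hs
  intro H hH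
  obtain ⟨L, h1, h2⟩ := exists_coprime_cover hp (φ.subgroupComap H)
    (φ.subgroupComap_surjective_of_surjective H hφ) hH
  have hi : Function.Injective (K.subtype.comp (H.comap φ).subtype) :=
    K.subtype_injective.comp (H.comap φ).subtype_injective
  have e := L.equivMapOfInjective _ hi
  haveI := h (L.map (K.subtype.comp (H.comap φ).subtype)) (Nat.card_congr e.toEquiv ▸ h1)
  haveI : Group.IsNilpotent L := Group.nilpotent_of_mulEquiv e.symm
  refine Group.nilpotent_of_surjective ((φ.subgroupComap H).comp L.subtype) ?_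
  rw [← MonoidHom.range_eq_top, MonoidHom.range_comp, range_subtype, h2]

theorem PNil.le_CC (h : PNil p G) {A B : Subgroup G} (hn : A ≤ NN(B)) (hA : (Nat.card A).Coprime p)
    (hB : (Nat.card B).Coprime p) (hc : (Nat.card A).Coprime (Nat.card B)) : A ≤ CC(B) :=
  H1.le_centralizer_of_coprime_of_isNilpotent
    (h (A ⊔ B) (Nat.Coprime.coprime_dvd_left (H1.card_sup_dvd hn) (hA.mul_left hB)))
    le_sup_left le_sup_right hc

theorem PNil.inv (h : PNil p G) (hp2 : Nat.Coprime 2 p) {t x : G} (ht : t * t = 1) (hx : Odd (orderOf x))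
    (hxp : (orderOf x).Coprime p) (e : t * x * t⁻¹ = x⁻¹) : x = 1 := by
  have ht2 : orderOf t ∣ 2 := orderOf_dvd_of_pow_eq_one (by rw [pow_two, ht])
  have hn : zpowers t ≤ NN(zpowers x) := by
    rw [zpowers_le]
    refine mem_normalizer_fintype fun y hy => ?_
    obtain ⟨k, rfl⟩ := hy
    refine ⟨-k, ?_⟩
    simp only [← conj_zpow, e, inv_zpow']
  have := h.le_CC hn (by rw [Nat.card_zpowers]; exact hp2.coprime_dvd_left ht2)
    (by rwa [Nat.card_zpowers]) (by
      rw [Nat.card_zpowers, Nat.card_zpowers]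
      exact (Nat.coprime_two_left.2 hx).coprime_dvd_left ht2)
  have h1 := this (mem_zpowers t) x (mem_zpowers x)
  rw [← h1, mul_inv_cancel_right] at e
  have h2 : orderOf x ∣ 2 := orderOf_dvd_of_pow_eq_one (by rw [pow_two]; nth_rw 1 [e]; simp)
  exact orderOf_eq_one_iff.1 ((Nat.coprime_two_right.2 hx).eq_one_of_dvd h2)

theorem sz_five {F : Type*} [Field F] [Fintype F] {m : ℕ} (M : H26.SzModel G F m) :
    (M.w * M.u 0 1) ^ 5 = 1 := by
  haveI := M.charP
  apply M.inj
  rw [map_pow, map_mul, M.ρ_w, M.ρ_u, map_one]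
  have h2 : (2 : F) = 0 := CharTwo.two_eq_zero
  simp only [H26.Sz.wM, H26.Sz.uM, H26.Sz.ff, map_zero, map_one, pow_succ, pow_zero, one_mul]
  ext i j
  fin_cases i <;> fin_cases j <;> simp [Matrix.mul_apply, Fin.sum_univ_four, CharTwo.add_self_eq_zero]

theorem PNil.not_sz (hp : p.Prime) (hp3 : 3 < p) (h : PNil p G) {F : Type*} [Field F] [Fintype F]
    {m : ℕ} (M : H26.SzModel G F m) : False := by
  have hp2 : Nat.Coprime 2 p := (Nat.coprime_primes Nat.prime_two hp).2 (by omega)
  by_cases h5 : p = 5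
  · subst h5
    obtain ⟨y, y0, y1⟩ := M.exists_ne
    have hd : orderOf (M.h (Units.mk0 y y0)) ∣ 2 ^ (2 * m + 1) - 1 := by
      classical
      rw [orderOf_injective _ M.h_inj, ← M.hF, ← Fintype.card_units]
      exact orderOf_dvd_card
    have h1 : (2 ^ (2 * m + 1) - 1) % 2 = 1 := by
      have : 0 < 2 ^ (2 * m) := by positivity
      rw [pow_succ]; omega
    have h2 : ¬ 5 ∣ 2 ^ (2 * m + 1) - 1 := by
      have key : ∀ k : ℕ, 4 ^ k % 5 = 1 ∨ 4 ^ k % 5 = 4 := fun k => by
        induction k with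
        | zero => simp
        | succ n ih => rw [pow_succ]; omega
      have := key m
      rw [pow_succ, pow_mul]
      norm_num
      omega
    have := h.inv hp2 M.w_mul_w (x := M.h (Units.mk0 y y0)) ((Nat.odd_iff.2 h1).of_dvd_nat hd)
      (Nat.Coprime.coprime_dvd_left hd ((Nat.Prime.coprime_iff_not_dvd hp).2 h2).symm)
      (by rw [M.w_inv, M.w_conj_h])
    exact y1 (congrArg Units.val (M.h_inj (this.trans (map_one M.h).symm)))
  · have hd : orderOf (M.w * M.u 0 1) ∣ 5 := orderOf_dvd_of_pow_eq_one (sz_five M)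
    have := h.inv hp2 M.w_mul_w (x := M.w * M.u 0 1) (Odd.of_dvd_nat (by decide) hd)
      (Nat.Coprime.coprime_dvd_left hd ((Nat.coprime_primes (by norm_num) hp).2 (Ne.symm h5)))
      (by rw [← mul_assoc, M.w_mul_w, one_mul, mul_inv_rev, inv_eq_of_mul_eq_one_right (M.u_zero_sq 1)])
    have h1 := congrArg (· • M.inf) this
    simp only [mul_smul, M.u_smul_inf, M.w_smul_inf, one_smul] at h1
    exact M.pt_ne_inf _ _ h1

end H12
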