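import Cfsg.Agent.H12.Rb1

/-! Commutants of linear maps; Heisenberg groups normalized by an element of prime order. -/

set_option autoImplicit false

namespace H12.Rb
open Module H2

variable {F V : Type*} [Field F] [AddCommGroup V] [Module F V]

/-- commutant -/
def Cm (T : End F V) : Submodule F (End F V) where
  carrier := {φ | T * φ = φ * T}
  zero_mem' := by simp
  add_mem' := by intro a b ha hb; simp only [Set.mem_ofPred_eq] at *; rw [mul_add, add_mul, ha, hb]
  smul_mem' := by
    intro c a ha; simp only [Set.mem_ofPred_eq] at *; rw [mul_smul_comm, smul_mul_assoc, ha]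

theorem mem_Cm {T φ : End F V} : φ ∈ Cm T ↔ T * φ = φ * T := Iff.rfl

theorem Cm_smul (T : End F V) {c : F} (hc : c ≠ 0) : Cm (c • T) = Cm T := by
  ext φ
  rw [mem_Cm, mem_Cm, smul_mul_assoc, mul_smul_comm]
  exact (smul_right_injective _ hc).eq_iff

variable [FiniteDimensional F V]

theorem sq_lt_Cm {T : End F V} (hT : T ≠ 1) (K : Submodule F V) (hK : ∀ v ∈ K, T v = v) :
    finrank F K ^ 2 < finrank F (Cm T) := by
  set S := T - 1 with hS
  let Ψ : ((V ⧸ LinearMap.range S) →ₗ[F] LinearMap.ker S) →ₗ[F] End F V :=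
    { toFun := fun ψ => (LinearMap.ker S).subtype ∘ₗ ψ ∘ₗ (LinearMap.range S).mkQ
      map_add' := by intros; ext; simp
      map_smul' := by intros; ext; simp }
  have hi : Function.Injective Ψ := by
    rw [injective_iff_map_eq_zero]
    intro ψ h
    refine LinearMap.ext fun v => ?_
    obtain ⟨v, rfl⟩ := (LinearMap.range S).mkQ_surjective v
    exact Subtype.ext (LinearMap.congr_fun h v)
  have h1 : ∀ ψ v, S (Ψ ψ v) = 0 := fun ψ v => (ψ _).2
  have h2 : ∀ ψ v, Ψ ψ (S v) = 0 := fun ψ v => by
    have : (LinearMap.range S).mkQ (S v) = 0 := (Submodule.Quotient.mk_eq_zero _).2 ⟨v, rfl⟩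
    simp [Ψ, this]
  have h3 : LinearMap.range Ψ < Cm T := by
    refine lt_of_le_of_ne ?_ fun e => hT ?_
    · rintro _ ⟨ψ, rfl⟩
      refine LinearMap.ext fun v => ?_
      have a := h1 ψ v
      have b := h2 ψ v
      simp only [hS, LinearMap.sub_apply, End.one_apply, map_sub, sub_eq_zero] at a b
      rw [End.mul_apply, End.mul_apply, a, b]
    · obtain ⟨ψ, hψ⟩ : (1 : End F V) ∈ LinearMap.range Ψ := by rw [e, mem_Cm]; simp
      refine sub_eq_zero.1 (LinearMap.ext fun v => ?_)
      have := h1 ψ v
      rwa [hψ] at this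
  have h4 := Submodule.finrank_lt_finrank_of_lt h3
  rw [LinearMap.finrank_range_of_inj hi, Module.finrank_linearMap] at h4
  have h5 := Submodule.finrank_quotient_add_finrank (LinearMap.range S)
  have h6 := S.finrank_range_add_finrank_ker
  have h7 : finrank F K ≤ finrank F (LinearMap.ker S) := Submodule.finrank_mono fun v hv => by
    simp [hS, hK v hv]
  have h8 : finrank F (V ⧸ LinearMap.range S) = finrank F (LinearMap.ker S) := by omega
  rw [h8] at h4
  nlinarith

theorem exists_split {A B : Submodule F V} (h : A ≤ B) : ∃ (U : Submodule F V) (q : V →ₗ[F] U),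
    U ≤ B ∧ (∀ u : U, q u = u) ∧ (∀ v ∈ A, q v = 0) ∧ finrank F U = finrank F B - finrank F A := by
  obtain ⟨C, hC⟩ := A.exists_isCompl
  obtain ⟨g, hg⟩ := LinearMap.exists_leftInverse_of_injective (A.mkQ ∘ₗ (C ⊓ B).subtype) (by
    rw [LinearMap.ker_eq_bot, injective_iff_map_eq_zero]
    rintro ⟨u, hu⟩ e
    exact Subtype.ext ((Submodule.disjoint_def.1 hC.disjoint) u
      ((Submodule.Quotient.mk_eq_zero _).1 e) hu.1))
  refine ⟨C ⊓ B, g ∘ₗ A.mkQ, inf_le_right, fun u => LinearMap.congr_fun hg u, fun v hv => ?_, ?_⟩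
  · have : A.mkQ v = 0 := (Submodule.Quotient.mk_eq_zero _).2 hv
    rw [LinearMap.comp_apply, this, map_zero]
  · have h1 := Submodule.finrank_sup_add_finrank_inf_eq A (C ⊓ B)
    rw [← sup_inf_assoc_of_le _ h, hC.sup_eq_top, top_inf_eq, ← inf_assoc, hC.inf_eq_bot,
      bot_inf_eq, finrank_bot] at h1
    omega

theorem flag_le_Cm (T : End F V) (n : ℕ) (K : ℕ → Submodule F V) (h0 : K 0 = ⊥) (hn : K n = ⊤)
    (hm : Monotone K) (c : ℕ → F) (hT : ∀ i, ∀ v ∈ K (i + 1), T v - c i • v ∈ K i) :
    ∑ i : Fin n, (finrank F (K (i + 1)) - finrank F (K i)) ^ 2 ≤ finrank F (Cm T) := by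
  choose U q h1 h2 h3 h4 using fun i : Fin n => exists_split (hm (Nat.le_succ (i : ℕ)))
  let P : Submodule F (End F V) :=
    { carrier := {φ | ∀ i, ∀ v ∈ K i, φ v ∈ K i}
      zero_mem' := fun i v _ => zero_mem _
      add_mem' := fun ha hb i v hv => add_mem (ha i v hv) (hb i v hv)
      smul_mem' := fun c _ ha i v hv => Submodule.smul_mem _ c (ha i v hv) }
  let N : Submodule F (End F V) :=
    { carrier := {φ | ∀ i, ∀ v ∈ K (i + 1), φ v ∈ K i}
      zero_mem' := fun i v _ => zero_mem _
      add_mem' := fun ha hb i v hv => add_mem (ha i v hv) (hb i v hv)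
      smul_mem' := fun c _ ha i v hv => Submodule.smul_mem _ c (ha i v hv) }
  let ad : P →ₗ[F] N :=
    { toFun := fun φ => ⟨T * φ - φ * T, fun i v hv => by
        have a := hT i _ (φ.2 _ v hv)
        have b := φ.2 _ _ (hT i v hv)
        rw [map_sub, map_smul] at b
        have := sub_mem a b
        rwa [sub_sub_sub_cancel_right] at this⟩
      map_add' := fun a b => Subtype.ext (by simp only [Submodule.coe_add]; noncomm_ring)
      map_smul' := fun a b => Subtype.ext (by simp [smul_sub]) }
  have a1 := ad.finrank_range_add_finrank_ker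
  have a2 := Submodule.finrank_le (LinearMap.range ad)
  have a3 : finrank F (LinearMap.ker ad) ≤ finrank F (Cm T) :=
    LinearMap.finrank_le_finrank_of_injective (f := (P.subtype ∘ₗ (LinearMap.ker ad).subtype).codRestrict
      (Cm T) fun φ => sub_eq_zero.1 (congrArg Subtype.val φ.2))
      fun a b e => by
        have := congrArg Subtype.val e
        exact Subtype.ext (Subtype.ext this)
  let Ψ : ((∀ i, End F (U i)) × N) →ₗ[F] P :=
    { toFun := fun ψ => ⟨∑ i, (U i).subtype ∘ₗ ψ.1 i ∘ₗ q i + ψ.2, fun k v hv => by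
        refine add_mem ?_ (ψ.2.2 k v (hm k.le_succ hv))
        rw [LinearMap.sum_apply]
        refine sum_mem fun i _ => ?_
        rcases le_or_gt k i with h | h
        · simp [h3 i v (hm h hv)]
        · exact hm h (h1 i (ψ.1 i (q i v)).2)⟩
      map_add' := fun a b => Subtype.ext (by
        ext v; simp [Finset.sum_add_distrib]; abel)
      map_smul' := fun a b => Subtype.ext (by ext v; simp [Finset.smul_sum]) }
  have hi : Function.Injective Ψ := by
    rw [injective_iff_map_eq_zero]
    rintro ⟨ψ, ν⟩ e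
    have e1 : ∑ i, (U i).subtype ∘ₗ ψ i ∘ₗ q i + ν = 0 := congrArg Subtype.val e
    have e2 : ψ = 0 := by
      funext k
      refine LinearMap.ext fun u => ?_
      have := congrArg (q k) (LinearMap.congr_fun e1 u)
      rw [LinearMap.add_apply, map_add, h3 k _ (ν.2 k u (h1 k u.2)), add_zero, LinearMap.sum_apply,
        map_sum, Finset.sum_eq_single k] at this
      · simpa [h2] using this
      · intro i _ hik
        rcases lt_or_gt_of_ne hik with h | h
        · exact h3 k _ (hm h (h1 i (ψ i (q i u)).2))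
        · simp [h3 i u (hm h (h1 k u.2))]
      · simp
    subst e2
    refine Prod.ext rfl (Subtype.ext ?_)
    simpa using e1
  have a4 := LinearMap.finrank_le_finrank_of_injective hi
  rw [finrank_prod, finrank_pi_fintype] at a4
  simp only [Module.finrank_linearMap, h4, ← sq] at a4
  simp only [Nat.succ_eq_add_one] at a4
  omega

theorem three_le_Cm [IsAlgClosed F] {T : End F V} (hT : T ^ 3 = 1) (K : Submodule F V)
    (hK : ∀ v, v ∈ K ↔ T v = v) :
    2 * finrank F K ^ 2 + (finrank F V - finrank F K) ^ 2 ≤ 2 * finrank F (Cm T) := by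
  obtain ⟨ω, hω⟩ := IsAlgClosed.exists_root (k := F) (Polynomial.X ^ 2 + Polynomial.X + 1) (by
    have : (Polynomial.X ^ 2 + Polynomial.X + 1 : Polynomial F).degree = 2 := by
      compute_degree!
    rw [this]; decide)
  have hω : ω ^ 2 + ω + 1 = 0 := by simpa using hω
  let K2 : Submodule F V := K.comap (T - ω • 1)
  have h12 : K ≤ K2 := fun v hv => by
    have := (hK v).1 hv
    simp only [K2, Submodule.mem_comap, LinearMap.sub_apply, LinearMap.smul_apply, End.one_apply]
    exact sub_mem (this.symm ▸ hv) (K.smul_mem _ hv)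
  have := flag_le_Cm T 3 (fun i => match i with | 0 => ⊥ | 1 => K | 2 => K2 | _ => ⊤) rfl rfl
    (monotone_nat_of_le_succ fun i => match i with
      | 0 => bot_le | 1 => h12 | 2 => le_top | _ + 3 => le_rfl)
    (fun i => match i with | 0 => 1 | 1 => ω | _ => -1 - ω) fun i => match i with
      | 0 => fun v hv => by simp [(hK v).1 hv]
      | 1 => fun v hv => hv
      | 2 => fun v _ => by
        have h3 : T (T (T v)) = v := by
          have := LinearMap.congr_fun hT v
          simpa [pow_succ] using this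
        simp only [K2, Submodule.mem_comap, LinearMap.sub_apply, LinearMap.smul_apply, End.one_apply,
          hK, map_sub, map_smul, h3]
        linear_combination (norm := module) hω • v - hω • T v
      | _ + 3 => fun v _ => trivial
  simp only [Fin.sum_univ_three] at this
  have a : finrank F K ≤ finrank F K2 := Submodule.finrank_mono h12
  have b := Submodule.finrank_le K2
  change (finrank F K - finrank F (⊥ : Submodule F V)) ^ 2 + (finrank F K2 - finrank F K) ^ 2 +
    (finrank F (⊤ : Submodule F V) - finrank F K2) ^ 2 ≤ _ at this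
  rw [finrank_bot, finrank_top, Nat.sub_zero] at this
  obtain ⟨x, hx⟩ := Nat.exists_eq_add_of_le a
  obtain ⟨y, hy⟩ := Nat.exists_eq_add_of_le b
  rw [hy, hx] at this ⊢
  simp only [add_assoc, Nat.add_sub_cancel_left] at this ⊢
  rw [← add_assoc (finrank F K), Nat.add_sub_cancel_left] at this
  nlinarith [sq_nonneg ((x : ℤ) - y)]

variable {P : Type*} [Group P] [IsAlgClosed F] [Finite P]

theorem card_triv (hP : (Nat.card P : F) ≠ 0) {Y : Subgroup P} (h : commutator P ≤ Y) :
    Nat.card {l : P →* Fˣ // ∀ z ∈ Y, l z = 1} = Y.index := by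
  have : Y.Normal := Subgroup.Normal.of_commutator_le _ h
  rw [← card_weights_trivial hP Y h]
  exact Nat.card_congr
    { toFun := fun l => QuotientGroup.lift Y l.1 l.2
      invFun := fun l => ⟨l.comp (QuotientGroup.mk' Y), fun z hz => by
        rw [MonoidHom.comp_apply, QuotientGroup.mk'_apply, (QuotientGroup.eq_one_iff z).2 hz,
          map_one]⟩
      left_inv := fun l => by ext x; rfl
      right_inv := fun l => by ext x; rfl }

variable [Nontrivial V] {σ : P →* End F V} {Z : Subgroup P}

theorem heis_ne (h : Heis σ Z) (hP : (Nat.card P : F) ≠ 0) (l : P →* Fˣ) :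
    wsp (endRep σ σ) l ≠ ⊥ ↔ ∀ z ∈ Z, l z = 1 := by
  refine ⟨fun h3 z hz => eq_one_of_wsp h3 (h.endRep_eq_one hz), fun hl e => ?_⟩
  obtain ⟨y, hy⟩ := h.exists_mem_wsp hP l hl
  exact rep_ne_zero σ y (by simpa [e] using hy)

theorem heis_eq (h : Heis σ Z) (hP : (Nat.card P : F) ≠ 0) (l : P →* Fˣ)
    (hl : wsp (endRep σ σ) l ≠ ⊥) :
    finrank F (wsp (endRep σ σ) l) = finrank F (wsp (endRep σ σ) 1) := by
  have key : ∀ l m : P →* Fˣ, (∀ z ∈ Z, l z = 1) →
      finrank F (wsp (endRep σ σ) m) ≤ finrank F (wsp (endRep σ σ) (l * m)) := fun l m hl => by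
    obtain ⟨y, hy⟩ := h.exists_mem_wsp hP l hl
    refine LinearMap.finrank_le_finrank_of_injective (f := (LinearMap.mulLeft F (σ y)).restrict
      fun f hf k => ?_) fun a b e => Subtype.ext ?_
    · have a := hy k
      have b := hf k
      rw [endRep_apply] at a b
      rw [endRep_apply, LinearMap.mulLeft_apply, MonoidHom.mul_apply, Units.val_mul, mul_smul,
        ← mul_smul_comm, ← smul_mul_assoc, ← a, ← b]
      simp only [mul_assoc, ← mul_assoc (σ k⁻¹) (σ k), rep_inv_mul, one_mul]
    · have : σ y * a = σ y * b := congrArg Subtype.val e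
      have := congrArg (σ y⁻¹ * ·) this
      simpa only [← mul_assoc, rep_inv_mul, one_mul] using this
  have h1 := (heis_ne h hP l).1 hl
  have a := key l 1 h1
  have b := key l⁻¹ l fun z hz => by simp [h1 z hz]
  rw [show l * 1 = l by ext; simp] at a
  rw [show l⁻¹ * l = 1 by ext; simp] at b
  omega

theorem heis_sq (h : Heis σ Z) (hP : (Nat.card P : F) ≠ 0) :
    finrank F V ^ 2 = finrank F (wsp (endRep σ σ) 1) * Z.index := by
  have := finrank_eq_mul (endRep σ σ) hP (fun z hz => h.endRep_eq_one (h.comm hz)) (heis_eq h hP)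
  rw [Module.finrank_linearMap, ← sq] at this
  simp only [heis_ne h hP] at this
  rwa [card_triv hP h.comm] at this

theorem heis_count (h : Heis σ Z) (hP : (Nat.card P : F) ≠ 0) {T T' : End F V} (h1 : T * T' = 1)
    (h2 : T' * T = 1) {α : MulAut P} (hT : ∀ k, T * σ k = σ (α k) * T) {p : ℕ} (hp : p.Prime)
    (hα : α ^ p = 1) {Y : Subgroup P} (hZ : Z ≤ Y)
    (hY : ∀ X : Subgroup P, Z ≤ X → (∀ k, k⁻¹ * α k ∈ X) → Y ≤ X) :
    Z.relIndex Y * (p * finrank F (Cm T)) + finrank F V ^ 2 ≤
      finrank F V ^ 2 * (p + Z.relIndex Y) := by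
  have := finite_weights hP
  have a := wt_count (endRep σ σ) hP (fun z hz => h.endRep_eq_one (h.comm hz))
    (T := LinearMap.mulLeft F T ∘ₗ LinearMap.mulRight F T') (α := α) (fun k => by
      refine LinearMap.ext fun f => ?_
      have e : σ k⁻¹ * T' = T' * σ (α k)⁻¹ := by
        have := congrArg (fun t => T' * t * T') (hT k⁻¹)
        simpa only [← mul_assoc, h2, one_mul, mul_assoc _ T T', h1, mul_one, map_inv] using this
      simp only [End.mul_apply, LinearMap.comp_apply, LinearMap.mulLeft_apply,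
        LinearMap.mulRight_apply, endRep_apply]
      rw [mul_assoc _ (σ k⁻¹), e]
      simp only [← mul_assoc, hT])
    (fun a b e => by
      have := congrArg (fun t => T' * t * T) e
      simpa only [LinearMap.comp_apply, LinearMap.mulLeft_apply, LinearMap.mulRight_apply,
        ← mul_assoc, h2, one_mul, mul_assoc _ T' T, mul_one] using this) hp hα
    (m := finrank F (wsp (endRep σ σ) 1)) (fun l => by
      by_cases hl : wsp (endRep σ σ) l = ⊥
      · rw [hl, finrank_bot]; exact Nat.zero_le _
      · exact (heis_eq h hP l hl).le) (Cm T) fun f hf => by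
      simp only [LinearMap.comp_apply, LinearMap.mulLeft_apply, LinearMap.mulRight_apply]
      rw [← mul_assoc, mem_Cm.1 hf, mul_assoc, h1, mul_one]
  have b : Nat.card {l : P →* Fˣ // wsp (endRep σ σ) l ≠ ⊥ ∧ dAct P Fˣ α l = l} ≤ Y.index := by
    rw [← card_triv hP (h.comm.trans hZ)]
    refine Nat.card_le_card_of_injective (fun l => ⟨l.1, hY l.1.ker ((heis_ne h hP _).1 l.2.1)
      fun k => ?_⟩) fun a b e => by
        have := congrArg Subtype.val e
        exact Subtype.ext this
    have := DFunLike.congr_fun l.2.2 (α k)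
    simp only [dAct_apply, MonoidHom.comp_apply, MulEquiv.coe_toMonoidHom,
      MulEquiv.symm_apply_apply] at this
    rw [MonoidHom.mem_ker, map_mul, map_inv, this, inv_mul_cancel]
  simp only [heis_ne h hP] at a b
  rw [card_triv hP h.comm] at a
  rw [heis_sq h hP, ← Subgroup.relIndex_mul_index hZ] at *
  obtain ⟨p', rfl⟩ := Nat.exists_eq_add_of_le hp.one_le
  generalize Nat.card {l : P →* Fˣ // (∀ z ∈ Z, l z = 1) ∧ dAct P Fˣ α l = l} = f at a b
  generalize finrank F (wsp (endRep σ σ) 1) = m at a ⊢
  generalize Z.relIndex Y = s at a ⊢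
  have c := Nat.mul_le_mul_left (s * m * p') b
  have d := Nat.mul_le_mul_left s a
  nlinarith

end H12.Rb
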