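import Cfsg.Agent.H12.Rb2
import Cfsg.Agent.H17.Fv1
import Cfsg.Agent.H2.BG26

/-! Fixed point ratios in solvable groups; ambient Heisenberg groups. -/

set_option autoImplicit false
set_option linter.unusedSectionVars false

namespace H12.Rb
open Module H2 Subgroup H16
open scoped commutatorElement

variable {G : Type*} [Group G]

theorem exists_two {A : Subgroup G} (hA : A ≤ C[A]) {x : G} (hx : x ∈ N[A]) {p : ℕ} (hp : Odd p)
    (hxp : x ^ p = 1) (h : ¬ A ≤ C1[x]) :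
    ∃ a ∈ A, ∃ b ∈ A, a ∉ C1[x] ∧ b ∉ C1[x] ∧ a⁻¹ * b ∉ C1[x] := by
  obtain ⟨a, ha, ha'⟩ := SetLike.not_le_iff_exists.1 h
  by_cases h2 : a * a ∈ C1[x]
  · refine ⟨a, ha, x * a * x⁻¹, conj_mem hx ha, ha', fun e => ha' ?_, fun e => ha' ?_⟩
    · have := mul_mem (mul_mem (inv_mem (cent1_self x)) e) (cent1_self x)
      simpa [mul_assoc] using this
    · set y := a⁻¹ * (x * a * x⁻¹) with hy
      have hyA : y ∈ A := mul_mem (inv_mem ha) (conj_mem hx ha)
      have e1 : x * a * x⁻¹ = a * y := by rw [hy]; group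
      have e2 : x * y * x⁻¹ = y := by rw [← mem_cent1.1 e]; group
      have e3 : ∀ k : ℕ, x ^ k * a * (x ^ k)⁻¹ = a * y ^ k := fun k => by
        induction k with
        | zero => simp
        | succ k ih =>
          calc x ^ (k + 1) * a * (x ^ (k + 1))⁻¹ = x * (x ^ k * a * (x ^ k)⁻¹) * x⁻¹ := by group
            _ = (x * a * x⁻¹) * (x * y * x⁻¹) ^ k := by rw [ih, conj_pow]; group
            _ = a * y ^ (k + 1) := by rw [e1, e2]; group
      have e4 : y ^ p = 1 := by simpa [hxp] using (e3 p).symm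
      have e5 : y ^ 2 = 1 := by
        have a1 : x * (a * a) * x⁻¹ = a * a := by rw [← mem_cent1.1 h2]; group
        have a2 : x * (a * a) * x⁻¹ = a * (y * a) * y := by
          rw [← mul_assoc a y a, mul_assoc (a * y) a y, ← e1]; group
        rw [a2, mem_cent.1 (hA ha) y hyA] at a1
        rw [← mul_right_inj (a * a), mul_one]
        conv_rhs => rw [← a1]
        simp only [sq, mul_assoc]
      obtain ⟨k, rfl⟩ := hp
      rw [pow_succ, pow_mul, e5, one_pow, one_mul] at e4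
      rw [e4, mul_one] at e1
      rw [mem_cent1, ← e1]
      conv_rhs => rw [e1]
      rw [inv_mul_cancel_right]
  · exact ⟨a, ha, a * a, mul_mem ha ha, ha', h2, by simpa using ha'⟩

variable [Finite G]

theorem fpr_grp [Group.IsSolvable G] {x : G} {p : ℕ} (hp : Odd p) (hxp : x ^ p = 1)
    (hg : normalClosure {x} = ⊤) {H : Subgroup G} (hH : H ≠ ⊤) :
    3 * {g | g⁻¹ * x * g ∈ H}.ncard ≤ Nat.card G := by
  obtain ⟨M, hM, hHM⟩ := (eq_top_or_exists_le_coatom H).resolve_left hH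
  refine le_trans (Nat.mul_le_mul_left 3 (Set.ncard_le_ncard
    (t := {g | g⁻¹ * x * g ∈ M}) fun g hg => hHM hg)) ?_
  rcases Set.eq_empty_or_nonempty {g | g⁻¹ * x * g ∈ M} with h0 | ⟨g₀, h0⟩
  · simp [h0]
  obtain ⟨A, ⟨a1, a2⟩, -, a4⟩ := H1.exists_minimal_le (fun A : Subgroup G => A.Normal ∧ ¬ A ≤ M)
    (N := ⊤) ⟨inferInstance, fun h => hM.1 (top_le_iff.1 h)⟩
  have a5 : ⁅A, A⁆ ≤ A ⊓ M := le_inf (der_le A) (by_contra fun h' => by
    have := H1.commutator_self_lt (N := A) inferInstance fun h0 => a2 (h0 ▸ bot_le)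
    exact this.ne (a4 _ ⟨inferInstance, h'⟩ this.le))
  have a6 : M ⊔ A = ⊤ := hM.2 _ (left_lt_sup.2 a2)
  have a7 : (A ⊓ M).Normal := normalizer_eq_top_iff.1 (top_le_iff.1 (a6 ▸ sup_le
    (norm_inf le_normalizer_of_normal (le_norm M)) (norm_of_der_le a5 inf_le_left)))
  let f := QuotientGroup.mk' (A ⊓ M)
  have hf : ∀ y, f y = 1 ↔ y ∈ A ⊓ M := fun y => QuotientGroup.eq_one_iff y
  have : (A.map f).Normal := a1.map f (QuotientGroup.mk'_surjective _)
  obtain ⟨_, ⟨a, ha, rfl⟩, _, ⟨b, hb, rfl⟩, h1, h2, h3⟩ := exists_two (A := A.map f) (x := f x)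
    (by rw [← comm_eq_bot, ← map_commutator, Subgroup.map_eq_bot_iff, QuotientGroup.ker_mk']; exact a5)
    (le_normalizer_of_normal (mem_top _)) hp (by rw [← map_pow, hxp, map_one]) fun h => by
      have b1 : (⊤ : Subgroup G) ≤ C[A.map f].comap f := by
        rw [← hg]
        exact normalClosure_le_normal (Set.singleton_subset_iff.2 (le_cent1.1 h))
      have b2 : M.Normal := normalizer_eq_top_iff.1 (top_le_iff.1 (a6 ▸ sup_le (le_norm M)
        (le_norm_iff.2 fun a ha m hm => by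
          have := mem_cent.1 (b1 (mem_top m)) _ (mem_map_of_mem f ha)
          have e : a * m * a⁻¹ * m⁻¹ ∈ A ⊓ M := (hf _).1 (by
            simp only [map_mul, map_inv, this]; group)
          simpa using mul_mem e.2 hm)))
      refine hM.1 (top_le_iff.1 (hg ▸ normalClosure_le_normal (Set.singleton_subset_iff.2 ?_)))
      simpa [mul_assoc] using b2.conj_mem _ h0 g₀
  set X := {g | g⁻¹ * x * g ∈ M}
  have key : ∀ u v : G, u⁻¹ * v ∈ A → f (u⁻¹ * v) ∉ C1[f x] →
      Disjoint ((u * ·) '' X) ((v * ·) '' X) := fun u v hd h => by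
    rw [Set.disjoint_left]
    rintro _ ⟨g, hg, rfl⟩ ⟨g', hg', e⟩
    obtain rfl : g = u⁻¹ * v * g' := by rw [mul_assoc, show v * g' = u * g from e]; group
    generalize u⁻¹ * v = d at *
    refine h (mem_cent1.2 ?_)
    have e1 : g'⁻¹ * (d⁻¹ * (x * d * x⁻¹)) * g' ∈ A ⊓ M := mem_inf.2 ⟨a1.conj_mem' _
      (mul_mem (inv_mem hd) (a1.conj_mem _ hd x)) _, by
        convert M.mul_mem hg (M.inv_mem hg') using 1; group⟩
    have e2 := (hf _).2 (a7.conj_mem _ e1 g')
    simp only [map_mul, map_inv] at e2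
    rw [← mul_right_inj (f d)⁻¹, ← mul_left_inj (f x)⁻¹]
    rw [← e2.symm.trans (by group : _ = (f d)⁻¹ * (f x * f d) * (f x)⁻¹)]
    group
  have c : ∀ u : G, ((u * ·) '' X).ncard = X.ncard := fun u =>
    Set.ncard_image_of_injective _ (mul_right_injective u)
  have d := Set.ncard_le_card (((1 * ·) '' X ∪ (a * ·) '' X) ∪ (b * ·) '' X)
  rw [Set.ncard_union_eq (Set.disjoint_union_left.2 ⟨key 1 b (by simpa) (by simpa), key a b
    (mul_mem (inv_mem ha) hb) (by simpa)⟩), Set.ncard_union_eq (key 1 a (by simpa) (by simpa)),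
    c, c, c] at d
  omega

theorem fpr [Group.IsSolvable G] {x : G} {p : ℕ} (hp : Odd p) (hxp : x ^ p = 1)
    (hg : normalClosure {x} = ⊤) {X : Type*} [MulAction G X] (a : X)
    (h : MulAction.stabilizer G a ≠ ⊤) :
    3 * Nat.card {l // l ∈ MulAction.orbit G a ∧ x • l = l} ≤ Nat.card (MulAction.orbit G a) := by
  have h1 := fpr_grp hp hxp hg h
  have h2 : ∀ l : {l // l ∈ MulAction.orbit G a ∧ x • l = l}, ∃ g : G, g • a = l := fun l => l.2.1
  choose r hr using h2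
  have h3 : Nat.card ({l // l ∈ MulAction.orbit G a ∧ x • l = l} × MulAction.stabilizer G a) ≤
      Nat.card {g | g⁻¹ * x * g ∈ MulAction.stabilizer G a} := by
    refine Nat.card_le_card_of_injective (fun q => ⟨r q.1 * q.2, ?_⟩) ?_
    · have := q.2.2
      simp only [MulAction.mem_stabilizer_iff, Set.mem_ofPred_eq, mul_smul] at this ⊢
      rw [this, hr, q.1.2.2, inv_smul_eq_iff, mul_smul, this, hr]
    · rintro ⟨l, s⟩ ⟨l', s'⟩ e
      have e1 : r l * s = r l' * s' := congrArg Subtype.val e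
      obtain rfl : l = l' := Subtype.ext (by
        rw [← hr l, ← hr l', ← s.2, ← mul_smul, e1, mul_smul, s'.2, s.2])
      rw [Subtype.ext (mul_left_cancel e1)]
  rw [Nat.card_prod, Nat.card_coe_set_eq] at h3
  have h4 := (MulAction.stabilizer G a).index_mul_card
  rw [MulAction.index_stabilizer, ← Nat.card_coe_set_eq] at h4
  have h5 : 0 < Nat.card (MulAction.stabilizer G a) := Nat.card_pos
  refine Nat.le_of_mul_le_mul_right ?_ h5
  nlinarith

variable {F V : Type*} [Field F] [AddCommGroup V] [Module F V] [FiniteDimensional F V]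

omit [Finite G] in
theorem eig_le {T Y : End F V} (hY : Function.Injective Y) {c : F} (h : T * Y = c • (Y * T))
    (a : F) : finrank F (T.eigenspace a) ≤ finrank F (T.eigenspace (c * a)) :=
  LinearMap.finrank_le_finrank_of_injective (f := Y.restrict fun v hv => by
      rw [End.mem_eigenspace_iff] at hv ⊢
      rw [← End.mul_apply, h, LinearMap.smul_apply, End.mul_apply, hv, map_smul, mul_smul])
    fun a b e => Subtype.ext (hY (congrArg Subtype.val e))

theorem eig_two (T : End F V) {a b : F} (h : a ≠ b) :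
    finrank F (T.eigenspace a) + finrank F (T.eigenspace b) ≤ finrank F V :=
  Submodule.finrank_add_finrank_le_of_disjoint (T.eigenspaces_iSupIndep.pairwiseDisjoint h)

theorem eig_three (T : End F V) {a b c : F} (h1 : a ≠ b) (h2 : a ≠ c) (h3 : b ≠ c) :
    finrank F (T.eigenspace a) + finrank F (T.eigenspace b) + finrank F (T.eigenspace c) ≤
      finrank F V := by
  have a1 := Submodule.finrank_sup_add_finrank_inf_eq (T.eigenspace a) (T.eigenspace b)
  rw [(T.eigenspaces_iSupIndep.pairwiseDisjoint h1).eq_bot, finrank_bot] at a1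
  have a2 := Submodule.finrank_add_finrank_le_of_disjoint ((T.eigenspaces_iSupIndep c).mono_right
    (sup_le (le_iSup₂_of_le (f := fun j (_ : j ≠ c) => T.eigenspace j) a h2 le_rfl)
      (le_iSup₂_of_le (f := fun j (_ : j ≠ c) => T.eigenspace j) b h3 le_rfl)))
  omega

/-- `Q` is a subgroup of class two whose centre acts by scalars -/
structure HS (ρ : G →* End F V) (Q : Subgroup G) : Prop where
  inj : ρ.ker = ⊥
  card : (Nat.card Q : F) ≠ 0
  comm : ⁅Q, Q⁆ ≤ C[Q]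
  scal : ∀ z ∈ Q ⊓ C[Q], ∃ c : F, ρ z = c • 1

/-- the order of `[Q / Z(Q), x]` -/
noncomputable def sx (Q : Subgroup G) (x : G) : ℕ :=
  (Q ⊓ C[Q]).relIndex (⁅Q, zpowers x⁆ ⊔ Q ⊓ C[Q])

variable {ρ : G →* End F V} {Q : Subgroup G} {x : G} {p : ℕ}

theorem HS.injective (h : HS ρ Q) : Function.Injective ρ := (MonoidHom.ker_eq_bot_iff ρ).1 h.inj

theorem HS.cen (h : HS ρ Q) : Q ⊓ C[Q] ≤ center G := fun z hz => by
  obtain ⟨c, hc⟩ := h.scal z hz
  exact mem_center_iff.2 fun g => h.injective (by rw [map_mul, map_mul, hc]; simp)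

theorem HS.heis (h : HS ρ Q) : Heis (ρ.comp Q.subtype) ((Q ⊓ C[Q]).subgroupOf Q) where
  comm z hz := ⟨z.2, h.comm (by rw [← map_subtype_commutator]; exact mem_map_of_mem _ hz)⟩
  scal z hz := h.scal z hz
  nondeg z hz := ⟨z.2, mem_cent.2 fun y hy => h.injective (by
    rw [map_mul, map_mul]; exact (hz ⟨y, hy⟩).symm)⟩

theorem HS.p_case (h : HS ρ Q) [hp : Fact p.Prime] (hQ : IsPGroup p Q) (hx : x ∈ N[Q])
    (ho : orderOf x = p) (hn : ¬ ⁅⁅Q, zpowers x⁆ ⊔ Q ⊓ C[Q], zpowers x⁆ ≤ Q ⊓ C[Q]) :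
    p * p ≤ sx Q x := by
  have hX : zpowers x ≤ N[Q] := zpowers_le.2 hx
  set Z := Q ⊓ C[Q]
  set L := ⁅Q, zpowers x⁆ ⊔ Z with hL
  have hLQ : L ≤ Q := sup_le (comm_le_left hX) inf_le_left
  have hXL : zpowers x ≤ N[L] := norm_sup (norm_comm hX (le_norm _)) (norm_inf hX (norm_cent hX))
  have hY : ⁅L, zpowers x⁆ ⊔ Z ≤ L := sup_le (comm_le_left hXL) le_sup_right
  have hL' := hQ.to_le hLQ
  rw [sx, ← relIndex_mul_relIndex Z _ L le_sup_right hY]
  obtain ⟨a, ha⟩ := H9.relIndex_eq_pow (hL'.to_le hY) Z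
  obtain ⟨b, hb⟩ := H9.relIndex_eq_pow hL' (⁅L, zpowers x⁆ ⊔ Z)
  have k : ∀ a, p ^ a ≠ 1 → p ≤ p ^ a := fun a h =>
    Nat.le_self_pow (by rintro rfl; simp at h) p
  rw [ha, hb]
  refine Nat.mul_le_mul (k a fun e => hn ?_) (k b fun e => hn ?_)
  · exact le_sup_left.trans (relIndex_eq_one.1 (ha.trans e))
  · have h1 := relIndex_eq_one.1 (hb.trans e)
    by_contra h2
    refine (H2.comm_lt_of_pgroup (hL'.to_le (comm_le_left hXL))
      (IsPGroup.of_card (n := 1) (by rw [Nat.card_zpowers, ho, pow_one]))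
      (norm_comm hXL (le_norm _)) fun e => h2 (e ▸ bot_le)).not_ge ?_
    refine (commutator_mono h1 le_rfl).trans (H15.comm_sup_left_le le_rfl ?_ ?_ ?_)
    · rw [comm_eq_bot.2 (h.cen.trans (center_le_centralizer _))]; exact bot_le
    · exact normalizer_commutator_ge_left _ _
    · exact norm_of_cent (h.cen.trans (center_le_centralizer _))

variable [IsAlgClosed F] [Nontrivial V]

theorem HS.count (h : HS ρ Q) (hx : x ∈ N[Q]) (hp : p.Prime) (hxp : x ^ p = 1) :
    sx Q x * (p * finrank F (Cm (ρ x))) + finrank F V ^ 2 ≤ finrank F V ^ 2 * (p + sx Q x) := by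
  have hL : ⁅Q, zpowers x⁆ ⊔ Q ⊓ C[Q] ≤ Q := sup_le (comm_le_left (zpowers_le.2 hx)) inf_le_left
  rw [sx, ← relIndex_subgroupOf hL]
  refine heis_count h.heis h.card (rep_mul_inv ρ x) (rep_inv_mul ρ x)
    (α := Q.normalizerMonoidHom ⟨x, hx⟩) (fun k => ?_) hp ?_
    (subgroupOf_mono Q le_sup_right) fun X h1 h2 => ?_
  · simp only [MonoidHom.comp_apply, subtype_apply, normalizerMonoidHom_apply_apply_coe,
      ← map_mul, inv_mul_cancel_right]
  · rw [← map_pow, show (⟨x, hx⟩ : N[Q]) ^ p = 1 from Subtype.ext hxp, map_one]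
  · rw [← map_subtype_le_map_subtype, subgroupOf_map_subtype]
    refine inf_le_left.trans (sup_le (H17.Fv.comm_le_of hx fun k hk => ⟨_, h2 ⟨k, hk⟩, rfl⟩) ?_)
    intro z hz
    exact ⟨⟨z, hz.1⟩, h1 hz, rfl⟩

theorem HS.big (h : HS ρ Q) (hx : x ∈ N[Q]) (hp : p.Prime) (hxp : x ^ p = 1) (h5 : 5 ≤ p)
    (hs : 16 ≤ sx Q x) {a : F} (ha : a ≠ 0) (hT : ρ x ≠ a • 1) :
    2 * finrank F ((ρ x).eigenspace a) < finrank F V := by
  have h1 := h.count hx hp hxp
  have h2 := sq_lt_Cm (T := a⁻¹ • ρ x) (fun e => hT (by rw [← e, smul_inv_smul₀ ha]))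
    ((ρ x).eigenspace a) fun v hv => by
      rw [LinearMap.smul_apply, End.mem_eigenspace_iff.1 hv, inv_smul_smul₀ ha]
  rw [Cm_smul _ (inv_ne_zero ha)] at h2
  generalize finrank F (Cm (ρ x)) = J at *
  generalize finrank F ((ρ x).eigenspace a) = j at *
  generalize finrank F V = D at *
  generalize sx Q x = s at *
  by_contra h3
  have h4 : D ^ 2 < 4 * J := by nlinarith
  obtain ⟨s, rfl⟩ := Nat.exists_eq_add_of_le hs
  obtain ⟨p, rfl⟩ := Nat.exists_eq_add_of_le h5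
  have h6 := Nat.mul_lt_mul_of_pos_left h4 (k := (16 + s) * (5 + p)) (by positivity)
  nlinarith [Nat.zero_le (D ^ 2 * s * p), Nat.zero_le (D ^ 2 * s), Nat.zero_le (D ^ 2 * p)]

theorem HS.cop_le (h : HS ρ Q) (hx : x ∈ N[Q]) (hc : (Nat.card Q).Coprime (orderOf x)) :
    (⁅Q, zpowers x⁆ ⊔ Q ⊓ C[Q]) ⊓ C1[x] ≤ Q ⊓ C[Q] := by
  have hX : zpowers x ≤ N[Q] := zpowers_le.2 hx
  have hL : ⁅Q, zpowers x⁆ ⊔ Q ⊓ C[Q] ≤ Q := sup_le (comm_le_left hX) inf_le_left
  have key : Q ⊓ C[zpowers x] ≤ C[⁅Q, zpowers x⁆] := fun c hc => mem_cent.2 fun a ha => by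
    have := H9.comm_cent_le_kerOn (ρ := ρ) (U := ⊤) (by simp [H9.stabOn_top])
      (by simp [H9.stabOn_top]) hX (fun z hz => by
        obtain ⟨c, hc⟩ := h.scal z ⟨der_le Q hz, h.comm hz⟩
        exact ⟨c, fun w _ => by simp [hc]⟩) hc a ha
    rw [H9.kerOn_top, h.inj, mem_bot] at this
    exact commutatorElement_eq_one_iff_mul_comm.1 this
  refine le_inf (inf_le_left.trans hL) ?_
  conv_rhs => rw [← cop_comm_sup_cent hX (by rw [Nat.card_zpowers]; exact hc.symm)
    (Or.inl (sol_of_comm (comm_of_cyclic (cyclic_zpowers x))))]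
  refine le_cent_sup ((inf_le_inf hL (cent_zpowers x).ge).trans key) (inf_le_left.trans
    (sup_le (cent_symm key) (inf_le_right.trans (cent_anti inf_le_left))))

theorem HS.cop_case (h : HS ρ Q) (hx : x ∈ N[Q]) (hp : p.Prime) (ho : orderOf x = p)
    (hc : (Nat.card Q).Coprime p) : ∃ m, sx Q x = m ^ 2 ∧ p ∣ m ^ 2 - 1 := by
  have hX : zpowers x ≤ N[Q] := zpowers_le.2 hx
  have hL : ⁅Q, zpowers x⁆ ⊔ Q ⊓ C[Q] ≤ Q := sup_le (comm_le_left hX) inf_le_left
  have hc' : (Nat.card (zpowers x)).Coprime (Nat.card Q) := by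
    rw [Nat.card_zpowers, ho]; exact hc.symm
  obtain ⟨m, hm⟩ := H9.sq_relIndex (ρ := ρ) (U := ⊤) top_ne_bot (by simp [H9.stabOn_top])
    (by simp [H9.stabOn_top]) hX hc' (Or.inl (sol_of_comm (comm_of_cyclic (cyclic_zpowers x))))
    h.card fun z hz => by
      obtain ⟨c, hc⟩ := h.scal z ⟨der_le Q hz, h.comm hz⟩
      exact ⟨c, fun w _ => by simp [hc]⟩
  have e : H9.relC Q (H9.kerOn ρ ⊤) = Q ⊓ C[Q] := by
    ext k
    rw [H9.kerOn_top, h.inj, H9.mem_relC (by rw [norm_bot]; exact le_top), mem_inf, mem_cent]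
    simp only [mem_bot, commutatorElement_eq_one_iff_mul_comm, eq_comm]
  rw [e] at hm
  refine ⟨m, hm, ?_⟩
  have := H9.semireg_dvd (H := zpowers x) (Q := ⁅Q, zpowers x⁆ ⊔ Q ⊓ C[Q]) (Z := Q ⊓ C[Q])
    (norm_sup (norm_comm hX (le_norm _)) (norm_inf hX (norm_cent hX))) (norm_inf hX (norm_cent hX))
    le_sup_right (hL.trans (norm_inf (le_norm Q) (norm_cent (le_norm Q))))
    (hc'.coprime_dvd_right (card_dvd_of_le inf_le_left)) fun y hy h1 => by
      refine le_trans (inf_le_inf_left _ ?_) (h.cop_le hx (ho ▸ hc))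
      have : Fact (Nat.card (zpowers x)).Prime := ⟨by rwa [Nat.card_zpowers, ho]⟩
      have h2 : x ∈ zpowers y := by
        have := zpowers_eq_top_of_prime_card (G := zpowers x) rfl (g := ⟨y, hy⟩)
          (fun e => h1 (congrArg Subtype.val e))
        obtain ⟨k, hk⟩ := (this ▸ mem_top (⟨x, mem_zpowers x⟩ : zpowers x) :
          (⟨x, mem_zpowers x⟩ : zpowers x) ∈ zpowers ⟨y, hy⟩)
        exact ⟨k, congrArg Subtype.val hk⟩
      rw [← cent_zpowers y]
      exact cent_le_cent1 h2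
  rwa [Nat.card_zpowers, ho, hm] at this

end H12.Rb
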