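import Cfsg.Agent.H12.Rb3
import Cfsg.Agent.H12.KW3
import Cfsg.Agent.H10.SCN
import Cfsg.Agent.H20.CR1
import Cfsg.Agent.H19.Fr1

/-! Robinson's bound for the fixed space of a generating class of prime order `> 3`. -/

set_option autoImplicit false
set_option linter.unusedSectionVars false

namespace H12.Rb
open Module H2 Subgroup H16 Cfsg
open scoped commutatorElement

universe u
variable {G : Type*} [Group G] [Finite G] [Group.IsSolvable G]
variable {F V : Type*} [Field F] [AddCommGroup V] [Module F V] [FiniteDimensional F V]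
variable {ρ : G →* End F V} {x : G} {p : ℕ}

theorem cen_of (hg : normalClosure {x} = ⊤) (X : Subgroup G) [X.Normal] (h : X ≤ C1[x]) :
    X ≤ center G := fun z hz => mem_center_iff.2 fun g =>
  (mem_cent.1 ((hg ▸ normalClosure_le_normal (Set.singleton_subset_iff.2 (le_cent1.1 h)) :
    ⊤ ≤ C[X]) (mem_top g)) z hz).symm

theorem abelian_case [IsAlgClosed F] [Nontrivial V] (hi : ρ.ker = ⊥) (hs : IsSimp ρ) (hp : p.Prime)
    (h5 : 5 ≤ p) (hx : x ^ p = 1) (hg : normalClosure {x} = ⊤) (N : Subgroup G) [N.Normal]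
    (hN : (Nat.card N : F) ≠ 0) (h1 : N ≤ C[N]) (h2 : ¬ N ≤ center G) :
    2 * finrank F ((ρ x).eigenspace 1) < finrank F V := by
  classical
  let σ := ρ.comp N.subtype
  have hc : _root_.commutator N ≤ σ.ker := by
    have := comm_iff.2 h1
    rw [commutator_eq_bot]; exact bot_le
  have hT : ∀ g k, ρ g * σ k = σ (MulAut.conjNormal g k) * ρ g := fun g k => by
    simp only [σ, MonoidHom.comp_apply, subtype_apply, MulAut.conjNormal_apply, ← map_mul,
      inv_mul_cancel_right]
  have hinj : ∀ g, Function.Injective (ρ g) := fun g a b e => by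
    rw [← rep_inv_apply ρ g a, e, rep_inv_apply]
  letI : MulAction G (N →* Fˣ) := MulAction.compHom _ ((dAct N Fˣ).comp MulAut.conjNormal)
  have hsm : ∀ (g : G) (l : N →* Fˣ), g • l = dAct N Fˣ (MulAut.conjNormal g) l := fun _ _ => rfl
  obtain ⟨l₀, h0⟩ : ∃ l, wsp σ l ≠ ⊥ := by
    by_contra h
    push Not at h
    have := fix_commutator_le σ hN (U := ⊥) fun l => (h l).le
    rw [fix_eq_top_iff.2 hc] at this
    exact top_ne_bot (le_bot_iff.1 this)
  have h3 : ⨆ g : G, wsp σ (g • l₀) = ⊤ := (hs _ fun k u hu => by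
    have : (⨆ g : G, wsp σ (g • l₀)) ≤ (⨆ g : G, wsp σ (g • l₀)).comap (ρ k) :=
      iSup_le fun g v hv => Submodule.mem_iSup_of_mem (k * g) (by
        rw [mul_smul]; exact wsp_dAct (hT k) hv)
    exact this hu).resolve_left fun e => h0 (le_bot_iff.1 (e ▸ le_iSup_of_le 1 (by rw [one_smul])))
  have h4 : ∀ g (l : N →* Fˣ), finrank F (wsp σ (g • l)) = finrank F (wsp σ l) := fun g l => by
    have a := finrank_wsp_le (hT g) (hinj g) l
    have b := finrank_wsp_le (hT g⁻¹) (hinj g⁻¹) (g • l)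
    rw [← hsm, inv_smul_smul] at b
    exact le_antisymm b a
  have h6 : ∀ l, wsp σ l ≠ ⊥ ↔ l ∈ MulAction.orbit G l₀ := fun l => by
    refine ⟨fun h => by_contra fun h' => h ?_, ?_⟩
    · have := Fintype.ofFinite N
      rw [← range_wp σ (by rwa [← Nat.card_eq_fintype_card]), LinearMap.range_eq_bot,
        ← LinearMap.ker_eq_top, eq_top_iff, ← h3]
      exact iSup_le fun g v hv => wp_apply_ne σ (fun e => h' ⟨g, e.symm⟩) hv
    · rintro ⟨g, rfl⟩ e
      exact h0 (Submodule.finrank_eq_zero.1 (by rw [← h4 g, show g • l₀ = _ from rfl, e, finrank_bot]))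
  have h7 : ∀ l, wsp σ l ≠ ⊥ → finrank F (wsp σ l) = finrank F (wsp σ l₀) := fun l h => by
    obtain ⟨g, rfl⟩ := (h6 l).1 h
    exact h4 g l₀
  have a1 := finrank_eq_mul σ hN hc h7
  have a2 := wt_count σ hN hc (hT x) (hinj x) hp (by rw [← map_pow, hx, map_one])
    (m := finrank F (wsp σ l₀)) (fun l => by
      by_cases h : wsp σ l = ⊥
      · rw [h, finrank_bot]; exact Nat.zero_le _
      · exact (h7 l h).le) ((ρ x).eigenspace 1) fun v hv => by
    simpa using End.mem_eigenspace_iff.1 hv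
  have a3 := fpr (hp.odd_of_ne_two (by omega)) hx hg l₀ fun e => h2 fun z hz => by
    have b : wsp σ l₀ = ⊤ := by
      rw [eq_top_iff, ← h3]
      exact iSup_le fun g => by rw [show g • l₀ = l₀ from (e ▸ mem_top g : g ∈ MulAction.stabilizer G l₀)]
    have c : ρ z = (l₀ ⟨z, hz⟩ : F) • 1 := LinearMap.ext fun v =>
      (b ▸ Submodule.mem_top : v ∈ wsp σ l₀) ⟨z, hz⟩
    exact mem_center_iff.2 fun g => (MonoidHom.ker_eq_bot_iff ρ).1 hi (by
      rw [map_mul, map_mul, c]; simp)
  simp only [h6, ← hsm] at a1 a2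
  have a4 : 0 < finrank F V := finrank_pos
  change 3 * _ ≤ Nat.card {l // l ∈ MulAction.orbit G l₀} at a3
  generalize Nat.card {l // l ∈ MulAction.orbit G l₀} = t at *
  generalize Nat.card {l // l ∈ MulAction.orbit G l₀ ∧ x • l = l} = f at *
  generalize finrank F (wsp σ l₀) = m at *
  obtain ⟨p, rfl⟩ := Nat.exists_eq_add_of_le h5
  by_contra h
  have b1 := Nat.mul_le_mul_left (m * (4 + p)) a3
  have b2 := Nat.mul_le_mul_left (3 * (5 + p)) (not_lt.1 h)
  nlinarith [Nat.zero_le (m * t * p)]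

theorem simple_case [IsAlgClosed F] [Nontrivial V] (l : ℕ) [Fact l.Prime] [CharP F l]
    (hi : ρ.ker = ⊥) (hs : IsSimp ρ) (hp : p.Prime)
    (h5 : 5 ≤ p) (hx : orderOf x = p) (hg : normalClosure {x} = ⊤) :
    2 * finrank F ((ρ x).eigenspace 1) < finrank F V := by
  have hinj := (MonoidHom.ker_eq_bot_iff ρ).1 hi
  have hxp : x ^ p = 1 := hx ▸ pow_orderOf_eq_one x
  have hx1 : ρ x ≠ (1 : F) • 1 := fun e => by
    rw [hinj (a₁ := x) (a₂ := 1) (by simpa using e), orderOf_one] at hx; omega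
  have hD : 0 < finrank F V := finrank_pos
  have hsc : ∀ z ∈ center G, ∃ c : F, ρ z = c • 1 := fun z hz => hs.exists_scalar fun k => by
    rw [← map_mul, ← map_mul, mem_center_iff.1 hz]
  by_cases h0 : x ∈ center G
  · obtain ⟨c, hc⟩ := hsc x h0
    have : (ρ x).eigenspace 1 = ⊥ := by
      rw [eq_bot_iff]
      intro v hv
      have := End.mem_eigenspace_iff.1 hv
      rw [hc] at this
      by_contra h
      exact hx1 (by rw [hc, smul_left_injective F h (by simpa using this : c • v = (1 : F) • v)])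
    rw [this, finrank_bot]; omega
  obtain ⟨N, ⟨n1, n2⟩, -, n4⟩ := H1.exists_minimal_le
    (fun A : Subgroup G => A.Normal ∧ ¬ A ≤ center G) (N := ⊤) ⟨inferInstance, fun h => h0 (h trivial)⟩
  have hm : ∀ X : Subgroup G, X.Normal → X < N → X ≤ center G := fun X a b =>
    by_contra fun h => b.ne (n4 X ⟨a, h⟩ b.le)
  have n0 : N ≠ ⊥ := fun e => n2 (e ▸ bot_le)
  have n5 : ⁅N, N⁆ ≤ C[N] := (hm _ inferInstance (H1.commutator_self_lt inferInstance n0)).trans
    (center_le_centralizer _)
  obtain ⟨q, hq, n6⟩ : ∃ q, q.Prime ∧ Pg[q] N := by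
    by_contra h
    push Not at h
    refine n2 (H15.le_of_piCoreOf_le (H12.KW.nil_two n5) fun q hq _ => hm _
      (normalizer_eq_top_iff.1 (top_le_iff.1 (H15.le_norm_piCoreOf _ le_normalizer_of_normal)))
      (lt_of_le_of_ne (H15.piCoreOf_le _ _) fun e => h q hq (e ▸ H15.isPi_piCoreOf _ _)))
  have := Fact.mk hq
  have n7 : IsPGroup q N := H15.Cfsg.IsPiSubgroup.isPGroup n6
  have n8 : (Nat.card N : F) ≠ 0 := by
    refine H9.natCast_ne_zero_of_coprime' F (p := l) (H15.Cfsg.IsPiSubgroup.coprime_p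
      (H15.Cfsg.IsPiSubgroup.compl_of_ne n6 ?_))
    rintro rfl
    obtain ⟨w, hw⟩ := exists_ne (0 : V)
    obtain ⟨v, h1, h2⟩ := H20.CR.exists_fix q ρ n7 hw
    rcases hs (fix ρ N) (fun k u hu s hs => by
      rw [← End.mul_apply, ← map_mul, show s * k = k * (k⁻¹ * s * k) by group, map_mul,
        End.mul_apply, hu _ (n1.conj_mem' _ hs k)]) with h | h
    · exact h1 ((Submodule.mem_bot F).1 (h ▸ (h2 : v ∈ fix ρ N)))
    · exact n0 (le_bot_iff.1 (hi ▸ fix_eq_top_iff.1 h))
  by_cases h1 : N ≤ C[N]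
  · exact abelian_case hi hs hp h5 hxp hg N n8 h1 n2
  have hZ := hm (N ⊓ C[N]) inferInstance (inf_lt_left.2 h1)
  have H : HS ρ N := ⟨hi, n8, n5, fun z hz => hsc z (hZ hz)⟩
  have hxN : x ∈ N[N] := le_normalizer_of_normal (mem_top x)
  by_cases h2 : ∃ y ∈ N, ⁅x, y⁆ ∈ center G ∧ ⁅x, y⁆ ≠ 1
  · obtain ⟨y, -, h3, h4⟩ := h2
    obtain ⟨c, hc⟩ := hsc _ h3
    have e : ρ x * ρ y = c • (ρ y * ρ x) := by
      rw [← map_mul, show x * y = ⁅x, y⁆ * (y * x) by rw [commutatorElement_def]; group, map_mul,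
        hc, map_mul]; simp
    have hy : Function.Injective (ρ y) := fun a b e => by
      rw [← rep_inv_apply ρ y a, e, rep_inv_apply]
    have c1 : c ≠ 1 := fun e => h4 (hinj (by rw [hc, e]; simp))
    have c2 : c ^ p = 1 := by
      have : ⁅x, y⁆ ^ p = 1 := by
        have a : ∀ k : ℕ, x ^ k * y = ⁅x, y⁆ ^ k * (y * x ^ k) := fun k => by
          induction k with
          | zero => simp
          | succ k ih =>
            have b := mem_center_iff.1 (pow_mem h3 k) x
            rw [pow_succ', mul_assoc, ih, ← mul_assoc, b, pow_succ, commutatorElement_def x y]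
            group
        simpa [hxp] using (a p).symm
      have b := congrArg ρ this
      rw [map_pow, hc, smul_pow, one_pow, map_one] at b
      exact smul_left_injective F (one_ne_zero' (End F V)) (by simpa using b)
    have c0 : c ≠ 0 := by rintro rfl; simp [hp.ne_zero] at c2
    have a1 := eig_le hy e 1
    have a2 := eig_le hy e (c * 1)
    have a3 := eig_three (ρ x) (a := 1) (b := c * 1) (c := c * (c * 1)) (by simpa using c1.symm)
      (fun e => c1 (by
        obtain ⟨k, rfl⟩ := hp.odd_of_ne_two (by omega)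
        rw [pow_succ, pow_mul, sq, ← mul_one (c * c), mul_assoc, ← e] at c2
        simpa using c2)) (by simpa [c0] using c1)
    omega
  push Not at h2
  have h3 : ∀ Y ≤ N, ⁅Y, zpowers x⁆ ≤ center G → Y ≤ C1[x] := fun Y a b y hy =>
    mem_cent1.2 (commutatorElement_eq_one_iff_mul_comm.1 (h2 y (a hy) (by
      rw [commutator_comm] at b
      exact b (commutator_mem_commutator (mem_zpowers x) hy)))).symm
  have h4 : ¬ ⁅N, zpowers x⁆ ≤ center G := fun e => n2 (cen_of hg N (h3 N le_rfl e))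
  refine H.big hxN hp hxp h5 ?_ one_ne_zero hx1
  by_cases h6 : q = p
  · subst h6
    refine le_trans (by nlinarith) (H.p_case n7 hxN hx fun e => h4 ?_)
    have b1 := h3 _ (sup_le (comm_le_left le_normalizer_of_normal) inf_le_left) (e.trans hZ)
    have b2 := H10.pStableOn_of_solvable h5 N n7 x (comm_eq_bot.2 (by
      rw [cent_zpowers]; exact le_sup_left.trans b1))
    obtain ⟨S, hS⟩ := (IsPGroup.of_card (G := zpowers x) (n := 1)
      (by rw [Nat.card_zpowers, hx, pow_one])).exists_le_sylow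
    have b3 : pCore q (G ⧸ C[N]) = ⊤ := by
      have : (⊤ : Subgroup G) ≤ (pCore q (G ⧸ C[N])).comap (QuotientGroup.mk' C[N]) :=
        hg ▸ normalClosure_le_normal (Set.singleton_subset_iff.2 b2)
      rw [eq_top_iff]
      intro g _
      obtain ⟨g, rfl⟩ := QuotientGroup.mk_surjective g
      exact this (mem_top g)
    have b4 : (S : Subgroup G) ⊔ C[N] = ⊤ := by
      have := (S.mapSurjective (QuotientGroup.mk'_surjective C[N])).3
        (b3 ▸ H1.isPGroup_pCore q) le_top
      rw [← QuotientGroup.ker_mk' C[N], ← comap_map_eq, ← Sylow.coe_mapSurjective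
        (QuotientGroup.mk'_surjective C[N]), ← this, comap_top]
    refine (commutator_mono le_rfl hS).trans (hm _ (normalizer_eq_top_iff.1 (top_le_iff.1 (b4 ▸ sup_le
      (normalizer_commutator_ge_right _ _) (norm_of_cent (cent_anti
        (comm_le_left le_normalizer_of_normal)))))) (comm_lt_of_pgroup n7 S.isPGroup'
          le_normalizer_of_normal n0))
  · have := Fact.mk hp
    obtain ⟨m, b1, b2⟩ := H.cop_case hxN hp hx (H15.Cfsg.IsPiSubgroup.coprime_p
      (H15.Cfsg.IsPiSubgroup.compl_of_ne n6 h6))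
    have b3 : m ^ 2 ≠ 1 := fun e => h4 (le_sup_left.trans ((relIndex_eq_one.1 (b1.trans e)).trans hZ))
    have b4 : m ^ 2 ≠ 0 := b1 ▸ (H16.relIndex_pos _ _).ne'
    have b5 : 2 ≤ m := by
      rcases m with _ | _ | m
      · simp at b4
      · simp at b3
      · omega
    rw [show m ^ 2 - 1 = (m + 1) * (m - 1) from Nat.sq_sub_sq m 1, hp.dvd_mul] at b2
    have b6 : 4 ≤ m := by
      rcases b2 with b | b
      · have := Nat.le_of_dvd (by omega) b; omega
      · have := Nat.le_of_dvd (by omega) b; omega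
    nlinarith

end H12.Rb
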