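import Cfsg.Agent.H12.Rb4

/-! Robinson's bound for arbitrary modules, and Flavell's lemma on `F(A) V`. -/

set_option autoImplicit false
set_option linter.unusedSectionVars false

namespace H12.Rb
open Module H2 Subgroup H16 Cfsg
open scoped commutatorElement

universe u
variable {G : Type*} [Group G] [Finite G] {F : Type*} [Field F] {x : G} {p : ℕ}

theorem sum_eq_zero {V : Type*} [AddCommGroup V] [Module F V] (ρ : G →* End F V) (N : Subgroup G)
    [Fintype N] (h : fix ρ N = ⊥) : ∑ k : N, ρ k = 0 := by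
  refine LinearMap.ext fun v => (Submodule.mem_bot F).1 (h ▸ fun s hs => ?_)
  rw [← End.mul_apply, Finset.mul_sum]
  simp only [← map_mul]
  exact congrArg (fun t : End F V => t v)
    (Fintype.sum_equiv (Equiv.mulLeft (⟨s, hs⟩ : N)) _ (fun k : N => ρ k) fun _ => rfl)

theorem gen_aux [Group.IsSolvable G] [IsAlgClosed F] (l : ℕ) [Fact l.Prime] [CharP F l]
    (hp : p.Prime) (h5 : 5 ≤ p) (hx : x ^ p = 1) (hg : normalClosure {x} = ⊤) (N : Subgroup G)
    [Fintype N] (hN : (Nat.card N : F) ≠ 0) (n : ℕ) :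
    ∀ (V : Type u) [AddCommGroup V] [Module F V] [FiniteDimensional F V] (ρ : G →* End F V),
      finrank F V = n → n ≠ 0 → ∑ k : N, ρ k = 0 → 2 * finrank F ((ρ x).eigenspace 1) < n := by
  induction n using Nat.strong_induction_on with
  | _ n ih =>
  intro V _ _ _ ρ hn h0 hs
  have : Nontrivial V := finrank_pos_iff.1 (hn ▸ Nat.pos_of_ne_zero h0)
  by_cases h : IsSimp ρ
  · have := Fact.mk hp
    let τ : G ⧸ ρ.ker →* End F V := QuotientGroup.lift ρ.ker ρ fun _ h => h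
    have hτ : ∀ g : G, τ g = ρ g := fun _ => rfl
    rw [← hn, ← hτ]
    refine simple_case (ρ := τ) (x := (x : G ⧸ ρ.ker)) l (eq_bot_iff.2 fun g hg => ?_)
      (fun U hU => h U fun k => hτ k ▸ hU (k : G ⧸ ρ.ker)) hp h5
      (orderOf_eq_prime ?_ fun e => hN ?_) ?_
    · obtain ⟨g, rfl⟩ := QuotientGroup.mk_surjective g
      exact (QuotientGroup.eq_one_iff g).2 hg
    · rw [← QuotientGroup.mk_pow, hx, QuotientGroup.mk_one]
    · have h1 : (⊤ : Subgroup G) ≤ ρ.ker := hg ▸ normalClosure_le_normal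
        (Set.singleton_subset_iff.2 ((QuotientGroup.eq_one_iff x).1 e))
      rw [Finset.sum_congr rfl fun (k : N) _ => (h1 (mem_top (k : G)) : ρ k = 1), Finset.sum_const,
        Finset.card_univ, ← Nat.card_eq_fintype_card, ← Nat.cast_smul_eq_nsmul F] at hs
      exact (smul_eq_zero.1 hs).resolve_right one_ne_zero
    · have := map_normalClosure {x} _ (QuotientGroup.mk'_surjective ρ.ker)
      rw [hg, Set.image_singleton, map_top_of_surjective _ (QuotientGroup.mk'_surjective _)] at this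
      exact this.symm
  · simp only [IsSimp, not_forall, not_or] at h
    obtain ⟨U, hU, h1, h2⟩ := h
    have a1 := Submodule.finrank_quotient_add_finrank U
    have a2 := Submodule.finrank_lt h2
    have a3 : finrank F U ≠ 0 := fun e => h1 (Submodule.finrank_eq_zero.1 e)
    have b1 := ih _ (hn ▸ a2) U (resRep ρ U hU) rfl a3 (LinearMap.ext fun v => Subtype.ext (by
      have := LinearMap.congr_fun hs v
      rw [LinearMap.sum_apply] at this ⊢
      simpa using this))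
    let τ : G →* End F (V ⧸ U) := Representation.quotient ρ U hU
    have b2 := ih (finrank F (V ⧸ U)) (by omega) (V ⧸ U) τ rfl (by omega) (LinearMap.ext fun v => by
      obtain ⟨v, rfl⟩ := U.mkQ_surjective v
      have := congrArg U.mkQ (LinearMap.congr_fun hs v)
      rw [LinearMap.sum_apply, map_sum] at this
      rw [LinearMap.sum_apply]
      exact this)
    let f := U.mkQ ∘ₗ ((ρ x).eigenspace 1).subtype
    have c1 := f.finrank_range_add_finrank_ker
    have c2 : finrank F (LinearMap.range f) ≤ finrank F ((τ x).eigenspace 1) :=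
      Submodule.finrank_mono (by
        rintro _ ⟨v, rfl⟩
        exact End.mem_eigenspace_iff.2 (congrArg U.mkQ (End.mem_eigenspace_iff.1 v.2)))
    have c3 : finrank F (LinearMap.ker f) ≤ finrank F ((resRep ρ U hU x).eigenspace 1) :=
      LinearMap.finrank_le_finrank_of_injective (f :=
        { toFun := fun v => ⟨⟨v, (Submodule.Quotient.mk_eq_zero _).1 v.2⟩,
            End.mem_eigenspace_iff.2 (Subtype.ext (End.mem_eigenspace_iff.1 v.1.2))⟩
          map_add' := fun _ _ => rfl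
          map_smul' := fun _ _ => rfl }) fun a b e => by
        have := congrArg (fun t => (t.1.1 : V)) e
        exact Subtype.ext (Subtype.ext this)
    omega

theorem gen_case [Group.IsSolvable G] [IsAlgClosed F] (l : ℕ) [Fact l.Prime] [CharP F l]
    (hp : p.Prime) (h5 : 5 ≤ p) (hx : x ^ p = 1) (hg : normalClosure {x} = ⊤) (N : Subgroup G)
    (hN : (Nat.card N : F) ≠ 0) {V : Type*} [AddCommGroup V] [Module F V] [FiniteDimensional F V]
    [Nontrivial V] (ρ : G →* End F V) (h : fix ρ N = ⊥) :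
    2 * finrank F ((ρ x).eigenspace 1) < finrank F V := by
  have := Fintype.ofFinite N
  exact gen_aux l hp h5 hx hg N hN _ V ρ rfl finrank_pos.ne' (sum_eq_zero ρ N h)

theorem fix_eq_fx {V : Type*} [AddCommGroup V] [Module F V] (ρ : G →* End F V) (S : Subgroup G) :
    H19.Fr.Fx ρ S = fix ρ S := by
  ext v; exact H19.Fr.mem_Fx

theorem fix_eq_eig {V : Type*} [AddCommGroup V] [Module F V] (ρ : G →* End F V) (x : G) :
    fix ρ (zpowers x) = (ρ x).eigenspace 1 := by
  ext v; rw [H9.mem_fix_zpowers, End.mem_eigenspace_iff, one_smul]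

theorem irr_case [Group.IsSolvable G] (l : ℕ) [Fact l.Prime] [CharP F l]
    (hp : p.Prime) (h5 : 5 ≤ p) (hx : orderOf x = p) (hg : normalClosure {x} = ⊤)
    {V : Type*} [AddCommGroup V] [Module F V] [FiniteDimensional F V]
    [Nontrivial V] (ρ : G →* End F V) (hi : ρ.ker = ⊥) (hs : IsSimp ρ) :
    2 * finrank F (fix ρ (zpowers x)) < finrank F V := by
  obtain ⟨q, hq, h1⟩ := H15.exists_pCoreOf_ne_bot (X := (⊤ : Subgroup G)) inferInstance fun e => by
    rw [show x = 1 from mem_bot.1 (e ▸ mem_top x), orderOf_one] at hx; omega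
  set N := Op[{q}] (⊤ : Subgroup G)
  have n1 : N.Normal := normalizer_eq_top_iff.1 (top_le_iff.1 (H15.le_norm_piCoreOf_self _ _))
  have n6 : Pg[q] N := H15.isPi_piCoreOf _ _
  have := Fact.mk hq
  have h2 : fix ρ N = ⊥ := (hs (fix ρ N) fun k u hu s hs => by
    rw [← End.mul_apply, ← map_mul, show s * k = k * (k⁻¹ * s * k) by group, map_mul,
      End.mul_apply, hu _ (n1.conj_mem' _ hs k)]).resolve_right fun h =>
    h1 (le_bot_iff.1 (hi ▸ fix_eq_top_iff.1 h))
  let K := AlgebraicClosure F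
  have : Nontrivial (TensorProduct F K V) := finrank_pos_iff.1 (by
    rw [finrank_baseChange (R := K)]; exact finrank_pos)
  have := gen_case (F := K) l hp h5 (hx ▸ pow_orderOf_eq_one x) hg N
    (H9.natCast_ne_zero_of_coprime' K (p := l) (H15.Cfsg.IsPiSubgroup.coprime_p
      (H15.Cfsg.IsPiSubgroup.compl_of_ne n6 (by
        rintro rfl
        obtain ⟨w, hw⟩ := exists_ne (0 : V)
        obtain ⟨v, h1, h3⟩ := H20.CR.exists_fix q ρ (pg_iff.1 n6) hw
        exact h1 ((Submodule.mem_bot F).1 (h2 ▸ (h3 : v ∈ fix ρ N)))))))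
    ((End.baseChangeHom F K V).toMonoidHom.comp ρ) (by
      rw [← fix_eq_fx, ← Submodule.finrank_eq_zero, H19.Fr.fx_base, fix_eq_fx, h2, finrank_bot])
  rwa [← fix_eq_eig, ← fix_eq_fx, H19.Fr.fx_base, fix_eq_fx, finrank_baseChange] at this

theorem exists_range_inf {V : Type*} [AddCommGroup V] [Module F V] [FiniteDimensional F V]
    {S T : End F V} (h1 : 2 * finrank F (S.eigenspace 1) < finrank F V)
    (h2 : 2 * finrank F (T.eigenspace 1) < finrank F V) :
    ∃ f g g' : V, f ≠ 0 ∧ f = S g - g ∧ f = T g' - g' := by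
  have k : ∀ S : End F V, finrank F (LinearMap.range (S - 1)) + finrank F (S.eigenspace 1) =
      finrank F V := fun S => by
    rw [End.eigenspace_def, ← (S - 1).finrank_range_add_finrank_ker, one_smul]
  have a := Submodule.finrank_sup_add_finrank_inf_eq (LinearMap.range (S - 1))
    (LinearMap.range (T - 1))
  have b := Submodule.finrank_le (LinearMap.range (S - 1) ⊔ LinearMap.range (T - 1))
  have c := k S
  have d := k T
  obtain ⟨f, ⟨⟨g, h3⟩, g', h4⟩, h5⟩ := Submodule.exists_mem_ne_zero_of_ne_bot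
    (p := LinearMap.range (S - 1) ⊓ LinearMap.range (T - 1)) fun e => by
      rw [e, finrank_bot] at a; omega
  exact ⟨f, g, g', h5, h3.symm, h4.symm⟩

theorem flavell_cent (hp : p.Prime) (h5 : 5 ≤ p) (hx : x ^ p = 1) {A T : Subgroup G} {a : G}
    (hs : Group.IsSolvable A) (ha : a ∈ A) (hA : A = zpowers x ⊔ zpowers x :^ a)
    (hm : ∀ B, A ≤ B → Group.IsSolvable B → (∃ b ∈ B, B = zpowers x ⊔ zpowers x :^ b) → B = A)
    (hT : Group.IsNilpotent T) (hn : A ≤ N[T]) {r : ℕ} (hr : r.Prime) (hTr : Pg'[r] T) :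
    Op[{r}] A ≤ C[T] := by
  have := Fact.mk hr
  set R := Op[{r}] A
  have r1 : R ≤ A := H15.piCoreOf_le _ _
  have r2 : A ≤ N[R] := H15.le_norm_piCoreOf_self _ _
  have r3 : Pg[r] R := H15.isPi_piCoreOf _ _
  by_contra h0
  obtain ⟨W, ⟨w1, w2⟩, w3, w4⟩ := H1.exists_minimal_le
    (fun W : Subgroup G => A ≤ N[W] ∧ ¬ R ≤ C[W]) (N := T) ⟨hn, h0⟩
  have hW := nil_of_le hT w3
  have w5 : Pg'[r] W := H15.Cfsg.IsPiSubgroup.of_le hTr w3
  have w6 : ∀ X, A ≤ N[X] → X ≤ W → ¬ W ≤ X → X ≤ W ⊓ C[R] := fun X a b c =>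
    le_inf b (cent_symm (by_contra fun h => c (w4 X ⟨a, h⟩ b).ge))
  have hc := H15.Cfsg.IsPiSubgroup.coprime r3 w5
  have hb : W ⊓ R = ⊥ := H15.Cfsg.IsPiSubgroup.inf_eq_bot' w5 r3
  have w7 : W ≤ ⁅W, R⁆ := by_contra fun h => w2 (cent_symm (by
    rw [← cop_comm_sup_cent (r1.trans w1) hc (Or.inr (sol_of_nil hW))]
    exact sup_le ((w6 _ (norm_comm w1 r2) (comm_le_left (r1.trans w1)) h).trans inf_le_right)
      inf_le_right))
  set Y := W ⊓ C[R]
  have y1 : Y ≤ ⁅W, W⁆ := (le_inf le_rfl (inf_le_left.trans w7)).trans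
    (inf_cent_inf_comm_le (r1.trans w1) hc)
  have w0 : W ≠ ⊥ := fun e => w2 (by rw [e, cent_bot]; exact le_top)
  have w8 := H1.commutator_self_lt (sol_of_nil hW) w0
  have y2 : ⁅W, W⁆ ≤ Y := w6 _ (norm_der w1) w8.le w8.not_ge
  have y3 : A ≤ N[Y] := norm_inf w1 (norm_cent r2)
  have y4 : W ≤ N[Y] := norm_of_der_le y2 inf_le_left
  obtain ⟨q, hq, q1, q2⟩ := exists_homKer_lt w8
  have := Fact.mk hq
  let K := AlgebraicClosure (ZMod q)
  have q3 := q2 K
  have : Nontrivial (homSp K W ⊥) := Submodule.nontrivial_iff_ne_bot.2 fun e =>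
    q3.not_ge fun w hw => ⟨hw, fun f hf => by rw [e, Submodule.mem_bot] at hf; simp [hf]⟩
  have hxA : x ∈ A := hA ▸ mem_sup_left (mem_zpowers x)
  have hx' : a * x * a⁻¹ ∈ A := mul_mem (mul_mem ha hxA) (inv_mem ha)
  have g1 : ∀ M : Subgroup A, M.Normal → (⟨x, hxA⟩ : A) ∈ M → M = ⊤ := fun M m1 m2 => by
    rw [eq_top_iff, ← map_subtype_le_map_subtype, ← MonoidHom.range_eq_map, range_subtype]
    refine hA.le.trans (sup_le (zpowers_le.2 ⟨_, m2, rfl⟩) ?_)
    rw [← zpowers_cj]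
    exact zpowers_le.2 ⟨_, m1.conj_mem _ m2 ⟨a, ha⟩, rfl⟩
  have g2 : ∀ z : A, z ^ p = 1 → normalClosure {z} = ⊤ →
      2 * finrank K ((homRep K W A w1 z).eigenspace 1) < finrank K (homSp K W ⊥) := fun z h1 h2 =>
    gen_case q hp h5 h1 h2 (R.subgroupOf A) (by
      rw [Nat.card_congr (subgroupOfEquivOfLe r1).toEquiv]
      exact H9.natCast_ne_zero_of_coprime' K (p := q) (hc.coprime_dvd_right q1)) _ (by
      rw [fix_homRep, subgroupOf_map_subtype, inf_of_le_left r1, eq_bot_iff]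
      intro f hf
      have : f.1 ∈ homSp K W (homKer K W ⊔ ⁅W, R⁆) :=
        homSp_inf_fix (F := K) (r1.trans w1) ▸ ⟨f.2, hf⟩
      refine Subtype.ext (funext fun w => ?_)
      by_cases hw : w ∈ W
      · exact this.2.2 w (mem_sup_right (w7 hw))
      · exact this.2.1 w hw)
  obtain ⟨f, g, g', f1, f2, f3⟩ := exists_range_inf (g2 ⟨x, hxA⟩ (Subtype.ext hx)
    (g1 _ inferInstance (subset_normalClosure rfl))) (g2 ⟨_, hx'⟩ (Subtype.ext (by
      simp [conj_pow, hx])) (g1 _ inferInstance (by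
        have := (normalClosure_normal (s := {(⟨_, hx'⟩ : A)})).conj_mem' _
          (subset_normalClosure rfl) ⟨a, ha⟩
        convert this using 1
        exact Subtype.ext (by simp [mul_assoc]))))
  obtain ⟨u, hu, f4⟩ : ∃ u ∈ W, f.1 u ≠ 0 := by
    by_contra h
    push Not at h
    refine f1 (Subtype.ext (funext fun w => ?_))
    by_cases hw : w ∈ W
    · exact h w hw
    · exact f.2.2.1 w hw
  have key : ∀ z : A, ∀ v ∈ W, v⁻¹ * z * v ∈ N[R] → ∀ g : homSp K W ⊥,
      (homRep K W A w1 z g - g).1 v = 0 := fun z v hv h g => by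
    have a1 : (z : G)⁻¹ * v * z ∈ W := conj_mem' (w1 z.2) hv
    have a2 : ((z : G)⁻¹ * v * z)⁻¹ * v ∈ W ⊓ N[R] := mem_inf.2 ⟨mul_mem (inv_mem a1) hv, by
      convert N[R].mul_mem (inv_mem (r2 z.2)) h using 1; group⟩
    have a3 : W ⊓ N[R] ≤ C[R] := cent_of_inf_bot inf_le_right (norm_inf (r1.trans w1)
      (norm_norm (le_norm R))) (le_bot_iff.1 (hb ▸ inf_le_inf_right R inf_le_left))
    have a4 := (commutator_le_homKer (F := K) W (y1 ⟨a2.1, a3 a2⟩)).2 g g.2
    rw [g.2.1 _ (inv_mem a1) _ hv, homSp_inv g.2 a1] at a4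
    rw [Submodule.coe_sub, Pi.sub_apply, homRep_apply]
    linear_combination -a4
  set B := zpowers x ⊔ zpowers x :^ (u * a) with hB
  have hy : u * (a * x * a⁻¹) * u⁻¹ ∈ B := mem_sup_right (by
    convert cj_mem (g := u * a) (mem_zpowers x) using 1; group)
  have b1 : B ≤ A ⊔ W := sup_le (zpowers_le.2 (mem_sup_left hxA)) (cj_le_of_mem
    (mul_mem (mem_sup_right hu) (mem_sup_left ha)) (zpowers_le.2 (mem_sup_left hxA)))
  have b2 : A ≤ W ⊔ B := hA.le.trans (sup_le (le_sup_left.trans le_sup_right) (by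
    rw [← zpowers_cj, zpowers_le]
    convert mul_mem (mul_mem (mem_sup_left (inv_mem hu)) (mem_sup_right hy)) (mem_sup_left hu)
      using 1; group))
  have n1 : A ⊔ W ≤ N[W] := sup_le w1 (le_norm W)
  have n2 : A ⊔ W ≤ N[Y] := sup_le y3 y4
  by_cases hc1 : W ≤ B ⊔ Y
  · have c1 : W ≤ B := le_trans (H9.le_of_le_sup_commutator (L := W ⊓ B) inf_le_left fun w hw => by
      obtain ⟨b, hb, y, hy, rfl⟩ := (mem_sup_r (b1.trans n2)).1 (hc1 hw)
      exact mul_mem (mem_sup_left ⟨(W.mul_mem_cancel_right hy.1).1 hw, hb⟩) (mem_sup_right (y1 hy)))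
      inf_le_right
    have c2 : A ≤ B := b2.trans (sup_le c1 le_rfl)
    have c3 := hm B c2 (sol_of_le (H1.isSolvable_sup hs (sol_of_nil hW) w1) b1)
      ⟨_, mul_mem (c1 hu) (c2 ha), rfl⟩
    exact w2 (cent_symm (cent_of_inf_bot ((c3 ▸ c1).trans r2) (r1.trans w1) hb))
  have b3 : B ⊔ Y ≤ A ⊔ W := sup_le b1 (inf_le_left.trans le_sup_right)
  have c1 : (B ⊔ Y) ⊓ W ≤ Y := w6 _ (b2.trans (sup_le (norm_of_der_le (le_inf
    (y2.trans le_sup_right) w8.le) inf_le_right) (norm_inf (norm_of_le le_sup_left) (b1.trans n1))))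
    inf_le_right fun h => hc1 (h.trans inf_le_left)
  have s1 : Sy[r] R (W ⊔ R) := hl_sup_right (r1.trans w1) w5 r3
  obtain ⟨R₁, s2⟩ := sy_exists r ((W ⊔ R) ⊓ (B ⊔ Y))
  have s3 : W ⊔ (W ⊔ R) ⊓ (B ⊔ Y) = W ⊔ R := le_antisymm (sup_le le_sup_left inf_le_left)
    (sup_le le_sup_left fun k hk => by
      obtain ⟨w, hw, b, hb, rfl⟩ := (mem_sup_l (b1.trans n1)).1 (b2 (r1 hk))
      exact mul_mem (mem_sup_left hw) (mem_sup_right ⟨(mul_mem_cancel_left (mem_sup_left hw)).1
        (mem_sup_right hk), mem_sup_left hb⟩))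
  have s4 : Sy[r] R₁ (W ⊔ R) := s3 ▸ hl_of_sup s2 (inf_le_right.trans (b3.trans n1)) w5
  obtain ⟨_, hk0, s5⟩ := sy_conj s1 s4
  obtain ⟨w, hw, k, hk, rfl⟩ := (mem_sup_l (r1.trans w1)).1 hk0
  rw [← cj_cj R, cj_self hk] at s5
  have s6 : Y ≤ C[R₁] := by
    rw [← s5, ← cj_norm (y4 hw)]; exact cent_cj_le inf_le_right w
  have s7 : B ≤ N[R :^ w] := by
    rw [s5]
    refine le_trans (norm_inf (b1.trans (sup_le (norm_sup w1 r2) (norm_of_le le_sup_left)))
      (norm_of_le le_sup_left)) (norm_hl_of_normal s2 fun d hd => ?_)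
    · have e : W ⊔ R = W ⊔ R₁ := by
        rw [← s5, ← cj_self (H := W ⊔ R) (mem_sup_left hw), cj_sup, cj_self hw]
      obtain ⟨v, hv, t, ht, rfl⟩ := (mem_sup_l (s4.1.trans (sup_le (le_norm W) (r1.trans w1)))).1
        (e ▸ hd.1)
      exact mul_mem (cent_le_norm _ (s6 (c1 ⟨((B ⊔ Y).mul_mem_cancel_right (s2.1 ht).2).1 hd.2, hv⟩)))
        (le_norm _ ht)
  rw [norm_cj] at s7
  have e1 := key ⟨x, hxA⟩ w hw (mem_cj.1 (s7 (mem_sup_left (mem_zpowers x)))) g
  have e2 := key ⟨_, hx'⟩ (u⁻¹ * w) (mul_mem (inv_mem hu) hw) (by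
    convert mem_cj.1 (s7 hy) using 1; simp only; group) g'
  rw [← f2] at e1
  rw [← f3, f.2.1 _ (inv_mem hu) _ hw, e1, homSp_inv f.2 hu, add_zero, neg_eq_zero] at e2
  exact f4 e2

theorem flavell (hp : p.Prime) (h5 : 5 ≤ p) (hx : x ^ p = 1) {A V : Subgroup G} {a : G}
    (hs : Group.IsSolvable A) (ha : a ∈ A) (hA : A = zpowers x ⊔ zpowers x :^ a)
    (hm : ∀ B, A ≤ B → Group.IsSolvable B → (∃ b ∈ B, B = zpowers x ⊔ zpowers x :^ b) → B = A)
    (hV : Group.IsNilpotent V) (hn : A ≤ N[V]) : Group.IsNilpotent ↥(fittingOf A ⊔ V) := by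
  have f1 := H15.fittingOf_le A
  refine nil_of_le (H15.nilpotent_fittingOf (fittingOf A ⊔ V)) (sup_le
    (H15.le_of_piCoreOf_le (H15.nilpotent_fittingOf A) fun r hr _ => ?_)
    (H15.le_fittingOf le_sup_right (sup_le (f1.trans hn) (le_norm V)) hV))
  have := Fact.mk hr
  rw [H15.pCoreOf_fittingOf]
  have h1 := flavell_cent hp h5 hx hs ha hA hm (nil_of_le hV (H15.piCoreOf_le {r}ᶜ V))
    (H15.le_norm_piCoreOf _ hn) hr (H15.isPi_piCoreOf _ _)
  have h2 : A ≤ N[Op[{r}] V] := H15.le_norm_piCoreOf _ hn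
  refine le_sup_left.trans (H15.le_fittingOf (N := Op[{r}] A ⊔ Op[{r}] V)
    (sup_le_sup (H15.pCoreOf_le_fittingOf r A) (H15.piCoreOf_le _ _)) (sup_le
      (f1.trans (norm_sup (H15.le_norm_piCoreOf_self _ _) h2)) ?_)
    (H15.Cfsg.IsPiSubgroup.nilpotent (H15.Cfsg.IsPiSubgroup.sup_of_le_norm (H15.isPi_piCoreOf _ _)
      (H15.isPi_piCoreOf _ _) ((H15.piCoreOf_le _ _).trans h2))))
  refine (H15.piCoreOf_sup_compl hV {r}).ge.trans (sup_le (norm_of_le le_sup_right)
    (norm_of_cent (le_cent_sup (cent_symm h1) (H15.piCoreOf_compl_le_cent _ _))))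

end H12.Rb
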