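import Cfsg.Agent.H4.Dk6
import Cfsg.Agent.H22.Linear

set_option autoImplicit false
open Subgroup H4
open scoped MatrixGroups commutatorElement

namespace H12

variable {G : Type*} [Group G]

/-- The facts on `SL₂(q)`, `q` odd, with central involution `j`. -/
structure SLj (L : Subgroup G) (j : G) : Prop where
  mem : j ∈ L
  ne : j ≠ 1
  sq : j * j = 1
  sq1 : ∀ a ∈ L, a * a = 1 → a = 1 ∨ a = j
  ex4 : ∃ a ∈ L, a * a = j
  conj4 : ∀ a ∈ L, ∀ b ∈ L, a * a = j → b * b = j → ∃ g ∈ L, g * a * g⁻¹ = b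
  cent4 : ∀ y ∈ L, (∀ a ∈ L, a * a = j → y * a = a * y) → y = 1 ∨ y = j
  z2 : ∀ g ∈ L, (∀ k ∈ L, g * k = k * g ∨ g * k = j * (k * g)) → g = 1 ∨ g = j

theorem two_ne_of_odd {F : Type*} [Field F] [Fintype F] (hF : Odd (Fintype.card F)) :
    (2 : F) ≠ 0 := fun h => by
  have := FiniteField.even_card_iff_char_two.1
    (CharP.ringChar_of_prime_eq_zero Nat.prime_two (by exact_mod_cast h))
  rw [Nat.odd_iff] at hF
  omega

theorem slj_top {F : Type*} [Field F] [Finite F] (h2 : (2 : F) ≠ 0) :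
    SLj (⊤ : Subgroup SL(2, F)) (-1) := by
  have n1 : ∀ i j, (-1 : SL(2, F)).1 i j = - (1 : Matrix (Fin 2) (Fin 2) F) i j := fun _ _ => rfl
  have h4 : (4 : F) ≠ 0 := by rw [show (4 : F) = 2 * 2 by norm_num]; exact mul_ne_zero h2 h2
  let w : SL(2, F) := ⟨!![0, -1; 1, 0], by simp [Matrix.det_fin_two]⟩
  let v : SL(2, F) := ⟨!![1, -2; 1, -1], by simp [Matrix.det_fin_two]; norm_num⟩
  have hw : w * w = -1 := sl_sq_of_trace (by simp [w, Matrix.trace_fin_two])
  have hv : v * v = -1 := sl_sq_of_trace (by simp [v, Matrix.trace_fin_two])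
  have sc : ∀ y : SL(2, F), y.1 0 1 = 0 → y.1 1 0 = 0 → y.1 0 0 = y.1 1 1 → y = 1 ∨ y = -1 :=
    fun y a b c => by
      have d := sl2_det y
      refine sl_sq_eq_one h2 (sl2_ext ?_ ?_ ?_ ?_) <;> simp [sl2_mul_apply, a, b, c] at d ⊢ <;>
        exact d
  refine ⟨trivial, fun h => h2 ?_, by simp, fun a _ h => sl_sq_eq_one h2 h, ⟨w, trivial, hw⟩,
    fun a _ b _ ha hb => ?_, fun y _ h => ?_, fun g _ h => ?_⟩
  · have := congrArg (fun M : SL(2, F) => M.1 0 0) h
    simp only [n1] at this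
    simp at this
    linear_combination -this
  · obtain ⟨g, hg⟩ := isConj_iff.1
      (sl_isConj_of_trace_zero h2 (trace_of_sl_sq ha) (trace_of_sl_sq hb))
    exact ⟨g, trivial, hg⟩
  · have a := congrArg (fun M : SL(2, F) => M.1 0 0) (h w trivial hw)
    have b := congrArg (fun M : SL(2, F) => M.1 0 1) (h w trivial hw)
    have c := congrArg (fun M : SL(2, F) => M.1 0 0) (h v trivial hv)
    simp only [sl2_mul_apply] at a b c
    simp [w, v] at a b c
    have e : y.1 1 0 = 0 := by linear_combination c - a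
    exact sc y (by rw [a, e, neg_zero]) e b
  · have t : ∀ k : SL(2, F), k.1.trace = 2 → g * k = k * g := fun k hk => by
      refine (h k trivial).resolve_right fun e => h4 ?_
      have e1 : g * k * g⁻¹ = -k := by rw [e]; simp
      have e2 : (g * k * g⁻¹).1.trace = k.1.trace := by
        change (g.1 * k.1 * (g⁻¹).1).trace = _
        rw [Matrix.trace_mul_cycle, ← Matrix.SpecialLinearGroup.coe_mul, inv_mul_cancel]; simp
      rw [e1, Matrix.SpecialLinearGroup.coe_neg, Matrix.trace_neg, hk] at e2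
      linear_combination -e2
    have hu := t (upT 1) (by simp [coe_upT, Matrix.trace_fin_two]; norm_num)
    have hl := t (loT 1) (by simp [coe_loT, Matrix.trace_fin_two]; norm_num)
    have a := congrArg (fun M : SL(2, F) => M.1 0 0) hu
    have b := congrArg (fun M : SL(2, F) => M.1 0 1) hu
    have c := congrArg (fun M : SL(2, F) => M.1 0 0) hl
    simp [sl2_mul_apply, coe_upT, coe_loT] at a b c
    exact sc g c a (by linear_combination b)

theorem slj_of_equiv {F : Type*} [Field F] [Finite F] (h2 : (2 : F) ≠ 0) {L : Subgroup G}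
    (e : L ≃* SL(2, F)) {j : G} (hj : orderOf j = 2) (hm : j ∈ L) : SLj L j := by
  have s := slj_top h2
  have j1 : j ≠ 1 := by rintro rfl; simp at hj
  have j2 : j * j = 1 := by rw [← _root_.sq, ← hj, pow_orderOf_eq_one]
  have ej : e ⟨j, hm⟩ = -1 := by
    refine (s.sq1 _ trivial ?_).resolve_left fun h => j1 ?_
    · rw [← map_mul, ← map_one e]; exact congrArg e (Subtype.ext j2)
    · exact congrArg Subtype.val ((map_eq_one_iff e e.injective).1 h)
  have c : ∀ {a b : L}, e a = e b ↔ (a : G) = b := by simp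
  have d : ∀ a : L, e a = 1 ∨ e a = -1 → (a : G) = 1 ∨ (a : G) = j := fun a h => by
    rw [← ej, ← map_one e, c, c] at h; exact h
  have q : ∀ a : L, e a * e a = -1 ↔ (a : G) * a = j := fun a => by
    rw [← ej, ← map_mul, c]; rfl
  refine ⟨hm, j1, j2, fun a ha h => d ⟨a, ha⟩ (s.sq1 _ trivial ?_), ?_, fun a ha b hb h h' => ?_,
    fun y hy h => d ⟨y, hy⟩ (s.cent4 _ trivial fun a _ ha => ?_),
    fun g hg h => d ⟨g, hg⟩ (s.z2 _ trivial fun k _ => ?_)⟩
  · rw [← map_mul, ← map_one e, c]; exact h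
  · obtain ⟨a, -, h⟩ := s.ex4
    obtain ⟨a, rfl⟩ := e.surjective a
    exact ⟨a, a.2, (q a).1 h⟩
  · obtain ⟨g, -, hg⟩ := s.conj4 _ trivial _ trivial ((q ⟨a, ha⟩).2 h) ((q ⟨b, hb⟩).2 h')
    obtain ⟨g, rfl⟩ := e.surjective g
    rw [← map_inv, ← map_mul, ← map_mul, c] at hg
    exact ⟨g, g.2, hg⟩
  · obtain ⟨a, rfl⟩ := e.surjective a
    rw [← map_mul, ← map_mul, c]
    exact h a a.2 ((q a).1 ha)
  · obtain ⟨k, rfl⟩ := e.surjective k
    rw [← ej, ← map_mul, ← map_mul, ← map_mul, c, c]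
    exact h k k.2

theorem mem_zpowers_two {j x : G} (h : j * j = 1) : x ∈ zpowers j ↔ x = 1 ∨ x = j := by
  constructor
  · rintro ⟨k, rfl⟩
    have h2 : j ^ (2 : ℤ) = 1 := by rw [zpow_two, h]
    rcases Int.even_or_odd' k with ⟨m, rfl | rfl⟩
    · left; simp only [zpow_mul, h2, one_zpow]
    · right; simp only [zpow_add, zpow_mul, h2, one_zpow, one_mul, zpow_one]
  · rintro (rfl | rfl)
    exacts [one_mem _, mem_zpowers _]

theorem mem_sup_comm {A B : Subgroup G} (hc : ∀ x ∈ A, ∀ y ∈ B, x * y = y * x) {g : G} :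
    g ∈ A ⊔ B ↔ ∃ a ∈ A, ∃ b ∈ B, a * b = g := by
  refine ⟨fun h => ?_, by rintro ⟨a, ha, b, hb, rfl⟩; exact mul_mem_sup ha hb⟩
  let S : Subgroup G :=
    { carrier := {g | ∃ a ∈ A, ∃ b ∈ B, a * b = g}
      one_mem' := ⟨1, one_mem _, 1, one_mem _, mul_one _⟩
      mul_mem' := by
        rintro _ _ ⟨a, ha, b, hb, rfl⟩ ⟨c, hc', d, hd, rfl⟩
        exact ⟨a * c, mul_mem ha hc', b * d, mul_mem hb hd, by
          rw [mul_assoc, ← mul_assoc c, hc c hc' b hb]; group⟩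
      inv_mem' := by
        rintro _ ⟨a, ha, b, hb, rfl⟩
        exact ⟨a⁻¹, inv_mem ha, b⁻¹, inv_mem hb, by rw [hc a ha b hb, mul_inv_rev]⟩ }
  exact (sup_le (fun a ha => ⟨a, ha, 1, one_mem _, mul_one _⟩)
    (fun b hb => ⟨1, one_mem _, b, hb, one_mul _⟩) : A ⊔ B ≤ S) h

/-- `SL₂(q)` is not a central product of two proper subgroups. -/
theorem SLj.le_or_le {L A B : Subgroup G} {j : G} (h : SLj L j)
    (hc : ∀ x ∈ A, ∀ y ∈ B, x * y = y * x) (hi : A ⊓ B = zpowers j)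
    (hL : ∀ g ∈ L, ∃ a ∈ L ⊓ A, ∃ b ∈ L ⊓ B, a * b = g) : L ≤ A ∨ L ≤ B := by
  have main : ∀ {A B : Subgroup G}, (∀ x ∈ A, ∀ y ∈ B, x * y = y * x) → A ⊓ B = zpowers j →
      (∀ g ∈ L, ∃ a ∈ L ⊓ A, ∃ b ∈ L ⊓ B, a * b = g) → ∀ x ∈ L ⊓ A, x * x = j → L ≤ A := by
    intro A B hc hi hL x hx hxx g hg
    have h1 : ∀ y ∈ L, y * y = j → y ∈ A := fun y hy hyy => by
      obtain ⟨u, hu, rfl⟩ := h.conj4 x hx.1 y hy hxx hyy
      obtain ⟨a, ha, b, hb, rfl⟩ := hL u hu
      have : a * b * x * (a * b)⁻¹ = a * x * a⁻¹ := by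
        rw [mul_assoc a, ← hc x hx.2 b hb.2]; group
      rw [this]
      exact mul_mem (mul_mem ha.2 hx.2) (inv_mem ha.2)
    obtain ⟨a, ha, b, hb, rfl⟩ := hL g hg
    refine mul_mem ha.2 ?_
    have := (mem_zpowers_two h.sq).2
      (h.cent4 b hb.1 fun y hy hyy => (hc y (h1 y hy hyy) b hb.2).symm)
    exact (hi.ge this).1
  obtain ⟨w, hw, hww⟩ := h.ex4
  obtain ⟨a, ha, b, hb, rfl⟩ := hL w hw
  have e : a * a * (b * b) = j := by
    rw [← hww, mul_assoc, mul_assoc, ← mul_assoc b, ← hc a ha.2 b hb.2, mul_assoc]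
  have jB : j ∈ B := (hi.ge (mem_zpowers j)).2
  have : a * a ∈ zpowers j := hi.le (mem_inf.2 ⟨mul_mem ha.2 ha.2, by
    rw [← eq_mul_inv_iff_mul_eq] at e
    rw [e]; exact B.mul_mem jB (B.inv_mem (mul_mem hb.2 hb.2))⟩)
  rcases (mem_zpowers_two h.sq).1 this with h1 | h1
  · right
    rw [h1, one_mul] at e
    refine main (fun x hx y hy => (hc y hy x hx).symm) (by rw [inf_comm, hi]) (fun g hg => ?_) b hb e
    obtain ⟨a, ha, b, hb, rfl⟩ := hL g hg
    exact ⟨b, hb, a, ha, (hc a ha.2 b hb.2).symm⟩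
  · exact Or.inl (main hc hi hL a ha h1)

/-- Krull–Schmidt for a central product of two `SL₂`. -/
theorem SLj.split {L K A B : Subgroup G} {j : G} (hK : SLj K j) (hjL : j ∈ L)
    (hLK : ∀ x ∈ L, ∀ y ∈ K, x * y = y * x)
    (hc : ∀ x ∈ A, ∀ y ∈ B, x * y = y * x) (hi : A ⊓ B = zpowers j) (hs : A ⊔ B = L ⊔ K) :
    ∀ g ∈ L, ∃ a ∈ L ⊓ A, ∃ b ∈ L ⊓ B, a * b = g := by
  intro g hg
  obtain ⟨a, ha, b, hb, rfl⟩ := (mem_sup_comm hc).1 (hs.ge (mem_sup_left hg))
  suffices haL : a ∈ L from ⟨a, ⟨haL, ha⟩, b, ⟨(mul_mem_cancel_left haL).1 hg, hb⟩, rfl⟩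
  obtain ⟨l, hl, m, hm, rfl⟩ := (mem_sup_comm hLK).1 (hs.le (mem_sup_left ha))
  refine mul_mem hl ?_
  have : m = 1 ∨ m = j := by
    refine hK.z2 m hm fun k hk => ?_
    have e := hLK _ hg k hk
    have e0 := hLK l hl k hk
    obtain ⟨c, hc', d, hd, rfl⟩ := (mem_sup_comm hc).1 (hs.ge (mem_sup_right hk))
    set a := l * m with hadef
    have e1 : ⁅a, c⁆ = d * b * d⁻¹ * b⁻¹ := by
      have f1 : a * b * (c * d) = a * c * (b * d) := by
        rw [mul_assoc, ← mul_assoc b, ← hc c hc' b hb]; group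
      have f2 : c * d * (a * b) = c * a * (d * b) := by
        rw [mul_assoc, ← mul_assoc d, ← hc a ha d hd]; group
      rw [f1, f2] at e
      have f3 : a * c = c * a * (d * b * d⁻¹ * b⁻¹) := by
        rw [← eq_mul_inv_iff_mul_eq] at e; rw [e]; group
      have f4 := hc (c * a) (mul_mem hc' ha) _
        (mul_mem (mul_mem (mul_mem hd hb) (inv_mem hd)) (inv_mem hb))
      rw [commutatorElement_def, f3, f4]; group
    have e2 : ⁅a, c⁆ ∈ zpowers j := hi.le (mem_inf.2 ⟨by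
      rw [commutatorElement_def]
      exact mul_mem (mul_mem (mul_mem ha hc') (inv_mem ha)) (inv_mem hc'), by
      rw [e1]; exact mul_mem (mul_mem (mul_mem hd hb) (inv_mem hd)) (inv_mem hb)⟩)
    have e3 : m * (c * d) = ⁅a, c⁆ * (c * d * m) := by
      have g1 : a * (c * d) = ⁅a, c⁆ * (c * d * a) := by
        rw [mul_assoc c, ← hc a ha d hd, commutatorElement_def]; group
      have g2 : l * ⁅a, c⁆ = ⁅a, c⁆ * l := by
        rcases (mem_zpowers_two hK.sq).1 e2 with h | h <;> rw [h]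
        · simp
        · exact hLK l hl j hK.mem
      apply mul_left_cancel (a := l)
      rw [← mul_assoc, ← hadef, g1, ← mul_assoc l, g2, mul_assoc _ l, ← mul_assoc l, e0, hadef]
      group
    rcases (mem_zpowers_two hK.sq).1 e2 with h | h <;> rw [h] at e3
    · exact Or.inl (e3.trans (one_mul _))
    · exact Or.inr e3
  rcases this with rfl | rfl
  exacts [one_mem _, hjL]

end H12
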