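import Cfsg.Agent.H12.IM1
import Cfsg.Agent.H12.KW3
import Cfsg.Agent.S3011
import Cfsg.Agent.S3012

/-! A minimal counterexample to the Sidki pair problem is almost simple. -/

set_option autoImplicit false

namespace H12.Sid

open Subgroup Cfsg H16 H12.BG
open H15 hiding card_cj cent_anti cent_bot cent_comm cent_le_cent1 cent_le_norm cent_sup cent_zpowers cj_bot cj_cent cj_cj_inv cj_comm cj_eq_bot cj_eq_iff cj_eq_top cj_inf cj_inj cj_inv_cj cj_le_cj cj_le_iff cj_le_of_mem cj_lt_cj cj_mono cj_norm cj_one cj_sup cj_top comm_le_left comm_le_right comm_of_cyclic comm_of_le comm_sup le_cj_iff mem_cent mem_cent1 mem_cj mem_norm_of_cj_le norm_bot norm_top relIndex_cj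
open H5 (CompOf SN layerOf)
open H12.IM (orb le_orb orb_le norm_orb comp_cj)
open scoped commutatorElement

universe u

/-- a counterexample of minimal order -/
structure Mc {G : Type u} [Group G] (V : Subgroup G) : Prop where
  ea : EA[2] V
  ne : V ≠ ⊥
  sid : IsSidkiPair V
  vo : V ⊓ pCore 2 G = ⊥
  min : ∀ (H : Type u) [Group H] [Finite H] (W : Subgroup H), Nat.card H < Nat.card G →
    EA[2] W → W ≠ ⊥ → IsSidkiPair W → W ⊓ pCore 2 H ≠ ⊥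

variable {G : Type u} [Group G] [Finite G] {V K M W Z A B : Subgroup G}

local notation "𝐅" => generalizedFittingSubgroup G

omit [Finite G] in
theorem two_cases {t b : G} (h : t * t = 1) (hb : b ∈ zpowers t) : b = 1 ∨ b = t := by
  obtain ⟨k, rfl⟩ := mem_zpowers_iff.1 hb
  have h2 : t ^ (2 : ℤ) = 1 := by rw [zpow_two, h]
  rcases Int.even_or_odd' k with ⟨m, rfl | rfl⟩
  · left; rw [zpow_mul, h2, one_zpow]
  · right; rw [zpow_add, zpow_mul, h2, one_zpow, one_mul, zpow_one]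

theorem Mc.quot (h : Mc V) [K.Normal] (h0 : K ≠ ⊥) (h1 : V ⊓ K = ⊥) :
    V.map (QuotientGroup.mk' K) ⊓ pCore 2 (G ⧸ K) ≠ ⊥ := by
  refine h.min _ _ (KW.card_quot h0) (ea_map h.ea _) (fun e => h.ne ?_)
    (Cfsg.Agent.S3012.result V K h.ea h.ne h.sid h1)
  rw [Subgroup.map_eq_bot_iff, QuotientGroup.ker_mk'] at e
  rw [← h1, inf_eq_left.2 e]

theorem Mc.o2 (h : Mc V) : Op[{2}] (⊤ : Subgroup G) = ⊥ := by
  rw [← pCore_eq_piCoreOf]
  by_contra h0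
  exact h.quot h0 h.vo (by rw [H1.pCore_quotient_pCore, inf_bot_eq])

theorem Mc.op (h : Mc V) [M.Normal] (h1 : K ≤ M) (h2 : M ≤ N[K]) : Op[{2}] K = ⊥ :=
  eq_bot_of_le h.o2 ((piCoreOf_le_of_normal _ h1 h2).trans
    (piCoreOf_le_of_normal _ le_top (le_norm_normal _)))

theorem Mc.pg (h : Mc V) : Pg[2] V := ea_pg h.ea

theorem Mc.ns (h : Mc V) (hO : Op[{2}] K = ⊥) (hW : W ≤ V) (hn : W ≤ N[K]) (h0 : W ≠ ⊥)
    (hf : W ⊓ C[K] = ⊥) (ht : K ⊔ W ≠ ⊤) :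
    ∃ x ∈ K, ∃ w ∈ W, Odd (orderOf x) ∧ w * x * w⁻¹ = x⁻¹ ∧ ∀ u ∈ W, u * x = x * u → u = 1 := by
  by_contra! hc
  have h1 : IsSidkiPair (W.subgroupOf (K ⊔ W)) := by
    intro x v hv ho hi
    have ho' : Odd (orderOf (x : G)) := by rwa [Subgroup.orderOf_coe]
    obtain ⟨u, hu, h2, h3⟩ := hc x (H10.resOf_sup_le (pg_iff.1 (h.pg.of_le hW)) hn
      (H10.mem_resOf x.2 (Nat.coprime_two_right.2 ho'))) v hv ho'
      (congrArg Subtype.val hi)
    exact ⟨⟨u, mem_sup_right hu⟩, hu, fun e => h3 (congrArg Subtype.val e), Subtype.ext h2⟩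
  have h2 := h.min ↥(K ⊔ W) _ (by
    rw [← Subgroup.card_top (G := G)]; exact card_lt (lt_top_iff_ne_top.2 ht))
    (ea_subgroupOf (ea_of_le h.ea hW) _) (fun e => h0 (by
      rw [← map_subgroupOf_eq_of_le (le_sup_right : W ≤ K ⊔ W), e, Subgroup.map_bot])) h1
  obtain ⟨x, hx, h3⟩ := exists_ne_one h2
  have h4 : (x : G) ∈ Op[{2}] (K ⊔ W) := pCore_map_subtype 2 (K ⊔ W) ▸ mem_map_of_mem _ hx.2
  have h5 : Op[{2}] (K ⊔ W) ≤ C[K] := by
    rw [← comm_eq_bot, eq_bot_iff, ← hO]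
    exact (le_inf (comm_le_left (le_norm_piCoreOf_of_le _ le_sup_left))
      (comm_le_right ((piCoreOf_le _ _).trans (sup_le (le_norm _) hn)))).trans
      (piCoreOf_inf_le _ le_sup_left)
  exact h3 (Subtype.ext (eq_one_of_mem_bot hf ⟨hx.1, h5 h4⟩))

theorem Mc.fodd (h : Mc V) : Pg'[2] (fittingSubgroup G) := by
  rw [← fittingOf_top]
  refine isPi_compl_of_not_dvd fun hd => piCoreOf_ne_bot_of_nilpotent (nilpotent_fittingOf _)
    Nat.prime_two (Set.mem_singleton _) hd ?_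
  rw [pCoreOf_fittingOf, h.o2]

theorem Mc.vc (h : Mc V) : V ⊓ C[𝐅] = ⊥ :=
  eq_bot_of_le (h.pg.inf_eq_bot h.fodd) (inf_le_inf_left _ H5.centralizer_fstar_le_fitting)

theorem Mc.cen (h : Mc V) [M.Normal] (ht : M ⊔ V ≠ ⊤) : V ⊓ C[M] ≠ ⊥ := fun e => by
  obtain ⟨x, -, w, hw, h1, h2, h3⟩ := h.ns (h.op le_rfl (le_norm M)) le_rfl (le_norm_normal _)
    h.ne e ht
  obtain ⟨u, hu, h4, h5⟩ := h.sid x w hw h1 h2
  exact h4 (h3 u hu h5)

theorem Mc.top (h : Mc V) : 𝐅 ⊔ V = ⊤ := by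
  by_contra ht
  exact h.cen ht h.vc

theorem Mc.prop (h : Mc V) (h1 : M < 𝐅) (hW : W ≤ V) (hn : W ≤ N[M]) : M ⊔ W ≠ ⊤ := fun e => by
  have h2 := H10.resOf_sup_le (pg_iff.1 (h.pg.of_le hW)) hn
  rw [e] at h2
  refine h1.not_ge (le_trans (sup_le ?_ (H10.le_resOf_of_coprime h.fodd.coprime_p le_top)) h2)
  rw [← H5.layerOf_top, ← H10.resOf_eq_of_perfect (p := 2) (H5.layerOf_perfect ⊤)]
  exact H10.resOf_mono le_top

theorem Mc.normal (h : Mc V) (h1 : 𝐅 ≤ N[K]) (h2 : V ≤ N[K]) : K.Normal :=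
  normal_of_top (h.top ▸ sup_le h1 h2)

theorem Mc.comm (h : Mc V) {u v : G} (hu : u ∈ V) (hv : v ∈ V) : u * v = v * u :=
  mem_cent.1 (comm_iff.1 h.ea.1 hv) u hu

theorem Mc.prod (h : Mc V) [A.Normal] [B.Normal] (hA : A < 𝐅) (hB : B < 𝐅) (hc : A ≤ C[B])
    (hs : A ⊔ B = 𝐅) : False := by
  have h1 := h.cen (h.prop hA le_rfl (le_norm_normal _))
  have h2 := h.cen (h.prop hB le_rfl (le_norm_normal _))
  obtain ⟨x, hx, w, hw, o1, i1, c1⟩ := h.ns (h.op le_rfl (le_norm A)) inf_le_left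
    (le_norm_normal _) h2 (by rw [inf_assoc, inf_comm C[B], ← cent_sup, hs, h.vc])
    (h.prop hA inf_le_left (le_norm_normal _))
  obtain ⟨y, hy, a, ha, o2, i2, c2⟩ := h.ns (W := V ⊓ C1[x]) (h.op le_rfl (le_norm B)) inf_le_left
    (le_norm_normal _) (ne_bot_of_le h1 (inf_le_inf_left _ (cent_le_cent1 hx)))
    (eq_bot_iff.2 fun u hu => c1 u ⟨hu.1.1, hu.2⟩ (mem_cent1.1 hu.1.2))
    (h.prop hB inf_le_left (le_norm_normal _))
  have hxy : Commute x y := (mem_cent.1 (hc hx) y hy).symm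
  have hax : Commute a x := mem_cent1.1 ha.2
  have hwy : Commute w y := (mem_cent.1 hw.2 y hy).symm
  obtain ⟨u, hu, h3, h4⟩ := h.sid (x * y) (w * a) (mul_mem hw.1 ha.1)
    (Odd.of_dvd_nat (o1.mul o2) hxy.orderOf_mul_dvd_mul_orderOf) (by
      calc w * a * (x * y) * (w * a)⁻¹ = w * (a * x) * (y * a⁻¹) * w⁻¹ := by group
        _ = w * x * (a * y * a⁻¹) * w⁻¹ := by rw [hax.eq]; group
        _ = w * x * w⁻¹ * y⁻¹ := by rw [i2, mul_assoc, ← hwy.inv_inv.eq]; group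
        _ = (x * y)⁻¹ := by rw [i1, hxy.eq, mul_inv_rev])
  have hz : x⁻¹ * (u * x * u⁻¹) ∈ B := by
    have : x⁻¹ * (u * x * u⁻¹) = y * (u * y * u⁻¹)⁻¹ := by
      calc x⁻¹ * (u * x * u⁻¹) = x⁻¹ * (u * (x * y)) * y⁻¹ * u⁻¹ := by group
        _ = y * (u * y * u⁻¹)⁻¹ := by rw [h4]; group
    rw [this]
    exact mul_mem hy (inv_mem (conj_mem (le_norm_normal ⊤ (mem_top u)) hy))
  have e1 : Commute (x⁻¹ * (u * x * u⁻¹)) w := mem_cent.1 hw.2 _ hz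
  have e2 : Commute (x⁻¹ * (u * x * u⁻¹)) x := mem_cent.1 (hc hx) _ hz
  have e3 : Commute u w := h.comm hu hw.1
  have e4 : x⁻¹ * (u * x * u⁻¹) = x * (u * x⁻¹ * u⁻¹) := by
    calc x⁻¹ * (u * x * u⁻¹) = w * (x⁻¹ * (u * x * u⁻¹)) * w⁻¹ := by
          rw [← e1.eq, mul_inv_cancel_right]
      _ = (w * x * w⁻¹)⁻¹ * (w * u) * x * (w * u)⁻¹ := by group
      _ = (w * x * w⁻¹)⁻¹ * (u * (w * x * w⁻¹) * u⁻¹) := by rw [← e3.eq]; group
      _ = x * (u * x⁻¹ * u⁻¹) := by rw [i1, inv_inv]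
  have e5 : Commute u (x ^ 2) := by
    have e6 : x * (u * x * u⁻¹) = (u * x * u⁻¹) * x := by
      calc x * (u * x * u⁻¹) = x * (x * (x⁻¹ * (u * x * u⁻¹))) := by group
        _ = x * (x⁻¹ * (u * x * u⁻¹) * x) := by rw [e2.eq]
        _ = (u * x * u⁻¹) * x := by group
    have e7 : (u * x * u⁻¹) * (u * x * u⁻¹) = x * x := by
      calc (u * x * u⁻¹) * (u * x * u⁻¹) = x * (x⁻¹ * (u * x * u⁻¹)) * (u * x * u⁻¹) := by group
        _ = x * (x * (u * x⁻¹ * u⁻¹)) * (u * x * u⁻¹) := by rw [e4]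
        _ = x * x := by group
    calc u * x ^ 2 = (u * x * u⁻¹) * (u * x * u⁻¹) * u := by rw [pow_two]; group
      _ = x ^ 2 * u := by rw [e7, pow_two]
  obtain ⟨m, hm⟩ := exists_pow_eq_self_of_coprime (Nat.coprime_two_left.2 o1)
  have e8 : Commute u x := hm ▸ e5.pow_right m
  refine h3 (c2 u ⟨hu, mem_cent1.2 e8⟩ (mul_left_cancel (a := x) ?_))
  rw [← mul_assoc, ← e8.eq, mul_assoc, h4, mul_assoc]

theorem Mc.key (h : Mc V) [M.Normal] (h1 : M < 𝐅)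
    (hm : ∀ Z : Subgroup G, Z.Normal ∧ Z < 𝐅 → M ≤ Z → Z = M) :
    ∃ w ∈ V, M ≤ C[zpowers w] ∧ ⁅𝐅, zpowers w⁆ = 𝐅 ∧ M ≤ C[𝐅] := by
  obtain ⟨w, hw, hw1⟩ := exists_ne_one (h.cen (h.prop h1 le_rfl (le_norm_normal _)))
  have h2 : M ≤ C[zpowers w] := cent_symm (zpowers_le.2 hw.2)
  haveI : (⁅𝐅, zpowers w⁆ : Subgroup G).Normal := h.normal (normalizer_commutator_ge_left _ _)
    (norm_comm (le_norm_normal _) (comm_norm h.ea.1 le_rfl (zpowers_le.2 hw.1)))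
  have h3 : ⁅𝐅, zpowers w⁆ ≤ C[M] := by
    rw [← comm_eq_bot]
    refine commutator_commutator_eq_bot_of_rotate ?_ ?_
    · rw [comm_eq_bot.2 (cent_symm h2), commutator_bot_left]
    · exact comm_eq_bot.2 ((comm_le_left (le_norm_normal _)).trans h2)
  have h4 : ⁅𝐅, zpowers w⁆ ≤ 𝐅 := comm_le_left (le_norm_normal _)
  have h5 : ¬ ⁅𝐅, zpowers w⁆ ≤ M := fun e => by
    have h6 : ⁅𝐅, zpowers w⁆ ≤ fittingSubgroup G := by
      rw [← fittingOf_top]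
      exact le_fittingOf le_top (le_norm_normal _)
        (nil_of_comm (comm_iff.2 (h3.trans (cent_anti e))))
    refine hw1 (eq_one_of_mem_bot h.vc ⟨hw.1, mem_cent.2 fun n hn => ?_⟩)
    have h7 : ⁅n, w⁆ ∈ ⁅𝐅, zpowers w⁆ := commutator_mem_commutator hn (mem_zpowers w)
    have h8 := mem_cent.1 (h2 (e h7)) w (mem_zpowers w)
    have h9 : w⁻¹ = w := inv_eq_of_mul_eq_one_right (by rw [← pow_two]; exact h.ea.2 w hw.1)
    have h10 : ⁅n, w⁆ ^ 2 = 1 := by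
      calc ⁅n, w⁆ ^ 2 = ⁅n, w⁆ * (w⁻¹ * (w * ⁅n, w⁆)) := by rw [pow_two]; group
        _ = n * (w * n⁻¹ * (w⁻¹ * w⁻¹) * n * w) * n⁻¹ := by
          rw [h8, commutatorElement_def]; group
        _ = 1 := by rw [h9, ← pow_two, h.ea.2 w hw.1, mul_one, inv_mul_cancel_right, ← pow_two,
          h.ea.2 w hw.1]; group
    have h11 := (Nat.Coprime.coprime_dvd_left (orderOf_dvd_card (h6 h7))
      h.fodd.coprime_p).eq_one_of_dvd (orderOf_dvd_of_pow_eq_one h10)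
    exact commutatorElement_eq_one_iff_mul_comm.1 (orderOf_eq_one_iff.1 h11)
  have h6 : ⁅𝐅, zpowers w⁆ ⊔ M = 𝐅 := by
    by_contra h6
    exact h5 (hm _ ⟨inferInstance, lt_of_le_of_ne (sup_le h4 h1.le) h6⟩ le_sup_right ▸ le_sup_left)
  have h7 : ⁅𝐅, zpowers w⁆ = 𝐅 := by
    by_contra h7
    exact h.prod (lt_of_le_of_ne h4 h7) h1 h3 h6
  exact ⟨w, hw.1, h2, h7, cent_symm (h7 ▸ h3)⟩

theorem Mc.cent (h : Mc V) [hZ : Z.Normal] (h1 : Z < 𝐅) : Z ≤ C[𝐅] := by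
  obtain ⟨M, h2, ⟨hM, h3⟩, h4⟩ := exists_max_of (C := fun Z : Subgroup G => Z.Normal ∧ Z < 𝐅)
    ⟨hZ, h1⟩
  obtain ⟨w, -, -, -, h5⟩ := h.key h3 h4
  exact h2.trans h5

theorem Mc.big (h : Mc V) : 4 < Nat.card V := by
  by_contra h1
  exact Cfsg.Agent.S3011.result V h.ea h.ne h.sid (not_lt.1 h1) h.vo

theorem Mc.ne_bot (h : Mc V) : 𝐅 ≠ ⊥ := fun e => h.ne (by
  have := h.vc
  rwa [e, cent_bot, inf_top_eq] at this)

theorem Mc.layer_ne (h : Mc V) : layer G ≠ ⊥ := by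
  intro e
  have hF : 𝐅 = fittingSubgroup G := by
    rw [generalizedFittingSubgroup, e, bot_sup_eq]
  have ho : Pg'[2] 𝐅 := hF ▸ h.fodd
  have h1 : ⁅𝐅, 𝐅⁆ < 𝐅 := der_lt_of_nil (by
    rw [hF, ← fittingOf_top]; exact sol_of_nil (nilpotent_fittingOf _)) h.ne_bot
  obtain ⟨M, h2, ⟨hM, h3⟩, h4⟩ := exists_max_of (C := fun Z : Subgroup G => Z.Normal ∧ Z < 𝐅)
    ⟨inferInstance, h1⟩
  obtain ⟨w, hw, h5, h6, h7⟩ := h.key h3 h4
  obtain ⟨u, hu, hu1, h8⟩ : ∃ u ∈ V, u ≠ 1 ∧ ¬ 𝐅 ⊓ C1[u] ≤ M := by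
    by_contra! h8
    refine h3.not_ge (cop_gen_cent1 h.ea.1 (fun hc => ?_) (le_norm_normal _)
      (h.pg.coprime ho) h8)
    obtain ⟨x, hx⟩ := exists_gen hc
    have h9 := h.big
    have h10 := Nat.le_of_dvd two_pos
      (orderOf_dvd_of_pow_eq_one (h.ea.2 x (hx ▸ mem_zpowers x)))
    rw [← hx, card_zpowers] at h9
    omega
  have hV : V ≤ N[(𝐅 ⊓ C1[u] : Subgroup G)] :=
    norm_inf (le_norm_normal _) (norm_of_le (le_cent1.2 (comm_iff.1 h.ea.1 hu)))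
  have h9 : (𝐅 ⊓ C1[u]) ⊔ M = 𝐅 := by
    by_contra h9
    have h10 := sup_le (inf_le_left : 𝐅 ⊓ C1[u] ≤ 𝐅) h3.le
    exact h8 (h4 _ ⟨h.normal (norm_of_der_le (h2.trans le_sup_right) h10)
      (norm_sup hV (le_norm_normal _)), lt_of_le_of_ne h10 h9⟩ le_sup_right ▸ le_sup_left)
  have h10 : 𝐅 ⊓ C1[u] ≠ 𝐅 := fun e =>
    hu1 (eq_one_of_mem_bot h.vc ⟨hu, le_cent1.1 (inf_eq_left.1 e)⟩)
  haveI : (𝐅 ⊓ C1[u]).Normal := h.normal (h9.ge.trans (sup_le (le_norm _)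
    (norm_of_cent (h7.trans (cent_anti inf_le_left))))) hV
  have h11 : IsMulCommutative 𝐅 :=
    comm_iff.2 (h9.ge.trans (sup_le (h.cent (lt_of_le_of_ne inf_le_left h10)) h7))
  have h12 := cop_abel_inf h11 (le_norm_normal (zpowers w))
    ((h.pg.of_le (zpowers_le.2 hw)).coprime ho)
  rw [h6] at h12
  rw [eq_bot_of_le h12 (le_inf h3.le h5), sup_bot_eq] at h9
  exact h10 h9

theorem Mc.layer_eq (h : Mc V) : 𝐅 = layer G := by
  by_contra e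
  have h1 := h.cent (lt_of_le_of_ne (le_sup_left : layer G ≤ 𝐅) (Ne.symm e))
  have h2 := comm_eq_bot.2 (h1.trans (cent_anti (le_sup_left : layer G ≤ 𝐅)))
  rw [← H5.layerOf_top, H5.layerOf_perfect, H5.layerOf_top] at h2
  exact h.layer_ne h2

theorem Mc.perf (h : Mc V) : ⁅𝐅, 𝐅⁆ = 𝐅 := by
  rw [h.layer_eq, ← H5.layerOf_top, H5.layerOf_perfect]

theorem Mc.zbot (h : Mc V) : 𝐅 ⊓ C[𝐅] = ⊥ := by
  by_contra h0
  obtain ⟨_, ⟨⟨x, hx, rfl⟩, h1⟩, h2⟩ := exists_ne_one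
    (h.quot h0 (eq_bot_of_le h.vc (inf_le_inf_left _ inf_le_right)))
  by_cases h3 : 𝐅 ≤ (pCore 2 _).comap (QuotientGroup.mk' (𝐅 ⊓ C[𝐅]))
  · have h4 := H5.eq_bot_of_perfect_of_solvable (K := (𝐅).map (QuotientGroup.mk' (𝐅 ⊓ C[𝐅])))
      (by rw [← map_commutator, h.perf]) (sol_of_le (sol_of_nil (H1.isPGroup_pCore 2).isNilpotent)
        (map_le_iff_le_comap.2 h3))
    rw [Subgroup.map_eq_bot_iff, QuotientGroup.ker_mk'] at h4
    exact h.ne_bot (h.perf ▸ comm_eq_bot.2 (h4.trans inf_le_right))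
  have h4 := h.cent (Z := 𝐅 ⊓ (pCore 2 _).comap (QuotientGroup.mk' (𝐅 ⊓ C[𝐅])))
    (lt_of_le_of_ne inf_le_left fun e => h3 (inf_eq_left.1 e))
  have h5 : ⁅⁅𝐅, zpowers x⁆, 𝐅⁆ = ⊥ := comm_eq_bot.2 ((le_inf (comm_le_left (le_norm_normal _))
    ((commutator_mono le_rfl (zpowers_le.2 (mem_comap.2 h1))).trans
      (comm_le_right (le_norm_normal _)))).trans h4)
  have h6 : ⁅⁅𝐅, 𝐅⁆, zpowers x⁆ = ⊥ :=
    commutator_commutator_eq_bot_of_rotate h5 (by rwa [commutator_comm (zpowers x)])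
  rw [h.perf, comm_eq_bot] at h6
  exact h2 (by rw [eq_one_of_mem_bot h.vc ⟨hx, cent_symm h6 (mem_zpowers x)⟩, map_one])

theorem Mc.qs (h : Mc V) : IsQuasisimple 𝐅 := by
  obtain ⟨K, hK⟩ : ∃ K : Subgroup G, CompOf K ⊤ := by
    by_contra! h1
    exact h.layer_ne (H5.layerOf_top (G := G) ▸ H5.layerOf_eq_bot_iff.2 h1)
  have hle : ∀ g, K :^ g ≤ 𝐅 := fun g =>
    (comp_cj hK g).le_layerOf.trans (H5.layerOf_top.le.trans le_sup_left)
  have hn : ∀ U : Subgroup G, 𝐅 ≤ N[orb U K] := fun U => norm_orb fun a ha s hs => by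
    rw [← cj_cj, cj_norm ((comp_cj hK s).layerOf_le_normalizer
      (H5.layerOf_top.ge (h.layer_eq.le ha)))]
    exact le_orb hs
  have h1 : orb V K = 𝐅 := by
    by_contra h1
    haveI := h.normal (hn V) (norm_orb fun a ha s hs => le_orb (mul_mem ha hs))
    have h2 : orb V K ≤ 𝐅 := orb_le fun s _ => hle s
    have h3 := le_inf h2 (h.cent (lt_of_le_of_ne h2 h1))
    rw [h.zbot] at h3
    exact hK.ne_bot (eq_bot_of_le rfl ((cj_one K).ge.trans ((le_orb (one_mem V)).trans h3)))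
  by_cases h2 : V ≤ N[K]
  · have h3 : 𝐅 = K := le_antisymm (h1.ge.trans (orb_le fun s hs => (cj_norm (h2 hs)).le))
      (cj_one K ▸ hle 1)
    exact h3 ▸ hK.qs
  exfalso
  obtain ⟨U, h3, h4, h5⟩ := exists_max_of (C := fun Z : Subgroup G => Z < V) (X := V ⊓ N[K])
    (lt_of_le_of_ne inf_le_left fun e => h2 (inf_eq_left.1 e))
  have hsq : ∀ v ∈ V, v * v = 1 := fun v hv => by rw [← pow_two]; exact h.ea.2 v hv
  have h6 : ∀ t ∈ V, t ∉ U → ∀ s ∈ V, s ∈ U ∨ s * t ∈ U := by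
    intro t ht h6 s hs
    have h7 : U ⊔ zpowers t = V := by
      by_contra h7
      exact h6 (h5 _ (lt_of_le_of_ne (sup_le h4.le (zpowers_le.2 ht)) h7) le_sup_left ▸
        mem_sup_right (mem_zpowers t))
    obtain ⟨a, ha, b, hb, rfl⟩ := (mem_sup_l (comm_norm h.ea.1 (zpowers_le.2 ht) h4.le)).1
      (h7.ge hs)
    rcases two_cases (hsq t ht) hb with rfl | rfl
    · exact Or.inl (by rwa [mul_one])
    · exact Or.inr (by rwa [mul_assoc, hsq _ ht, mul_one])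
  have h7 : ∀ t ∈ V, t ∉ U → orb U K ≤ C[orb U K :^ t] ∧ orb U K ⊔ orb U K :^ t = 𝐅 := by
    intro t ht h7
    constructor
    · refine cent_symm (cj_le_iff.2 (orb_le fun s hs => cj_le_iff.1 (cent_symm
        (orb_le fun s' hs' => comm_eq_bot.1 ?_))))
      rw [cj_cj]
      refine (comp_cj hK s').commutator_eq_bot (comp_cj hK _) fun e => h7 ?_
      have h8 : _ ∈ U := h3 ⟨V.mul_mem (V.inv_mem (V.mul_mem ht (h4.le hs))) (h4.le hs'),
        cj_eq_cj_iff.1 e⟩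
      have h9 := mul_mem (mul_mem hs h8) (inv_mem hs')
      rw [show s * ((t * s)⁻¹ * s') * s'⁻¹ = t⁻¹ by group] at h9
      exact U.inv_mem_iff.1 h9
    · refine le_antisymm (sup_le (orb_le fun s _ => hle s) (cj_le_of_norm
        (le_norm_normal ⊤ (mem_top t)) (orb_le fun s _ => hle s))) (h1.ge.trans
          (orb_le fun s hs => ?_))
      rcases h6 t ht h7 s hs with h8 | h8
      · exact (le_orb h8).trans le_sup_left
      · refine le_trans ?_ ((cj_mono t (le_orb h8)).trans le_sup_right)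
        rw [cj_cj, h.comm hs ht, ← mul_assoc, hsq t ht, one_mul]
  obtain ⟨t, ht, h8⟩ := SetLike.exists_of_lt h4
  have h9 : ∀ t ∈ V, t ∉ U → orb U K ⊓ orb U K :^ t = ⊥ := fun t ht h8 => by
    obtain ⟨a, b⟩ := h7 t ht h8
    refine eq_bot_of_le h.zbot (le_inf (inf_le_left.trans (b ▸ le_sup_left)) ?_)
    rw [← b]
    exact le_cent_sup (inf_le_right.trans (cent_symm a)) (inf_le_left.trans a)
  have hU : U ≠ ⊥ := fun e => by
    have h10 : V ≤ zpowers t := fun s hs => by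
      rcases h6 t ht h8 s hs with h10 | h10
      · rw [eq_one_of_mem_bot e h10]; exact one_mem _
      · rw [eq_inv_of_mul_eq_one_left (eq_one_of_mem_bot e h10)]; exact inv_mem (mem_zpowers t)
    have h11 := card_le h10
    have h12 := Nat.le_of_dvd two_pos (orderOf_dvd_of_pow_eq_one (h.ea.2 t ht))
    have h13 := h.big
    rw [card_zpowers] at h11
    omega
  have hlt : orb U K < 𝐅 := lt_of_le_of_ne (orb_le fun s _ => hle s) fun e => by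
    have h10 := h9 t ht h8
    rw [e, cj_normal, inf_idem] at h10
    exact h.ne_bot h10
  have hUn : U ≤ N[orb U K] := norm_orb fun a ha s hs => le_orb (mul_mem ha hs)
  obtain ⟨x, hx, w, hw, o1, i1, c1⟩ := h.ns (h.op hlt.le (hn U)) h4.le hUn hU (by
    refine eq_bot_of_le h.vc (le_inf (inf_le_left.trans h4.le) ?_)
    rw [← (h7 t ht h8).2]
    refine le_cent_sup inf_le_right fun a ha => ?_
    rw [cent_cj, mem_cj, mul_assoc, h.comm (h4.le ha.1) ht, inv_mul_cancel_left]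
    exact ha.2) (h.prop hlt h4.le hUn)
  obtain ⟨u, hu, h10, h11⟩ := h.sid x w (h4.le hw) o1 i1
  by_cases h12 : u ∈ U
  · exact h10 (c1 u h12 h11)
  have h13 : x = 1 := eq_one_of_mem_bot (h9 u hu h12) ⟨hx, mem_cj.2 (by
    rw [mul_assoc, ← h11, inv_mul_cancel_left]; exact hx)⟩
  obtain ⟨a, ha, h14⟩ := exists_ne_one hU
  exact h14 (c1 a ha (by rw [h13, mul_one, one_mul]))

theorem Mc.main (h : Mc V) : IsSimpleGroup 𝐅 ∧ ¬ IsMulCommutative 𝐅 ∧ V ⊔ 𝐅 = ⊤ := by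
  refine ⟨?_, fun e => h.ne_bot (h.perf ▸ der_eq_bot.2 e), sup_comm V 𝐅 ▸ h.top⟩
  obtain ⟨-, h1, h2⟩ := H5.isQuasisimple_iff_top.1 h.qs
  refine ⟨fun N hN => (h2 N hN).symm.imp_left fun e => eq_bot_iff.2 fun x hx => ?_⟩
  exact Subtype.ext (eq_one_of_mem_bot h.zbot ⟨x.2, mem_cent.2 fun y hy =>
    congrArg Subtype.val (mem_center_iff.1 (e hx) ⟨y, hy⟩)⟩)

end H12.Sid
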