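import Cfsg.Agent.H12.SylN
import Cfsg.Agent.H2.BG33
import Cfsg.Agent.H2.FrobCompl
import Cfsg.Agent.H2.ThompsonFPF
import Cfsg.Agent.H8.OType2
import Cfsg.Agent.H6.SE
import Cfsg.Agent.H9.SmallAut
import Cfsg.Agent.S0039

set_option autoImplicit false
open Cfsg Subgroup H10

namespace H12

variable {G : Type*} [Group G]

/-- centralizers in `K` of nontrivial elements of `H` lie in `H` -/
def FK (H K : Subgroup G) : Prop := ∀ x ∈ H, x ≠ 1 → ∀ y ∈ K, Commute x y → y ∈ H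

theorem FK.of_sub {H K : Subgroup G} (hle : H ≤ K) (h : FK (H.subgroupOf K) ⊤) : FK H K :=
  fun x hx h1 y hy hc => h ⟨x, hle hx⟩ hx (fun e => h1 (congrArg Subtype.val e)) ⟨y, hy⟩ (mem_top _)
    (Subtype.ext hc)

theorem FK.to_sub {H K : Subgroup G} (h : FK H K) : FK (H.subgroupOf K) ⊤ :=
  fun x hx h1 y _ hc => h x hx (fun e => h1 (Subtype.ext e)) y y.2 (congrArg Subtype.val hc)

theorem FK.fpf {H K : Subgroup G} (h : FK H K) {y : G} (hy : y ∈ K) (h1 : y ∉ H) :
    H ⊓ centralizer {y} = ⊥ := by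
  rw [eq_bot_iff]
  intro x hx
  by_contra hx1
  exact h1 (h x hx.1 hx1 y hy (mem_centralizer_singleton_iff.1 hx.2))

theorem FK_of_frob {C N : Subgroup G} (hC : IsFrobeniusComplement C)
    (hN : frobeniusKernel C = (N : Set G)) : FK N ⊤ := fun x hx h1 y _ hc => by
  have := H2.mem_frobKernel_of_commute hC (hN ▸ hx) h1 hc
  rwa [hN] at this

variable [Finite G]

theorem frob_of_FK {N : Subgroup G} [N.Normal] (h1 : N ≠ ⊥) (h2 : N ≠ ⊤)
    (hc : (Nat.card N).Coprime N.index) (h : FK N ⊤) :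
    ∃ C : Subgroup G, IsFrobeniusComplement C ∧ frobeniusKernel C = (N : Set G) := by
  obtain ⟨C, hC⟩ := exists_right_complement'_of_coprime hc
  have hC1 : C ≠ ⊥ := by
    rintro rfl
    exact h2 (by simpa using hC.sup_eq_top)
  have hd : ∀ x ∈ N, x ∈ C → x = 1 := fun x a b => disjoint_def.1 hC.disjoint a b
  have hF := (Cfsg.Agent.S0039.result N C hC h1 hC1).2 fun c hc c1 =>
    h.fpf (mem_top c) fun e => c1 (hd c e hc)
  refine ⟨C, hF, (Set.eq_of_subset_of_ncard_le ?_ ?_).symm⟩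
  · intro x hx
    by_cases x1 : x = 1
    · exact Or.inl x1
    refine Or.inr fun g hg => x1 ?_
    rw [cj_smul, mem_cj] at hg
    have := hd _ ((inferInstance : N.Normal).conj_mem' x hx g) hg
    simpa [mul_assoc, mul_eq_one_iff_eq_inv] using this
  · rw [← Nat.card_coe_set_eq, ← Nat.card_coe_set_eq, H2.card_frobKernel hF, hC.index_eq_card]
    rfl

theorem twoFrob_core {H K : Subgroup G} [H.Normal] [K.Normal] (hle : H ≤ K) (h1 : H ≠ ⊥)
    (hc : (Nat.card H).Coprime (H.relIndex K)) (hF : FK H K) {x : G ⧸ H} {p : ℕ} (hp : p.Prime)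
    (hx : x ^ p = 1) (hxK : K.map (QuotientGroup.mk' H) ⊓ centralizer {x} = ⊥) :
    ∃ B : Subgroup G, B ≤ K ∧ H ⊓ B = ⊥ ∧ H ⊔ B = K ∧ Nat.card B = H.relIndex K ∧
      Odd (Nat.card B) ∧ IsCyclic B ∧ IsCyclic (K.map (QuotientGroup.mk' H)) := by
  set f := QuotientGroup.mk' H
  obtain ⟨B, b1, b2, b3, b4⟩ := H1.schurZassenhaus_exists hle (le_NN_of_normal _ _) hc
  have hk : ∀ g, f g = 1 ↔ g ∈ H := fun g => QuotientGroup.eq_one_iff g
  have b0 : ∀ b ∈ B, b ∈ H → b = 1 := fun b h1 h2 => by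
    have : b ∈ H ⊓ B := ⟨h2, h1⟩
    rwa [b2, mem_bot] at this
  have hBm : B.map f = K.map f := by
    rw [← b3, Subgroup.map_sup, (Subgroup.map_eq_bot_iff _).2 (QuotientGroup.ker_mk' H).ge,
      bot_sup_eq]
  have hfpf : ∀ b ∈ B, b ≠ 1 → H ⊓ centralizer {b} = ⊥ := fun b hb b1' =>
    hF.fpf (b1 hb) fun e => b1' (b0 b hb e)
  haveI : (K.map f).Normal := Normal.map inferInstance f (QuotientGroup.mk'_surjective H)
  have hodd : Odd (Nat.card B) := by
    rw [← Nat.not_even_iff_odd, even_iff_two_dvd]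
    intro h2
    haveI : Fact (Nat.Prime 2) := ⟨Nat.prime_two⟩
    obtain ⟨t, ht, ht2⟩ := exists_orderOf_eq_of_dvd h2
    have t1 : t ≠ 1 := ne_one_of_orderOf_eq ht2
    have tt : t * t = 1 := by rw [← pow_two, ← ht2, pow_orderOf_eq_one]
    have inv : ∀ b ∈ B, b ≠ 1 → b * b = 1 → ∀ d ∈ H, b * d * b⁻¹ = d⁻¹ := fun b hb h1 h2 =>
      H6.inverts_of_fpf h2 (fun d hd => (inferInstance : H.Normal).conj_mem d hd b) fun d hd hc => by
        have : d ∈ H ⊓ centralizer {b} := ⟨hd, mem_centralizer_singleton_iff.2 hc.symm.eq⟩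
        rwa [hfpf b hb h1, mem_bot] at this
    obtain ⟨b, hb, e⟩ : x * f t * x⁻¹ ∈ B.map f := hBm ▸
      (inferInstance : (K.map f).Normal).conj_mem _ (mem_map_of_mem f (b1 ht)) x
    have ft : f t ≠ 1 := fun e => t1 (b0 t ht ((hk t).1 e))
    have hb1 : b ≠ 1 := by
      rintro rfl
      rw [map_one, eq_comm, mul_inv_eq_one, mul_eq_left] at e
      exact ft e
    have hbb : b * b = 1 := b0 _ (mul_mem hb hb) ((hk _).1 (by
      rw [map_mul, e, show x * f t * x⁻¹ * (x * f t * x⁻¹) = x * f (t * t) * x⁻¹ by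
        rw [map_mul]; group, tt]; simp))
    obtain ⟨d, hd, d1⟩ := (H.bot_or_exists_ne_one).resolve_left h1
    have hbt : b * t = 1 := by
      refine b0 _ (mul_mem hb ht) (hF d hd d1 _ (b1 (mul_mem hb ht)) ?_)
      have a1 := inv t ht t1 tt d hd
      have a2 := inv b hb hb1 hbb d⁻¹ (inv_mem hd)
      rw [inv_inv, ← a1] at a2
      change d * (b * t) = b * t * d
      conv_lhs => rw [← a2]
      group
    have : b = t := by rw [eq_inv_of_mul_eq_one_left hbt, inv_eq_of_mul_eq_one_left tt]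
    rw [this, eq_mul_inv_iff_mul_eq] at e
    have : f t ∈ K.map f ⊓ centralizer {x} :=
      ⟨mem_map_of_mem f (b1 ht), mem_centralizer_singleton_iff.2 e⟩
    rw [hxK, mem_bot] at this
    exact ft this
  haveI := H2.isZGroup_of_fpf_odd h1 (le_NN_of_normal B H) hfpf hodd
  haveI := H2.thompson_fpf_conj (le_NN_of_normal ⊤ _ (mem_top x)) hp hx hxK
  let φ : B →* K.map f := (f.comp B.subtype).codRestrict _ fun b => mem_map_of_mem f (b1 b.2)
  have φi : Function.Injective φ := (injective_iff_map_eq_one _).2 fun b h =>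
    Subtype.ext (b0 b b.2 ((hk _).1 (congrArg Subtype.val h)))
  have φs : Function.Surjective φ := by
    rintro ⟨y, hy⟩
    rw [← hBm] at hy
    obtain ⟨b, hb, rfl⟩ := hy
    exact ⟨⟨b, hb⟩, rfl⟩
  haveI : Group.IsNilpotent B := Group.nilpotent_of_mulEquiv (MulEquiv.ofBijective φ ⟨φi, φs⟩).symm
  have : IsCyclic B := inferInstance
  exact ⟨B, b1, b2, b3, b4, hodd, this, isCyclic_of_surjective φ φs⟩

omit [Finite G] in
theorem exists_orderOf_of_dvd {g : G} {n : ℕ} (h0 : orderOf g ≠ 0) (h : n ∣ orderOf g) :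
    ∃ k, orderOf (g ^ k) = n :=
  ⟨orderOf g / n, orderOf_pow_orderOf_div h0 h⟩

end H12
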