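import Cfsg.Agent.H12.QdX
import Cfsg.Agent.H12.KCtl
import Cfsg.Agent.H23.FieldSq
import Cfsg.Prelude.Def_Classical

/-! `p`-local subgroups of `SU₃(q)` fix an isotropic point; `Qd(p)` is not involved. -/

set_option autoImplicit false

namespace H12.U3Q

open Cfsg Matrix
open scoped MatrixGroups

variable {K : Type*} [Field K]

theorem par {a b c d e f x y z : K} (h1 : a * x + b * y + c * z = 0)
    (h2 : d * x + e * y + f * z = 0) :
    (b * f - c * e) * y = (c * d - a * f) * x ∧ (b * f - c * e) * z = (a * e - b * d) * x ∧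
      (c * d - a * f) * z = (a * e - b * d) * y :=
  ⟨by linear_combination f * h1 - c * h2, by linear_combination (-e) * h1 + b * h2,
    by linear_combination d * h1 - a * h2⟩

theorem nil3 (M : Matrix (Fin 3) (Fin 3) K) {e u : Fin 3 → K} (he : e ≠ 0) (hu : u ≠ 0)
    (h1 : M *ᵥ e = 0) (h2 : u ᵥ* M = 0) (h3 : u ⬝ᵥ e = 0) (h4 : (1 + M).det = 1) : M ^ 3 = 0 := by
  have a0 := congrFun h1 0
  have a1 := congrFun h1 1
  have a2 := congrFun h1 2
  have b0 := congrFun h2 0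
  have b1 := congrFun h2 1
  have b2 := congrFun h2 2
  simp only [mulVec, vecMul, dotProduct, Fin.sum_univ_three, Pi.zero_apply] at a0 a1 a2 b0 b1 b2 h3
  have hd : M.det = 0 := by
    by_contra hd
    exact he (eq_zero_of_mulVec_eq_zero hd h1)
  have key : ∀ k l, (M 0 0 * M 1 1 - M 0 1 * M 1 0 + (M 0 0 * M 2 2 - M 0 2 * M 2 0) +
      (M 1 1 * M 2 2 - M 1 2 * M 2 1)) * (e k * u l) = 0 := by
    obtain ⟨c1, c2, c3⟩ := par a0 a1
    obtain ⟨c4, c5, c6⟩ := par a0 a2
    obtain ⟨c7, c8, c9⟩ := par a1 a2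
    intro k l
    fin_cases k <;> fin_cases l <;> simp only [Fin.zero_eta, Fin.mk_one, Fin.reduceFinMk] <;> grind
  obtain ⟨k, hk⟩ := Function.ne_iff.1 he
  obtain ⟨l, hl⟩ := Function.ne_iff.1 hu
  have h5 := (mul_eq_zero.1 (key k l)).resolve_right (mul_ne_zero hk hl)
  rw [det_fin_three] at hd h4
  simp only [Matrix.add_apply, one_apply_eq, ne_eq, Fin.reduceEq, not_false_eq_true, one_apply_ne,
    zero_add] at h4
  have h6 : M 0 0 + M 1 1 + M 2 2 = 0 := by linear_combination h4 - hd - h5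
  ext i j
  simp only [pow_three, Matrix.mul_apply, Fin.sum_univ_three, Matrix.zero_apply]
  fin_cases i <;> fin_cases j <;> simp only [Fin.zero_eta, Fin.mk_one, Fin.reduceFinMk] <;> grind

theorem cross_zero (σ : K →+* K) {a b : Fin 3 → K}
    (h1 : a 0 * σ (a 0) + a 1 * σ (a 1) + a 2 * σ (a 2) = 0)
    (h2 : b 0 * σ (a 0) + b 1 * σ (a 1) + b 2 * σ (a 2) = 0)
    (h3 : a 0 * σ (b 0) + a 1 * σ (b 1) + a 2 * σ (b 2) = 0)
    (h4 : b 0 * σ (b 0) + b 1 * σ (b 1) + b 2 * σ (b 2) = 0) (i j : Fin 3) :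
    a i * b j = a j * b i := by
  obtain ⟨c1, c2, c3⟩ := par h1 h2
  obtain ⟨c4, c5, c6⟩ := par h3 h4
  have key : ∀ x : K, x * σ x = 0 → x = 0 := fun x hx =>
    (mul_eq_zero.1 hx).elim id fun h => (map_eq_zero σ).1 h
  have d0 := key (a 1 * b 2 - a 2 * b 1) (by rw [map_sub, map_mul, map_mul]; grind)
  have d1 := key (a 2 * b 0 - a 0 * b 2) (by rw [map_sub, map_mul, map_mul]; grind)
  have d2 := key (a 0 * b 1 - a 1 * b 0) (by rw [map_sub, map_mul, map_mul]; grind)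
  fin_cases i <;> fin_cases j <;> simp only [Fin.zero_eta, Fin.mk_one, Fin.reduceFinMk] <;> grind

variable [Fintype K] {q : ℕ} (hK : Fintype.card K = q ^ 2)

theorem herm (u v : Fin 3 → K) : hermForm 3 K q u v =
    u 0 * H23.conj hK (v 0) + u 1 * H23.conj hK (v 1) + u 2 * H23.conj hK (v 2) := by
  simp [hermForm, Fin.sum_univ_three]

omit [Fintype K] in
theorem form (g : SU 3 K q) (u v : Fin 3 → K) :
    hermForm 3 K q (g.1.1 *ᵥ u) (g.1.1 *ᵥ v) = hermForm 3 K q u v := g.2 u v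

omit [Fintype K] in
theorem mul_vec (g h : SU 3 K q) (v : Fin 3 → K) : (g * h).1.1 *ᵥ v = g.1.1 *ᵥ (h.1.1 *ᵥ v) := by
  rw [mulVec_mulVec]; rfl

omit [Fintype K] in
theorem one_vec (v : Fin 3 → K) : (1 : SU 3 K q).1.1 *ᵥ v = v := one_mulVec v

omit [Fintype K] in
theorem herm_sub (u v w : Fin 3 → K) :
    hermForm 3 K q (u - v) w = hermForm 3 K q u w - hermForm 3 K q v w := by
  simp [hermForm, sub_mul, Finset.sum_sub_distrib]

include hK

variable {p : ℕ} [hp : Fact p.Prime] [CharP K p]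

theorem pow_p (hp2 : p ≠ 2) {g : SU 3 K q} {e : Fin 3 → K} (he : e ≠ 0)
    (h1 : hermForm 3 K q e e = 0) (h2 : g.1.1 *ᵥ e = e) : g ^ p = 1 := by
  have h3 : (g.1.1 - 1) ^ 3 = 0 := by
    refine nil3 _ he (u := H23.conj hK ∘ e) (fun h => he (funext fun i => ?_)) ?_ ?_ ?_ ?_
    · exact (map_eq_zero (H23.conj hK)).1 (congrFun h i)
    · rw [sub_mulVec, h2, one_mulVec, sub_self]
    · funext j
      have := form g (Pi.single j 1) e
      rw [h2, herm hK, herm hK] at this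
      simp only [vecMul, dotProduct, Fin.sum_univ_three, Function.comp, Matrix.sub_apply,
        Pi.zero_apply]
      simp only [mulVec_single_one, col_apply] at this
      fin_cases j <;> simp [Matrix.one_apply] at this ⊢ <;> linear_combination this
    · rw [herm hK] at h1
      simp only [dotProduct, Fin.sum_univ_three, Function.comp]
      linear_combination h1
    · rw [add_sub_cancel]; exact g.1.2
  have h4 : 3 ≤ p := by have := hp.out.two_le; omega
  apply Subtype.ext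
  apply Subtype.ext
  change (g ^ p).1.1 = 1
  rw [SubgroupClass.coe_pow, Matrix.SpecialLinearGroup.coe_pow, ← add_sub_cancel 1 g.1.1,
    add_pow_char_of_commute _ (Commute.one_left _), one_pow, pow_eq_zero_of_le h4 h3, add_zero]

theorem exists_iso {P : Subgroup (SU 3 K q)} (hP : IsPGroup p P) (h0 : P ≠ ⊥) :
    ∃ e : Fin 3 → K, e ≠ 0 ∧ hermForm 3 K q e e = 0 ∧
      ∀ g ∈ Subgroup.normalizer (P : Set (SU 3 K q)), ∃ l : K, g.1.1 *ᵥ e = l • e := by
  let S : Set (Fin 3 → K) := {w | ∀ f, (∀ g ∈ P, g.1.1 *ᵥ f = f) → hermForm 3 K q w f = 0}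
  have hfix : ∀ x ∈ Subgroup.normalizer (P : Set (SU 3 K q)), ∀ f,
      (∀ g ∈ P, g.1.1 *ᵥ f = f) → ∀ g ∈ P, g.1.1 *ᵥ (x.1.1 *ᵥ f) = x.1.1 *ᵥ f := by
    intro x hx f hf g hg
    have h1 : x⁻¹ * g * x ∈ P := by
      have := (Subgroup.mem_normalizer_iff.1 (inv_mem hx) g).1 hg
      rwa [inv_inv] at this
    rw [← mul_vec, show g * x = x * (x⁻¹ * g * x) by group, mul_vec, hf _ h1]
  have hS : ∀ x ∈ Subgroup.normalizer (P : Set (SU 3 K q)), ∀ w ∈ S, x.1.1 *ᵥ w ∈ S := by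
    intro x hx w hw f hf
    have h1 := hw _ (hfix _ (inv_mem hx) f hf)
    rwa [← form x, ← mul_vec x x⁻¹, mul_inv_cancel, one_vec] at h1
  let W : Submodule K (Fin 3 → K) :=
    { carrier := S
      add_mem' := fun {a b} ha hb f hf => by
        have h1 := ha f hf
        have h2 := hb f hf
        rw [herm hK] at h1 h2 ⊢
        simp only [Pi.add_apply]
        linear_combination h1 + h2
      zero_mem' := fun f _ => by simp [hermForm]
      smul_mem' := fun c a ha f hf => by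
        have h1 := ha f hf
        rw [herm hK] at h1 ⊢
        simp only [Pi.smul_apply, smul_eq_mul]
        linear_combination c * h1 }
  letI : MulAction P W :=
    { smul := fun g w => ⟨g.1.1.1 *ᵥ w.1, hS _ (Subgroup.le_normalizer g.2) _ w.2⟩
      one_smul := fun w => Subtype.ext (one_vec _)
      mul_smul := fun g h w => Subtype.ext (mul_vec _ _ _) }
  obtain ⟨g, hg, hg1⟩ : ∃ g ∈ P, g ≠ 1 := by
    by_contra! h
    exact h0 ((Subgroup.eq_bot_iff_forall P).2 h)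
  obtain ⟨w, hw⟩ : ∃ w : Fin 3 → K, g.1.1 *ᵥ w ≠ w := by
    by_contra! h
    exact hg1 (Subtype.ext (Subtype.ext (Matrix.ext_iff_mulVec.2 fun v => by
      rw [h v]; exact (one_vec v).symm)))
  have h1 : g.1.1 *ᵥ w - w ∈ W := fun f hf => by
    rw [herm_sub, ← form g w f, hf g hg, sub_self]
  haveI : Nontrivial W := ⟨⟨⟨_, h1⟩, 0, fun h => hw (sub_eq_zero.1 (congrArg Subtype.val h))⟩⟩
  have hd : p ∣ Nat.card W := by
    rw [Module.natCard_eq_pow_finrank (K := K)]
    refine dvd_pow ?_ Module.finrank_pos.ne'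
    obtain ⟨n, -, hn⟩ := FiniteField.card K p
    rw [Nat.card_eq_fintype_card, hn]
    exact dvd_pow_self _ n.ne_zero
  obtain ⟨e, he, he0⟩ := hP.exists_fixed_point_of_prime_dvd_card_of_fixed_point W hd
    (a := 0) (fun g => Subtype.ext (mulVec_zero g.1.1.1))
  have he1 : ∀ g ∈ P, g.1.1 *ᵥ e.1 = e.1 := fun g hg => congrArg Subtype.val (he ⟨g, hg⟩)
  have he2 : e.1 ≠ 0 := fun h => he0 (Subtype.ext h.symm)
  refine ⟨e.1, he2, e.2 _ he1, fun x hx => ?_⟩
  have h2 := hfix x hx _ he1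
  have h3 := hS x hx _ e.2
  have h4 := cross_zero (H23.conj hK) ((herm hK _ _).symm.trans (e.2 _ he1))
    ((herm hK _ _).symm.trans (h3 _ he1)) ((herm hK _ _).symm.trans (e.2 _ h2))
    ((herm hK _ _).symm.trans (h3 _ h2))
  obtain ⟨i, hi⟩ := Function.ne_iff.1 he2
  refine ⟨(x.1.1 *ᵥ e.1) i / e.1 i, funext fun j => ?_⟩
  rw [Pi.smul_apply, smul_eq_mul, div_mul_eq_mul_div, eq_div_iff hi]
  linear_combination h4 i j

theorem comm_pow (hp2 : p ≠ 2) {P : Subgroup (SU 3 K q)} (hP : IsPGroup p P) (h0 : P ≠ ⊥)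
    {x y : SU 3 K q} (hx : x ∈ Subgroup.normalizer (P : Set (SU 3 K q)))
    (hy : y ∈ Subgroup.normalizer (P : Set (SU 3 K q))) : (x * y * (y * x)⁻¹) ^ p = 1 := by
  obtain ⟨e, he, h1, h2⟩ := exists_iso hK hP h0
  obtain ⟨l, hl⟩ := h2 x hx
  obtain ⟨m, hm⟩ := h2 y hy
  refine pow_p hK hp2 he h1 ?_
  have h3 : (y * x).1.1 *ᵥ e = (l * m) • e := by rw [mul_vec, hl, mulVec_smul, hm, smul_smul]
  have h4 : (x * y).1.1 *ᵥ e = (l * m) • e := by
    rw [mul_vec, hm, mulVec_smul, hl, smul_smul, mul_comm]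
  have h5 : l * m ≠ 0 := fun h => he (by
    have := mul_vec (y * x)⁻¹ (y * x) e
    rwa [h3, h, zero_smul, mulVec_zero, inv_mul_cancel, one_vec] at this)
  have h6 := mul_vec (x * y * (y * x)⁻¹) (y * x) e
  rw [inv_mul_cancel_right, h3, h4, mulVec_smul] at h6
  exact (smul_right_injective _ h5 h6).symm

theorem not_qd (hp2 : p ≠ 2) : ¬ Involves (qd p) (PSU 3 K q) := by
  intro h
  have h1 := (H12.involves_iff.1 h).of_surjective (QuotientGroup.mk'_surjective _)
  obtain ⟨P, H, φ, hP, h0, -, hH, hφ, -⟩ := H12.exists_sl2_of_qd (F := ZMod p) (p := p) h1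
  obtain ⟨a, b, hab⟩ := ZMod.sq_add_sq p (-1)
  obtain ⟨x, hx⟩ := hφ ⟨!![0, -1; 1, 0], by simp [det_fin_two]⟩
  obtain ⟨y, hy⟩ := hφ ⟨!![a, b; b, -a], by rw [det_fin_two]; simp; linear_combination -hab⟩
  replace hx : (φ x).1 = !![0, -1; 1, 0] := congrArg Subtype.val hx
  replace hy : (φ y).1 = !![a, b; b, -a] := congrArg Subtype.val hy
  have h2 : (x * y * (y * x)⁻¹) ^ p = 1 := Subtype.ext (comm_pow hK hp2 hP h0 (hH x.2) (hH y.2))
  have h3 : φ (x * y * (y * x)⁻¹) = -1 := by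
    rw [map_mul, map_inv, mul_inv_eq_iff_eq_mul, map_mul, map_mul]
    apply Subtype.ext
    simp only [Matrix.SpecialLinearGroup.coe_mul, hx, hy, Matrix.SpecialLinearGroup.coe_neg,
      Matrix.SpecialLinearGroup.coe_one]
    ext i j
    fin_cases i <;> fin_cases j <;> simp [Matrix.mul_apply, Fin.sum_univ_two]
  have h4 := congrArg φ h2
  rw [map_pow, h3, map_one, (hp.out.odd_of_ne_two hp2).neg_one_pow] at h4
  have h5 : (-1 : ZMod p) = 1 := by
    have := congrArg (fun M : SL(2, ZMod p) => M.1 0 0) h4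
    simpa using this
  have h6 : ((2 : ℕ) : ZMod p) = 0 := by push_cast; linear_combination -h5
  exact hp2 ((Nat.prime_dvd_prime_iff_eq hp.out Nat.prime_two).1 ((ZMod.natCast_eq_zero_iff 2 p).1 h6))

end H12.U3Q
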