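import Cfsg.Agent.H19.BS3
import Cfsg.Agent.H1.Cores
import Cfsg.Prelude.Def_CaseTheorems

set_option autoImplicit false
open Subgroup Cfsg

namespace H12

variable {G : Type*} [Group G]

theorem conj_of_odd_mul {s t : G} (hs : s * s = 1) (h : Odd (orderOf (s * t))) :
    ∃ k : ℕ, ((s * t) ^ k)⁻¹ * s * (s * t) ^ k = t ∨ t * t ≠ 1 := by
  by_cases ht : t * t = 1
  swap
  · exact ⟨0, Or.inr ht⟩
  obtain ⟨r, hr⟩ := h
  refine ⟨r + 1, Or.inl ?_⟩
  have e1 : s * (s * t) * s⁻¹ = (s * t)⁻¹ := by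
    rw [← mul_assoc, hs, one_mul, mul_inv_rev, ← eq_inv_of_mul_eq_one_left ht]
  have e2 : ((s * t) ^ (r + 1))⁻¹ = s * (s * t) ^ (r + 1) * s⁻¹ := by
    rw [← conj_pow, e1, inv_pow]
  have e3 : (s * t) ^ (r + 1) * (s * t) ^ (r + 1) = s * t := by
    rw [← pow_add, show r + 1 + (r + 1) = 2 * r + 1 + 1 by ring, pow_succ, ← hr, pow_orderOf_eq_one,
      one_mul]
  rw [e2, inv_mul_cancel_right, mul_assoc, e3, ← mul_assoc, hs, one_mul]

/-- Glauberman's `Z*`-theorem as a factorization. -/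
theorem cent_sup_oddCore [Finite G] {j : G} (h : IsIsolatedInvolution j) :
    centralizer ({j} : Set G) ⊔ oddCore G = ⊤ := by
  haveI : Fact (Nat.Prime 2) := ⟨Nat.prime_two⟩
  have hj : j * j = 1 := by rw [← sq, ← h.1, pow_orderOf_eq_one]
  rw [eq_top_iff]
  intro g _
  have h1 : j * (g * j * g⁻¹) ∈ oddCore G := by
    have := H19.zstar h g
    rwa [← eq_inv_of_mul_eq_one_left hj, mul_assoc, mul_assoc, ← mul_assoc g] at this
  have h2 : Odd (orderOf (j * (g * j * g⁻¹))) :=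
    Nat.coprime_two_right.1 ((H1.coprime_card_pPrimeCore (G := G) 2).coprime_dvd_left
      (orderOf_dvd_natCard _ h1))
  obtain ⟨k, hk | hk⟩ := conj_of_odd_mul hj h2
  · set w := (j * (g * j * g⁻¹)) ^ k
    have hw : w ∈ oddCore G := pow_mem h1 k
    have : w * g ∈ centralizer ({j} : Set G) := by
      rw [mem_centralizer_singleton_iff]
      calc w * g * j = w * (g * j * g⁻¹) * g := by group
        _ = _ := by rw [← hk]; group
    exact (mul_mem_cancel_left (mem_sup_right hw)).1 (mem_sup_left this)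
  · exact absurd (by rw [conj_mul, hj]; group) hk

end H12
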